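import Mathlib
import Cfsg.Agent.H407.TwoSp
import Cfsg.Agent.H364.Core

/-!
# Isolation of the torus of order `(q ^ n + 1) / d` in `PSp(2n,q)`, `n` a power of two
-/

set_option autoImplicit false

namespace Cfsg.Agent.H365.TorIsol

open Module Cfsg Polynomial

/-- an endomorphism commuting with an irreducible endomorphism of prime order is a polynomial in it -/
theorem comm_poly {F V : Type*} [Field F] [Finite F] [AddCommGroup V] [Module F V] [FiniteDimensional F V]
    {X U : Module.End F V} {r : ℕ} (hr : r.Prime) (hrF : (r : F) ≠ 0) (hX : X ^ r = 1) (hX1 : X ≠ 1)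
    (he : orderOf ((Nat.card F : ℕ) : ZMod r) = finrank F V) (hXU : X * U = U * X) :
    ∃ g : F[X], U = aeval X g := by
  obtain ⟨v, hv⟩ : ∃ v : V, X v ≠ v := by
    by_contra h
    push Not at h
    exact hX1 (LinearMap.ext h)
  have hv0 : v ≠ 0 := fun h => hv (by rw [h, map_zero])
  -- the cyclic submodule
  let L : F[X] →ₗ[F] V := (LinearMap.applyₗ v).comp (aeval X).toLinearMap
  have hL : ∀ g, L g = (aeval X g) v := fun g => rfl
  have htop : LinearMap.range L = ⊤ := by
    refine (H407.TwoSp.irred hr hrF hX hX1 he (LinearMap.range L) ?_).resolve_left ?_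
    · rintro _ ⟨g, rfl⟩
      refine ⟨Polynomial.X * g, ?_⟩
      rw [hL, hL, map_mul, aeval_X]
      rfl
    · intro h
      apply hv0
      have h1 : v ∈ LinearMap.range L := ⟨1, by rw [hL, map_one]; rfl⟩
      rw [h] at h1
      exact (Submodule.mem_bot F).1 h1
  have hcom : ∀ g : F[X], (aeval X g) * U = U * (aeval X g) := by
    intro g
    induction g using Polynomial.induction_on' with
    | add a b ha hb => rw [map_add, add_mul, mul_add, ha, hb]
    | monomial i a =>
      have h2 : Commute X U := hXU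
      rw [aeval_monomial]
      exact (Commute.mul_left (Algebra.commutes a U) (h2.pow_left i)).eq
  obtain ⟨g, hg⟩ : U v ∈ LinearMap.range L := by rw [htop]; trivial
  refine ⟨g, LinearMap.ext fun w => ?_⟩
  obtain ⟨h, rfl⟩ : w ∈ LinearMap.range L := by rw [htop]; trivial
  have h1 : U (L h) = (aeval X h) (U v) := by
    rw [hL]
    exact (congrArg (fun f : Module.End F V => f v) (hcom h)).symm
  rw [h1, ← hg, hL, hL]
  have h2 : (aeval X h) * (aeval X g) = (aeval X g) * (aeval X h) := by rw [← map_mul, ← map_mul, mul_comm]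
  exact congrArg (fun f : Module.End F V => f v) h2

theorem aeval_pow_card {F : Type*} [Field F] [Fintype F] {A : Type*} [Ring A] [Algebra F A] (X : A) (g : F[X]) (k : ℕ) :
    aeval (X ^ (Fintype.card F) ^ k) g = (aeval X g) ^ (Fintype.card F) ^ k := by
  induction k with
  | zero => simp
  | succ k ih =>
    rw [pow_succ, pow_mul, pow_mul, ← ih]
    have h1 : ∀ (Y : A), aeval (Y ^ Fintype.card F) g = (aeval Y g) ^ Fintype.card F := by
      intro Y
      rw [← map_pow, ← FiniteField.expand_card, expand_aeval]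
    exact h1 _

/-- the adjoint of a polynomial in a symplectic matrix -/
theorem adj {F : Type*} [Field F] {ι : Type*} [Fintype ι] [DecidableEq ι] {J X : Matrix ι ι F} {N : ℕ}
    (hX : X * J * X.transpose = J) (hN : X ^ (N + 1) = 1) (g : F[X]) :
    J * (aeval X g).transpose = aeval (X ^ N) g * J := by
  have h0 : J * X.transpose = X ^ N * J := by
    have h1 : X ^ N * (X * J * X.transpose) = X ^ N * J := by rw [hX]
    rw [← mul_assoc, ← mul_assoc, ← pow_succ, hN, one_mul] at h1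
    exact h1
  have h1 : ∀ i : ℕ, J * (X.transpose) ^ i = (X ^ N) ^ i * J := by
    intro i
    induction i with
    | zero => simp
    | succ i ih => rw [pow_succ, ← mul_assoc, ih, mul_assoc, h0, ← mul_assoc, ← pow_succ]
  induction g using Polynomial.induction_on' with
  | add a b ha hb => rw [map_add, map_add, Matrix.transpose_add, mul_add, add_mul, ha, hb]
  | monomial i a =>
    rw [aeval_monomial, aeval_monomial, Matrix.transpose_mul, Matrix.transpose_pow, ← mul_assoc, h1,
      Algebra.algebraMap_eq_smul_one, Matrix.transpose_smul, Matrix.transpose_one]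
    simp

theorem order_two_mul {q n k r : ℕ} (hn : n = 2 ^ k) (hr : r.Prime) (hr2 : r ≠ 2) (h : r ∣ q ^ n + 1) :
    orderOf ((q : ℕ) : ZMod r) = 2 * n := by
  have := Fact.mk hr
  have h1 : (q : ZMod r) ^ n = -1 := by
    have h2 := (ZMod.natCast_eq_zero_iff (q ^ n + 1) r).2 h
    push_cast at h2
    exact eq_neg_of_add_eq_zero_left h2
  have h3 : (1 : ZMod r) ≠ -1 := by
    intro h4
    have h5 : ((2 : ℕ) : ZMod r) = 0 := by push_cast; linear_combination h4
    exact hr2 ((Nat.prime_dvd_prime_iff_eq hr Nat.prime_two).1 ((ZMod.natCast_eq_zero_iff 2 r).1 h5))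
  have h6 : orderOf (q : ZMod r) = 2 ^ (k + 1) := by
    apply orderOf_eq_prime_pow
    · rw [← hn, h1]
      exact fun h => h3 h.symm
    · rw [pow_succ, pow_mul, ← hn, h1]; ring
  rw [h6, pow_succ, hn, mul_comm]

/-- **Isolation of the torus of order `(q ^ n + 1) / d`.** -/
theorem psp_isol {F : Type*} [Field F] [Fintype F] {n k : ℕ} (hn : n = 2 ^ k) {r : ℕ} (hr : r.Prime)
    (hr2 : r ≠ 2) (hrt : r ∣ Fintype.card F ^ n + 1) (x : PSp n F) (h : r ∣ orderOf x) :
    orderOf x ∣ (Fintype.card F ^ n + 1) / Nat.gcd 2 (Fintype.card F - 1) := by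
  obtain ⟨q, hq⟩ : ∃ q, q = Fintype.card F := ⟨_, rfl⟩
  have ho : orderOf ((q : ℕ) : ZMod r) = 2 * n := order_two_mul hn hr hr2 (hq ▸ hrt)
  have hrF : (r : F) ≠ 0 := by
    obtain ⟨p, hp⟩ := CharP.exists F
    have hpp := CharP.char_is_prime F p
    intro h0
    have h1 : p = r := (Nat.prime_dvd_prime_iff_eq hpp hr).1 ((CharP.cast_eq_zero_iff F p r).1 h0)
    subst h1
    have h2 : p ∣ Fintype.card F := by
      rw [← CharP.cast_eq_zero_iff F p]; exact FiniteField.cast_card_eq_zero F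
    have h3 : p ∣ Fintype.card F ^ n := dvd_pow h2 (by rw [hn]; positivity)
    exact hr.one_lt.ne' (Nat.dvd_one.1 ((Nat.dvd_add_right h3).1 hrt))
  obtain ⟨g, rfl⟩ := QuotientGroup.mk_surjective x
  set Z := Subgroup.center (Matrix.symplecticGroup (Fin n) F) with hZ
  have hfin : Finite (Matrix.symplecticGroup (Fin n) F) := Subtype.finite
  have hfin' : Finite (PSp n F) := Quotient.finite _
  have hdvd : orderOf (QuotientGroup.mk g : PSp n F) ∣ orderOf g := orderOf_map_dvd (QuotientGroup.mk' Z) g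
  obtain ⟨m, hm⟩ : r ∣ orderOf g := h.trans hdvd
  have hog : 0 < orderOf g := orderOf_pos g
  have hm0 : 0 < m := Nat.pos_of_ne_zero (by rintro rfl; omega)
  have hvr : (g ^ m) ^ r = 1 := by rw [← pow_mul, mul_comm, ← hm, pow_orderOf_eq_one]
  have hv1 : g ^ m ≠ 1 := by
    intro h1
    have h2 := Nat.le_of_dvd hm0 (orderOf_dvd_of_pow_eq_one h1)
    rw [hm] at h2
    have := hr.two_le
    nlinarith
  let A : Matrix (Fin n ⊕ Fin n) (Fin n ⊕ Fin n) F := (g : Matrix (Fin n ⊕ Fin n) (Fin n ⊕ Fin n) F)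
  let φ : Matrix (Fin n ⊕ Fin n) (Fin n ⊕ Fin n) F ≃ₐ[F] Module.End F (Fin n ⊕ Fin n → F) := Matrix.toLinAlgEquiv'
  have hgA : ∀ k : ℕ, ((g ^ k : Matrix.symplecticGroup (Fin n) F) : Matrix (Fin n ⊕ Fin n) (Fin n ⊕ Fin n) F) =
      A ^ k := fun k => rfl
  have hAr : (A ^ m) ^ r = 1 := by
    rw [← pow_mul, mul_comm, ← hm, ← hgA, pow_orderOf_eq_one]; rfl
  have hA1 : A ^ m ≠ 1 := by
    intro h1
    rw [← hgA] at h1
    exact hv1 (Subtype.ext h1)
  have hX : (φ (A ^ m)) ^ r = 1 := by rw [← map_pow, hAr, map_one]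
  have hX1 : φ (A ^ m) ≠ 1 := by
    intro h1
    rw [← map_one φ] at h1
    exact hA1 (φ.injective h1)
  have hXU : φ (A ^ m) * φ A = φ A * φ (A ^ m) := by
    rw [← map_mul, ← map_mul, ← pow_succ, ← pow_succ']
  have hd : finrank F (Fin n ⊕ Fin n → F) = 2 * n := by
    rw [Module.finrank_fintype_fun_eq_card, Fintype.card_sum, Fintype.card_fin]; ring
  have he' : orderOf ((Nat.card F : ℕ) : ZMod r) = finrank F (Fin n ⊕ Fin n → F) := by
    rw [Nat.card_eq_fintype_card, ← hq, hd, ho]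
  obtain ⟨G0, hG0⟩ := comm_poly hr hrF hX hX1 he' hXU
  have hA : A = aeval (A ^ m) G0 := by
    apply φ.injective
    rw [hG0]
    exact Polynomial.aeval_algHom_apply φ.toAlgHom (A ^ m) G0
  have hAJ : ∀ y : Matrix.symplecticGroup (Fin n) F,
      (y : Matrix (Fin n ⊕ Fin n) (Fin n ⊕ Fin n) F) * Matrix.J (Fin n) F * (y : Matrix _ _ F).transpose = Matrix.J (Fin n) F :=
    fun y => SymplecticGroup.mem_iff.1 y.2
  have hrt' : r ∣ q ^ n + 1 := hq ▸ hrt
  have hN1 : (A ^ m) ^ (q ^ n + 1) = 1 := by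
    obtain ⟨c, hc⟩ := hrt'
    rw [hc, pow_mul, hAr, one_pow]
  have h1 := adj (X := A ^ m) (J := Matrix.J (Fin n) F) (N := q ^ n) (by rw [← hgA]; exact hAJ _) hN1 G0
  rw [hq, aeval_pow_card (A ^ m) G0 n, ← hq, ← hA] at h1
  have h2 : A * Matrix.J (Fin n) F * A.transpose = Matrix.J (Fin n) F := hAJ g
  rw [mul_assoc, h1, ← mul_assoc, ← pow_succ'] at h2
  have hJ : Matrix.J (Fin n) F * Matrix.J (Fin n) F = -1 := Matrix.J_squared (Fin n) F
  have h3 : A ^ (q ^ n + 1) = 1 := by
    have h4 : A ^ (q ^ n + 1) * (Matrix.J (Fin n) F * Matrix.J (Fin n) F) = Matrix.J (Fin n) F * Matrix.J (Fin n) F := by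
      rw [← mul_assoc, h2]
    rw [hJ, mul_neg, mul_one, neg_inj] at h4
    exact h4
  have hg1 : g ^ (q ^ n + 1) = 1 := by
    apply Subtype.ext
    rw [hgA]; exact h3
  rw [← hq]
  have hq1 : 1 < q := by rw [hq]; exact Fintype.one_lt_card
  have hn0 : n ≠ 0 := by rw [hn]; positivity
  rcases Nat.even_or_odd q with hev | hodd
  · have h5 : Nat.gcd 2 (q - 1) = 1 := by
      rw [← Nat.coprime_iff_gcd_eq_one, Nat.coprime_two_left]
      obtain ⟨c, hc⟩ := hev
      exact ⟨c - 1, by omega⟩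
    rw [h5, Nat.div_one]
    exact hdvd.trans (orderOf_dvd_of_pow_eq_one hg1)
  · have h5 : Nat.gcd 2 (q - 1) = 2 := Nat.gcd_eq_left (by obtain ⟨c, hc⟩ := hodd; exact ⟨c, by omega⟩)
    have h6 : 2 ∣ q ^ n + 1 := by
      rw [← even_iff_two_dvd]
      exact (hodd.pow).add_one
    obtain ⟨c, hc⟩ := h6
    rw [h5, hc, Nat.mul_div_cancel_left _ (by norm_num)]
    have h7 : φ (A ^ c) * φ (A ^ c) = ((1 : F) * 1) • (1 : Module.End F (Fin n ⊕ Fin n → F)) := by
      rw [← map_mul, ← pow_add, ← two_mul, ← hc, h3, map_one, one_mul, one_smul]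
    have h8 : φ (A ^ m) * φ (A ^ c) = φ (A ^ c) * φ (A ^ m) := by
      rw [← map_mul, ← map_mul, ← pow_add, ← pow_add, add_comm]
    obtain ⟨d, hd'⟩ := H407.TwoSp.scalar_of_sq hr hrF hX hX1 he' h8 h7
    apply orderOf_dvd_of_pow_eq_one
    rw [← QuotientGroup.mk_pow, QuotientGroup.eq_one_iff, Subgroup.mem_center_iff]
    intro h
    apply Subtype.ext
    change (h : Matrix (Fin n ⊕ Fin n) (Fin n ⊕ Fin n) F) * A ^ c = A ^ c * (h : Matrix (Fin n ⊕ Fin n) (Fin n ⊕ Fin n) F)
    have h9 : A ^ c = d • (1 : Matrix (Fin n ⊕ Fin n) (Fin n ⊕ Fin n) F) := by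
      apply φ.injective
      rw [hd', map_smul, map_one]
    rw [h9, Matrix.mul_smul, Matrix.smul_mul, mul_one, one_mul]

end Cfsg.Agent.H365.TorIsol
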