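import Mathlib
import Cfsg.Agent.H365.TorIsol
import Cfsg.Agent.H364.SpCyc
import Cfsg.Agent.H364.Iso3

/-!
# The isolated torus of a group with the order and spectrum of `PSp(2n,q)`, `PΩ(2n+1,q)`, `n` a power of two
-/

set_option autoImplicit false

namespace Cfsg.Agent.H365.TorSp

open Cfsg Cfsg.Agent.H902.Art Cfsg.Agent.H364 Cfsg.Agent.H364.SpVal Subgroup

/-- the order of the torus -/
def T (n q : ℕ) : ℕ := (q ^ n + 1) / Nat.gcd 2 (q - 1)

section Arith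

variable {n q : ℕ}

theorem mul_T (hq : 2 ≤ q) (hn : 1 ≤ n) : Nat.gcd 2 (q - 1) * T n q = q ^ n + 1 := by
  refine Nat.mul_div_cancel' ?_
  rcases Nat.even_or_odd q with he | ho
  · have h5 : Nat.gcd 2 (q - 1) = 1 := by
      rw [← Nat.coprime_iff_gcd_eq_one, Nat.coprime_two_left]
      obtain ⟨c, hc⟩ := he
      exact ⟨c - 1, by omega⟩
    rw [h5]; exact one_dvd _
  · have h5 : Nat.gcd 2 (q - 1) = 2 := Nat.gcd_eq_left (by obtain ⟨c, hc⟩ := ho; exact ⟨c, by omega⟩)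
    rw [h5, ← even_iff_two_dvd]
    exact ho.pow.add_one

theorem T_even (he : Even q) (hq : 2 ≤ q) : T n q = q ^ n + 1 := by
  have h5 : Nat.gcd 2 (q - 1) = 1 := by
    rw [← Nat.coprime_iff_gcd_eq_one, Nat.coprime_two_left]
    obtain ⟨c, hc⟩ := he
    exact ⟨c - 1, by omega⟩
  rw [T, h5, Nat.div_one]

theorem two_mul_T (ho : Odd q) (hq : 2 ≤ q) (hn : 1 ≤ n) : 2 * T n q = q ^ n + 1 := by
  have h5 : Nat.gcd 2 (q - 1) = 2 := Nat.gcd_eq_left (by obtain ⟨c, hc⟩ := ho; exact ⟨c, by omega⟩)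
  rw [← mul_T hq hn, h5]

theorem T_dvd (hq : 2 ≤ q) (hn : 1 ≤ n) : T n q ∣ q ^ n + 1 := Dvd.intro_left _ (mul_T hq hn)

theorem le_T (hq : 2 ≤ q) (hn : 1 ≤ n) : q ^ n + 1 ≤ 2 * T n q := by
  rw [← mul_T hq hn]
  exact Nat.mul_le_mul_right _ (Nat.le_of_dvd (by norm_num) (Nat.gcd_dvd_left 2 _))

/-- `T` is odd for even `n` -/
theorem odd_T (hq : 2 ≤ q) (hn : 1 ≤ n) (hne : Even n) : Odd (T n q) := by
  rcases Nat.even_or_odd q with he | ho
  · rw [T_even he hq]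
    exact (he.pow_of_ne_zero (by omega)).add_one
  · have h1 := two_mul_T ho hq hn
    obtain ⟨j, rfl⟩ := hne
    obtain ⟨c, hc⟩ := (ho.pow (n := j))
    have h2 : q ^ (j + j) + 1 = 2 * (2 * (c ^ 2 + c) + 1) := by
      rw [pow_add, hc]; ring
    exact ⟨c ^ 2 + c, by omega⟩

theorem AA_succ (n q : ℕ) : AA (n + 1) q = AA n q * (q ^ (2 * (n + 1)) - 1) := Finset.prod_range_succ _ _

theorem card_eq {p f M : ℕ} (h : Real (.C n) p f M) (hn : 1 ≤ n) :
    M = (p ^ f) ^ (n ^ 2) * AA (n - 1) (p ^ f) * ((p ^ f) ^ n - 1) * T n (p ^ f) := by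
  have hq := h.q_ge
  have h1 := h.eq
  obtain ⟨k, rfl⟩ : ∃ k, n = k + 1 := ⟨n - 1, by omega⟩
  set q := p ^ f with hqdef
  have hd : 0 < Nat.gcd 2 (q - 1) := Nat.gcd_pos_of_pos_left _ (by norm_num)
  apply Nat.eq_of_mul_eq_mul_left hd
  have h2 : H902.Art.dd (.C (k + 1)) q = Nat.gcd 2 (q - 1) := rfl
  have h3 : H902.Art.NN (.C (k + 1)) = (k + 1) ^ 2 := by rfl
  have h4 : H902.Art.num (.C (k + 1)) q = AA (k + 1) q := rfl
  rw [h2, h3, h4, AA_succ] at h1
  have h5 : q ^ (2 * (k + 1)) - 1 = (q ^ (k + 1) - 1) * (q ^ (k + 1) + 1) := by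
    have h6 : 1 ≤ q ^ (k + 1) := Nat.one_le_pow _ _ (by omega)
    have h7 : 1 ≤ q ^ (2 * (k + 1)) := Nat.one_le_pow _ _ (by omega)
    zify [h6, h7]; ring
  rw [h1, h5, ← mul_T hq hn, Nat.add_sub_cancel]
  ring

variable {r k : ℕ}

theorem order_eq (hn : n = 2 ^ k) (hr : r.Prime) (hr2 : r ≠ 2) (h : r ∣ q ^ n + 1) :
    orderOf ((q : ℕ) : ZMod r) = 2 * n := TorIsol.order_two_mul hn hr hr2 h

/-- a prime dividing `T` does not divide the rest -/
theorem not_dvd (hn : n = 2 ^ k) (hq : 2 ≤ q) (hr : r.Prime) (hr2 : r ≠ 2) (h : r ∣ q ^ n + 1) :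
    ¬ r ∣ q ^ (n ^ 2) * AA (n - 1) q * (q ^ n - 1) := by
  have hn1 : 1 ≤ n := by rw [hn]; exact Nat.one_le_two_pow
  have ho := order_eq hn hr hr2 h
  have hdv : ∀ m, 1 ≤ m → r ∣ q ^ m - 1 → 2 * n ∣ m := by
    intro m hm h1
    rw [← ho, orderOf_dvd_iff_pow_eq_one]
    have h2 : 1 ≤ q ^ m := Nat.one_le_pow _ _ (by omega)
    have h3 := (ZMod.natCast_eq_zero_iff _ _).2 h1
    rw [Nat.cast_sub h2] at h3
    push_cast at h3
    exact sub_eq_zero.1 h3
  intro h1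
  rcases hr.dvd_mul.1 h1 with h2 | h2
  · rcases hr.dvd_mul.1 h2 with h3 | h3
    · have h4 := hr.dvd_of_dvd_pow h3
      have h5 : r ∣ q ^ n := dvd_pow h4 (by omega)
      exact hr.one_lt.ne' (Nat.dvd_one.1 ((Nat.dvd_add_right h5).1 h))
    · rw [AA] at h3
      obtain ⟨i, hi, h4⟩ := (Prime.dvd_finsetProd_iff hr.prime _).1 h3
      have h5 := Nat.le_of_dvd (by omega) (hdv _ (by omega) h4)
      rw [Finset.mem_range] at hi
      omega
  · have := Nat.le_of_dvd (by omega) (hdv n hn1 h2)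
    omega

theorem cop_T (hn : n = 2 ^ k) (hn2 : 2 ≤ n) (hq : 2 ≤ q) :
    (T n q).Coprime (q ^ (n ^ 2) * AA (n - 1) q * (q ^ n - 1)) := by
  apply Nat.coprime_of_dvd
  intro r hr h1 h2
  have hne : Even n := by
    rw [hn]
    exact (Nat.even_pow.2 ⟨even_two, by rintro rfl; omega⟩)
  have hr2 : r ≠ 2 := by
    rintro rfl
    exact (Nat.not_even_iff_odd.2 (odd_T hq (by omega) hne)) (even_iff_two_dvd.2 h1)
  exact not_dvd hn hq hr hr2 (h1.trans (T_dvd hq (by omega))) h2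

end Arith

/-- the spectrum hypothesis -/
def Spec (G : Type*) [Group G] (n : ℕ) (F : Type*) [Field F] [Fintype F] : Prop :=
  Set.range (orderOf : G → ℕ) = Set.range (orderOf : PSp n F → ℕ) ∨
    (Odd (Fintype.card F) ∧ Set.range (orderOf : G → ℕ) = Set.range (orderOf : POmega F (quadFormOdd n F) → ℕ))

variable {G : Type*} [Group G] [Finite G] {F : Type*} [Field F] [Fintype F] {n k : ℕ}

theorem exists_isol (hn : n = 2 ^ k) (hn3 : 3 ≤ n) {p f : ℕ} (hF : Fintype.card F = p ^ f)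
    (hY : Real (.C n) p f (Nat.card G)) (hs : Spec G n F) : ∃ S : Subgroup G, Isol G S (T n (Fintype.card F)) := by
  have hne : Even n := by
    rw [hn]
    exact (Nat.even_pow.2 ⟨even_two, by rintro rfl; omega⟩)
  obtain ⟨q, hq⟩ : ∃ q, q = Fintype.card F := ⟨_, rfl⟩
  rw [← hq]
  have hq2 : 2 ≤ q := by rw [hq]; exact Fintype.one_lt_card
  have hodd := odd_T hq2 (by omega : 1 ≤ n) hne
  have heta : Cfsg.Agent.H72.AdjOrth.eta (2 * n) = n := by
    rw [Cfsg.Agent.H72.AdjOrth.eta, if_pos (even_two_mul n)]; omega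
  have htn : T n q ∣ Cfsg.Agent.H72.AdjOrth.tn (Nat.card F) (2 * n) := by
    rw [Cfsg.Agent.H72.AdjOrth.tn, if_pos (even_two_mul n), Nat.card_eq_fintype_card, ← hq]
    have : 2 * n / 2 = n := by omega
    rw [this]
    exact T_dvd hq2 (by omega)
  obtain ⟨x, hx⟩ : T n q ∈ Set.range (orderOf : G → ℕ) := by
    rcases hs with hs | ⟨ho, hs⟩
    · rw [hs]
      exact SpCyc.psp_tn (by omega) hodd htn heta.le
    · rw [hs]
      have h2 : (2 : F) ≠ 0 := by
        intro h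
        have hc : CharP F 2 := Cfsg.Agent.H72.AdjSp.charP_two h
        have h3 : 2 ∣ Fintype.card F := by
          rw [← CharP.cast_eq_zero_iff F 2]; exact FiniteField.cast_card_eq_zero F
        exact (Nat.not_even_iff_odd.2 ho) (even_iff_two_dvd.2 h3)
      exact SpCyc.omega_tn h2 hn3 (by omega) hodd htn heta.le
  have hT0 : 0 < T n q := by have := le_T hq2 (show 1 ≤ n by omega); omega
  refine ⟨zpowers x, inferInstance, by rw [Nat.card_zpowers, hx], ?_, ?_⟩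
  · rw [card_eq hY (by omega), ← hF, ← hq, Nat.mul_div_cancel _ hT0]
    exact cop_T hn (by omega) hq2
  · intro r s hr hs' hrt hst z hz
    have hr2 : r ≠ 2 := by
      rintro rfl
      exact (Nat.not_even_iff_odd.2 hodd) (even_iff_two_dvd.2 hrt)
    have hrs : r ≠ s := by rintro rfl; exact hst hrt
    have h4 : r * s ∈ Set.range (orderOf : PSp n F → ℕ) := by
      have h5 : r * s ∈ Set.range (orderOf : G → ℕ) := ⟨z, hz⟩
      rcases hs with hs | ⟨ho, hs⟩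
      · rwa [hs] at h5
      · rw [hs] at h5
        exact (Cfsg.Agent.S2474.result ho n hn3 r s hr hs' hrs).1 h5
    obtain ⟨y, hy⟩ := h4
    have h5 := TorIsol.psp_isol hn hr hr2 (by rw [← hq]; exact hrt.trans (T_dvd hq2 (by omega))) y
      (by rw [hy]; exact Dvd.intro _ rfl)
    rw [hy, ← hq] at h5
    exact hst ((Dvd.intro_left _ rfl).trans h5)

end Cfsg.Agent.H365.TorSp
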