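import Mathlib
import Cfsg.Agent.H365.TorSp

/-!
# Arithmetic for the groups `PSp(8,q)`, `PSp(16,q)`, `PΩ(17,q)`
-/

set_option autoImplicit false

namespace Cfsg.Agent.H365.TorSp

open Finset Cfsg Cfsg.Agent.H902.Art Cfsg.Agent.H902.Lte Cfsg.Agent.H364.SpVal

variable {n q r : ℕ}

theorem P_pow {a m : ℕ} : P r (a ^ m) = P r a ^ m := by
  rw [P, P, Nat.factorization_pow, Finsupp.smul_apply, smul_eq_mul, mul_comm, pow_mul]

/-- the exact value of the `r`-part of the symplectic product, `r` odd -/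
theorem P_AA (hr : r.Prime) (hr2 : r ≠ 2) (hq : 2 ≤ q) (hrq : ¬ r ∣ q) :
    P r (AA n q) = P r (q ^ (2 * orderOf ((q ^ 2 : ℕ) : ZMod r)) - 1) ^ (n / orderOf ((q ^ 2 : ℕ) : ZMod r)) *
      P r (n / orderOf ((q ^ 2 : ℕ) : ZMod r)).factorial := by
  have hodd : Odd r := hr.eq_two_or_odd'.resolve_left hr2
  have hx := abs_sq_ge hq
  have hrx := not_dvd_sq hr hrq
  have h1 := val_W_odd hr hodd hx hrx n
  have h2 : ((((q : ℤ) ^ 2 : ℤ)) : ZMod r) = ((q ^ 2 : ℕ) : ZMod r) := cast_sq q r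
  rw [h2] at h1
  set e := orderOf ((q ^ 2 : ℕ) : ZMod r) with he
  have h3 : padicValInt r (W ((q : ℤ) ^ 2) n) = (AA n q).factorization r := by
    rw [padicValInt, W_sq hq, Nat.factorization_def _ hr]; rfl
  have h4 : padicValInt r (((q : ℤ) ^ 2) ^ e - 1) = (q ^ (2 * e) - 1).factorization r := by
    have h5 : ((q : ℤ) ^ 2) ^ e - 1 = ((q ^ (2 * e) - 1 : ℕ) : ℤ) := by
      rw [Nat.cast_sub (Nat.one_le_pow _ _ (by omega)), ← pow_mul]; push_cast; rfl
    rw [padicValInt, h5, Int.natAbs_natCast, Nat.factorization_def _ hr]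
  rw [h3, h4] at h1
  rw [P, h1, P, P, ← pow_mul, ← pow_add, ← Nat.factorization_def (n / e).factorial hr, mul_comm (n / e)]

theorem P_two_step (hq : 2 ≤ q) (ho : Odd q) {i : ℕ} (hi : i ≠ 0) :
    P 2 (q ^ (2 * i) - 1) = P 2 (q ^ 2 - 1) * P 2 i := by
  have h2 : Fact (Nat.Prime 2) := ⟨Nat.prime_two⟩
  have h1 := padicValNat.pow_two_sub_pow (x := q) (y := 1) (by omega) (by obtain ⟨c, hc⟩ := ho; exact ⟨c, by omega⟩)
    (by rw [← even_iff_two_dvd, Nat.not_even_iff_odd]; exact ho) (n := 2 * i) (by omega) (even_two_mul i)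
  have h3 := padicValNat.pow_two_sub_pow (x := q) (y := 1) (by omega) (by obtain ⟨c, hc⟩ := ho; exact ⟨c, by omega⟩)
    (by rw [← even_iff_two_dvd, Nat.not_even_iff_odd]; exact ho) (n := 2) (by omega) even_two
  rw [one_pow] at h1 h3
  rw [padicValNat.mul (by norm_num) hi] at h1
  rw [P, P, P, ← pow_add, Nat.factorization_def _ Nat.prime_two, Nat.factorization_def _ Nat.prime_two,
    Nat.factorization_def _ Nat.prime_two]
  congr 1
  omega

theorem P_AA_two (hq : 2 ≤ q) (ho : Odd q) : P 2 (AA n q) = P 2 (q ^ 2 - 1) ^ n * P 2 n.factorial := by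
  induction n with
  | zero => simp [AA, P]
  | succ n ih =>
    have h1 : 1 < q ^ (2 * (n + 1)) := Nat.one_lt_pow (by omega) (by omega)
    rw [AA_succ, P_mul (AA_ne hq) (by omega), ih, P_two_step hq ho (by omega), Nat.factorial_succ,
      P_mul (by omega) (Nat.factorial_pos n).ne', pow_succ]
    ring

/-- the part of a factor -/
theorem P_le_half (hr : r.Prime) (hr2 : r ≠ 2) (hq : 2 ≤ q) {e : ℕ} (he : 1 ≤ e) :
    Nat.gcd 2 (q - 1) * P r (q ^ (2 * e) - 1) ≤ q ^ e + 1 := by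
  rcases Nat.even_or_odd q with hev | ho
  · have h5 : Nat.gcd 2 (q - 1) = 1 := by
      rw [← Nat.coprime_iff_gcd_eq_one, Nat.coprime_two_left]
      obtain ⟨c, hc⟩ := hev
      exact ⟨c - 1, by omega⟩
    rw [h5, one_mul]
    exact P_sq_sub_one_le hr hr2 hq he
  · have h5 : Nat.gcd 2 (q - 1) = 2 := Nat.gcd_eq_left (by obtain ⟨c, hc⟩ := ho; exact ⟨c, by omega⟩)
    rw [h5]
    have h6 : 1 < q ^ e := Nat.one_lt_pow (by omega) (by omega)
    have h7 : q ^ (2 * e) - 1 = (q ^ e - 1) * (q ^ e + 1) := by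
      have h8 : 1 ≤ q ^ (2 * e) := Nat.one_le_pow _ _ (by omega)
      have h9 : 1 ≤ q ^ e := by omega
      zify [h8, h9]; ring
    obtain ⟨c, hc⟩ := ho.pow (n := e)
    have hP2 : ∀ a : ℕ, a ≠ 0 → P r (2 * a) ≤ a := by
      intro a ha
      rw [P_mul (by norm_num) ha, P_eq_one (fun h => hr2 ((Nat.prime_dvd_prime_iff_eq hr Nat.prime_two).1 h)), one_mul]
      exact P_le ha
    rw [h7, P_mul (by omega) (by omega)]
    have hc0 : c ≠ 0 := by omega
    have h10 : q ^ e - 1 = 2 * c := by omega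
    have h11 : q ^ e + 1 = 2 * (c + 1) := by omega
    by_cases h12 : r ∣ q ^ e - 1
    · have h13 : P r (q ^ e + 1) = 1 := by
        refine P_eq_one fun h => hr2 ?_
        have h14 := Nat.dvd_sub h h12
        have h15 : (q ^ e + 1) - (q ^ e - 1) = 2 := by omega
        rw [h15] at h14
        exact (Nat.prime_dvd_prime_iff_eq hr Nat.prime_two).1 h14
      rw [h13, mul_one, h10]
      have := hP2 c hc0
      omega
    · rw [P_eq_one h12, one_mul, h11]
      have := hP2 (c + 1) (by omega)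
      omega

theorem le_P_of_dvd {c a : ℕ} (hr : r.Prime) (ha : a ≠ 0) (h : r ^ c ∣ a) : r ^ c ≤ P r a :=
  Nat.pow_le_pow_right hr.pos ((hr.pow_dvd_iff_le_factorization ha).1 h)

/-- the size of the part of the kernel -/
theorem part_ge (hq : 2 ≤ q) (hn : 1 ≤ n) (hne : Even n) {c : ℕ} (hr : r.Prime) (hr2 : r ≠ 2) (hc : c ≠ 0)
    (h : T n q ∣ r ^ c - 1) : 2 * T n q + 1 ≤ r ^ c := by
  have hodd : Odd r := hr.eq_two_or_odd'.resolve_left hr2
  have h1 : 2 * T n q ∣ r ^ c - 1 := by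
    apply Nat.Coprime.mul_dvd_of_dvd_of_dvd _ _ h
    · rw [Nat.coprime_two_left]
      exact odd_T hq hn hne
    · obtain ⟨a, ha⟩ := hodd.pow (n := c)
      exact ⟨a, by omega⟩
  have h2 : 2 ≤ r ^ c := hr.two_le.trans (Nat.le_self_pow hc r)
  have h3 := Nat.le_of_dvd (by omega) h1
  omega

theorem order_ne_one (hq : 2 ≤ q) (h : ¬ r ∣ q ^ 2 - 1) : orderOf ((q ^ 2 : ℕ) : ZMod r) ≠ 1 := by
  intro h1
  apply h
  rw [orderOf_eq_one_iff] at h1
  have h2 : 1 ≤ q ^ 2 := Nat.one_le_pow _ _ (by omega)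
  rw [← ZMod.natCast_eq_zero_iff, Nat.cast_sub h2, h1]
  simp

theorem not_dvd_fac (hr : r.Prime) (hr2 : r ≠ 2) (hr3 : r ≠ 3) {a : ℕ} (ha : a ≤ 4) : P r a.factorial = 1 := by
  refine P_eq_one fun h => ?_
  have h1 := (hr.dvd_factorial).1 h
  have h2 := hr.two_le
  have h3 : r ≠ 4 := by rintro rfl; exact absurd hr (by decide)
  omega

theorem ne_three (hq : ¬ r ∣ q) (hq2 : 2 ≤ q) (h : ¬ r ∣ q ^ 2 - 1) : r ≠ 3 := by
  rintro rfl
  apply h
  have h1 : q % 3 = 1 ∨ q % 3 = 2 := by omega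
  have h2 : q ^ 2 % 3 = 1 := by rcases h1 with h1 | h1 <;> rw [Nat.pow_mod, h1]
  have h3 : 1 ≤ q ^ 2 := Nat.one_le_pow _ _ (by omega)
  omega

/-- **the kernel has no primes of the larger classes**, `n = 8` -/
theorem big_eight (hq : 2 ≤ q) (hr : r.Prime) (hr2 : r ≠ 2) (hrq : ¬ r ∣ q) (hrs : ¬ r ∣ q ^ 2 - 1) {c : ℕ}
    (h1 : r ^ c ∣ AA 8 q) (h2 : T 8 q ∣ r ^ c - 1) : c = 0 := by
  by_contra hc
  have hge := part_ge hq (by norm_num) (by decide) hr hr2 hc h2
  have hT : q ^ 8 + 1 ≤ 2 * T 8 q := le_T hq (by norm_num)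
  have hle := le_P_of_dvd hr (AA_ne hq) h1
  have he1 := order_ne_one hq hrs
  have he0 : orderOf ((q ^ 2 : ℕ) : ZMod r) ≠ 0 := by
    have := order_pos (q := q) hr (not_dvd_sq hr hrq)
    rw [cast_sq] at this
    omega
  rw [P_AA hr hr2 hq hrq] at hle
  have hr3 := ne_three hrq hq hrs
  obtain ⟨e, he⟩ : ∃ e, e = orderOf ((q ^ 2 : ℕ) : ZMod r) := ⟨_, rfl⟩
  rw [← he] at hle he1 he0
  have hfac : P r (8 / e).factorial = 1 := not_dvd_fac hr hr2 hr3 (by
    have : 8 / e ≤ 8 / 2 := Nat.div_le_div_left (by omega) (by norm_num)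
    omega)
  rw [hfac, mul_one] at hle
  by_cases he8 : 8 < e
  · rw [Nat.div_eq_of_lt he8, pow_zero] at hle
    omega
  have hhalf := P_le_half (q := q) hr hr2 hq (show 1 ≤ e by omega)
  rcases Nat.even_or_odd q with hev | ho
  · rw [T_even hev hq] at hge
    have h5 : Nat.gcd 2 (q - 1) = 1 := by
      rw [← Nat.coprime_iff_gcd_eq_one, Nat.coprime_two_left]
      obtain ⟨c, hc⟩ := hev
      exact ⟨c - 1, by omega⟩
    rw [h5, one_mul] at hhalf
    have hle2 : r ^ c ≤ (q ^ e + 1) ^ (8 / e) := hle.trans (Nat.pow_le_pow_left hhalf _)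
    have h8 : 1 ≤ q ^ 8 := Nat.one_le_pow _ _ (by omega)
    by_cases he2 : e = 2
    · subst he2
      norm_num at hle2
      by_cases hq4 : 4 ≤ q
      · have h6 : 16 ≤ q ^ 2 := by
          calc 16 = 4 ^ 2 := by norm_num
            _ ≤ q ^ 2 := Nat.pow_le_pow_left hq4 2
        have h7 : (16 * (q ^ 2 + 1)) ^ 4 ≤ (17 * q ^ 2) ^ 4 := Nat.pow_le_pow_left (by omega) 4
        have h9 : (16 * (q ^ 2 + 1)) ^ 4 = 65536 * (q ^ 2 + 1) ^ 4 := by ring
        have h10 : (17 * q ^ 2) ^ 4 = 83521 * q ^ 8 := by ring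
        omega
      · have hq2 : q = 2 := by
          obtain ⟨c, hc⟩ := hev
          omega
        subst hq2
        norm_num at hle2 hge hrs
        -- `r = 5`
        have hr5 : r = 5 := by
          have h6 : r ∣ 2 ^ (2 * 2) - 1 := by
            have h7 := pow_orderOf_eq_one ((2 ^ 2 : ℕ) : ZMod r)
            rw [← he, ← Nat.cast_pow, ← pow_mul] at h7
            rw [← ZMod.natCast_eq_zero_iff, Nat.cast_sub (by norm_num), h7]
            simp
          norm_num at h6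
          have h7 : r ∣ 3 * 5 := h6
          rcases hr.dvd_mul.1 h7 with h8 | h8
          · exact absurd ((Nat.prime_dvd_prime_iff_eq hr Nat.prime_three).1 h8) hr3
          · exact (Nat.prime_dvd_prime_iff_eq hr Nat.prime_five).1 h8
        subst hr5
        have hc5 : c < 5 := by
          by_contra h6
          have : 5 ^ 5 ≤ 5 ^ c := Nat.pow_le_pow_right (by norm_num) (by omega)
          omega
        have hT2 : T 8 2 = 257 := by decide
        rw [hT2] at h2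
        have hc1 : 1 ≤ c := Nat.pos_of_ne_zero hc
        interval_cases c <;> revert h2 <;> decide
    · have h6 : e ∈ Finset.Icc 3 8 := Finset.mem_Icc.2 ⟨by omega, by omega⟩
      have h7 : (q ^ e + 1) ^ (8 / e) ≤ 2 * q ^ 8 + 2 := by
        have hq3 : 8 ≤ q ^ 3 := by
          calc 8 = 2 ^ 3 := by norm_num
            _ ≤ q ^ 3 := Nat.pow_le_pow_left hq 3
        have hq4 : 16 ≤ q ^ 4 := by
          calc 16 = 2 ^ 4 := by norm_num
            _ ≤ q ^ 4 := Nat.pow_le_pow_left hq 4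
        have hmono : ∀ j, j ≤ 8 → q ^ j ≤ q ^ 8 := fun j hj => Nat.pow_le_pow_right (by omega) hj
        have h36 : q ^ 6 * 4 ≤ q ^ 8 := by
          calc q ^ 6 * 4 ≤ q ^ 6 * q ^ 2 := Nat.mul_le_mul_left _ (by nlinarith)
            _ = q ^ 8 := by ring
        have h34 : (q ^ 3 + 1) ^ 2 ≤ 2 * q ^ 6 := by
          have : (q ^ 3 + 1) ^ 2 = q ^ 6 + 2 * q ^ 3 + 1 := by ring
          have h9 : q ^ 6 = q ^ 3 * q ^ 3 := by ring
          nlinarith
        have h44 : (q ^ 4 + 1) ^ 2 ≤ 2 * q ^ 8 := by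
          have : (q ^ 4 + 1) ^ 2 = q ^ 8 + 2 * q ^ 4 + 1 := by ring
          have h9 : q ^ 8 = q ^ 4 * q ^ 4 := by ring
          nlinarith
        have h5' := hmono 5 (by norm_num)
        have h6' := hmono 6 (by norm_num)
        have h7' := hmono 7 (by norm_num)
        rw [Finset.mem_Icc] at h6
        obtain ⟨h6a, h6b⟩ := h6
        interval_cases e
        · norm_num; omega
        · norm_num; omega
        · norm_num; omega
        · norm_num; omega
        · norm_num; omega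
        · norm_num; omega
      omega
  · have h5 : Nat.gcd 2 (q - 1) = 2 := Nat.gcd_eq_left (by obtain ⟨c, hc⟩ := ho; exact ⟨c, by omega⟩)
    rw [h5] at hhalf
    have h6 : P r (q ^ (2 * e) - 1) ≤ q ^ e := by
      have : 1 ≤ q ^ e := Nat.one_le_pow _ _ (by omega)
      omega
    have h7 : r ^ c ≤ q ^ 8 := by
      calc r ^ c ≤ (q ^ e) ^ (8 / e) := hle.trans (Nat.pow_le_pow_left h6 _)
        _ = q ^ (e * (8 / e)) := by rw [← pow_mul]
        _ ≤ q ^ 8 := Nat.pow_le_pow_right (by omega) (Nat.mul_div_le 8 e)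
    omega

/-- **the kernel is a `2`-group**, `n = 4`, `q` even: larger classes -/
theorem big_four (hq : 2 ≤ q) (hev : Even q) (hr : r.Prime) (hr2 : r ≠ 2) (hrq : ¬ r ∣ q) (hrs : ¬ r ∣ q ^ 2 - 1)
    {c : ℕ} (h1 : r ^ c ∣ AA 4 q) (h2 : T 4 q ∣ r ^ c - 1) : c = 0 := by
  by_contra hc
  have hge := part_ge hq (by norm_num) (by decide) hr hr2 hc h2
  have hle := le_P_of_dvd hr (AA_ne hq) h1
  have he1 := order_ne_one hq hrs
  have he0 : orderOf ((q ^ 2 : ℕ) : ZMod r) ≠ 0 := by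
    have := order_pos (q := q) hr (not_dvd_sq hr hrq)
    rw [cast_sq] at this
    omega
  rw [P_AA hr hr2 hq hrq] at hle
  have hr3 := ne_three hrq hq hrs
  obtain ⟨e, he⟩ : ∃ e, e = orderOf ((q ^ 2 : ℕ) : ZMod r) := ⟨_, rfl⟩
  rw [← he] at hle he1 he0
  have hfac : P r (4 / e).factorial = 1 := not_dvd_fac hr hr2 hr3 (by
    have : 4 / e ≤ 4 / 2 := Nat.div_le_div_left (by omega) (by norm_num)
    omega)
  rw [hfac, mul_one] at hle
  by_cases he4 : 4 < e
  · rw [Nat.div_eq_of_lt he4, pow_zero] at hle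
    have := le_T hq (show 1 ≤ 4 by norm_num)
    omega
  have hhalf := P_le_half (q := q) hr hr2 hq (show 1 ≤ e by omega)
  rw [T_even hev hq] at hge
  have h5 : Nat.gcd 2 (q - 1) = 1 := by
    rw [← Nat.coprime_iff_gcd_eq_one, Nat.coprime_two_left]
    obtain ⟨c, hc⟩ := hev
    exact ⟨c - 1, by omega⟩
  rw [h5, one_mul] at hhalf
  have hle2 : r ^ c ≤ (q ^ e + 1) ^ (4 / e) := hle.trans (Nat.pow_le_pow_left hhalf _)
  have hq2 : 4 ≤ q ^ 2 := by nlinarith
  have h24 : (q ^ 2 + 1) ^ 2 = q ^ 4 + 2 * q ^ 2 + 1 := by ring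
  have h22 : q ^ 4 = q ^ 2 * q ^ 2 := by ring
  have h34 : q ^ 3 ≤ q ^ 4 := Nat.pow_le_pow_right (by omega) (by norm_num)
  have h6a : 2 ≤ e := by omega
  have h6b : e ≤ 4 := by omega
  interval_cases e
  · norm_num at hle2; nlinarith
  · norm_num at hle2; omega
  · norm_num at hle2; omega

/-- the `3`-part of `4 ^ f - 1` -/
theorem P_three {f : ℕ} (hf : 1 ≤ f) : P 3 ((2 ^ f) ^ 2 - 1) ≤ 3 * f := by
  have h3 : Fact (Nat.Prime 3) := ⟨Nat.prime_three⟩
  have h1 := padicValNat.pow_sub_pow (p := 3) (by decide) (x := 4) (y := 1) (by norm_num) (by norm_num) (by norm_num)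
    (n := f) (by omega)
  rw [one_pow] at h1
  have h2 : (2 ^ f) ^ 2 - 1 = 4 ^ f - 1 := by rw [← pow_mul, mul_comm, pow_mul]; norm_num
  rw [h2, P, Nat.factorization_def _ Nat.prime_three, h1, pow_add]
  have h4 : padicValNat 3 (4 - 1) = 1 := by simp
  rw [h4, pow_one]
  apply Nat.mul_le_mul_left
  rw [← Nat.factorization_def _ Nat.prime_three]
  exact P_le (by omega)

theorem chk_small : ∀ f ∈ [1, 2, 3], ∀ c ∈ List.range' 1 9, ¬ ((2 ^ f) ^ 4 + 1) ∣ 3 ^ c - 1 := by
  decide +kernel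

/-- **the kernel is a `2`-group**, `n = 4`, `q` even: the smallest class -/
theorem small_four {f : ℕ} (hf : 1 ≤ f) (hr : r.Prime) (hr2 : r ≠ 2) (hrs : r ∣ (2 ^ f) ^ 2 - 1)
    {c : ℕ} (h1 : r ^ c ∣ AA 4 (2 ^ f)) (h2 : T 4 (2 ^ f) ∣ r ^ c - 1) : c = 0 := by
  by_contra hc
  have hq : 2 ≤ 2 ^ f := Nat.le_self_pow (by omega) 2
  have hev : Even (2 ^ f) := (Nat.even_pow.2 ⟨even_two, by omega⟩)
  have hrq : ¬ r ∣ 2 ^ f := fun h => hr2 ((Nat.prime_dvd_prime_iff_eq hr Nat.prime_two).1 (hr.dvd_of_dvd_pow h))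
  have hge := part_ge hq (by norm_num) (by decide) hr hr2 hc h2
  have hle := le_P_of_dvd hr (AA_ne hq) h1
  rw [P_AA hr hr2 hq hrq] at hle
  have he : orderOf (((2 ^ f) ^ 2 : ℕ) : ZMod r) = 1 := by
    rw [orderOf_eq_one_iff]
    have h3 : 1 ≤ (2 ^ f) ^ 2 := Nat.one_le_pow _ _ (by omega)
    rw [← ZMod.natCast_eq_zero_iff, Nat.cast_sub h3] at hrs
    have := sub_eq_zero.1 hrs
    rw [this]; simp
  rw [he, Nat.div_one, mul_one] at hle
  rw [T_even hev hq] at hge h2
  have hhalf := P_le_half (q := 2 ^ f) hr hr2 hq (e := 1) le_rfl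
  have h5 : Nat.gcd 2 (2 ^ f - 1) = 1 := by
    rw [← Nat.coprime_iff_gcd_eq_one, Nat.coprime_two_left]
    obtain ⟨c, hc⟩ := hev
    exact ⟨c - 1, by omega⟩
  rw [h5, one_mul, mul_one, pow_one] at hhalf
  by_cases hr3 : r = 3
  · subst hr3
    have h6 : P 3 (Nat.factorial 4) ≤ 3 := by
      have h7 := P_pow_self (r := 3) (k := 1) (a := 8) Nat.prime_three (by norm_num)
      norm_num at h7
      have h8 : Nat.factorial 4 = 24 := by decide
      rw [h8, h7]
    have h7 := P_three hf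
    have h8 : 3 ^ c ≤ (3 * f) ^ 4 * 3 := hle.trans (Nat.mul_le_mul (Nat.pow_le_pow_left h7 4) h6)
    by_cases hf4 : 4 ≤ f
    · have h9 : (3 * f) ^ 4 * 3 ≤ 2 * (2 ^ f) ^ 4 := by
        clear h8 h7 hle hge hhalf h5 he hrs h1 h2
        have h10 : (3 * f) ^ 4 * 3 = 243 * f ^ 4 := by ring
        have h11 : 2 * (2 ^ f) ^ 4 = 2 * 16 ^ f := by rw [← pow_mul, mul_comm f 4, pow_mul]; norm_num
        rw [h10, h11]
        induction f, hf4 using Nat.le_induction with
        | base => norm_num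
        | succ f hf ih =>
          have h12 := ih (by omega) (Nat.le_self_pow (by omega) 2) (Nat.even_pow.2 ⟨even_two, by omega⟩)
            (fun h => hr2 ((Nat.prime_dvd_prime_iff_eq hr Nat.prime_two).1 (hr.dvd_of_dvd_pow h))) (by ring)
            (by rw [← pow_mul, mul_comm f 4, pow_mul]; norm_num)
          have h13 : (4 * (f + 1)) ^ 4 ≤ (5 * f) ^ 4 := Nat.pow_le_pow_left (by omega) 4
          have h14 : (4 * (f + 1)) ^ 4 = 256 * (f + 1) ^ 4 := by ring
          have h15 : (5 * f) ^ 4 = 625 * f ^ 4 := by ring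
          rw [pow_succ 16 f]
          omega
      omega
    · have hc16 : c < 10 := by
        by_contra h9
        have h10 : 3 ^ 10 ≤ 3 ^ c := Nat.pow_le_pow_right (by norm_num) (by omega)
        have h11 : (3 * f) ^ 4 * 3 ≤ (3 * 3) ^ 4 * 3 := Nat.mul_le_mul_right _ (Nat.pow_le_pow_left (by omega) 4)
        omega
      have h9 : f ∈ [1, 2, 3] := by
        have : f = 1 ∨ f = 2 ∨ f = 3 := by omega
        rcases this with rfl | rfl | rfl <;> simp
      exact chk_small f h9 c (List.mem_range'_1.2 ⟨by omega, by omega⟩) h2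
  · rw [not_dvd_fac hr hr2 hr3 le_rfl, mul_one] at hle
    have h6 : r ^ c ≤ (2 ^ f + 1) ^ 4 := hle.trans (Nat.pow_le_pow_left hhalf 4)
    by_cases hf3 : 3 ≤ f
    · have h7 : 8 ≤ 2 ^ f := by
        calc 8 = 2 ^ 3 := by norm_num
          _ ≤ 2 ^ f := Nat.pow_le_pow_right (by norm_num) hf3
      have h8 : (8 * (2 ^ f + 1)) ^ 4 ≤ (9 * 2 ^ f) ^ 4 := Nat.pow_le_pow_left (by omega) 4
      have h9 : (8 * (2 ^ f + 1)) ^ 4 = 4096 * (2 ^ f + 1) ^ 4 := by ring
      have h10 : (9 * 2 ^ f) ^ 4 = 6561 * (2 ^ f) ^ 4 := by ring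
      omega
    · have hf2 : f = 1 ∨ f = 2 := by omega
      rcases hf2 with rfl | rfl
      · norm_num at hrs
        exact hr3 ((Nat.prime_dvd_prime_iff_eq hr Nat.prime_three).1 hrs)
      · norm_num at hrs h2 h6
        have h7 : r ∣ 3 * 5 := hrs
        rcases hr.dvd_mul.1 h7 with h8 | h8
        · exact hr3 ((Nat.prime_dvd_prime_iff_eq hr Nat.prime_three).1 h8)
        · have hr5 := (Nat.prime_dvd_prime_iff_eq hr Nat.prime_five).1 h8
          subst hr5
          have hc5 : c < 5 := by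
            by_contra h9
            have h10 : 5 ^ 5 ≤ 5 ^ c := Nat.pow_le_pow_right (by norm_num) (by omega)
            omega
          have hc1 : 1 ≤ c := Nat.pos_of_ne_zero hc
          interval_cases c <;> revert h2 <;> decide

/-- the number `n` of the structure theorem -/
theorem n_eq {k r' m : ℕ} (hn : n = 2 ^ k) (hn2 : 2 ≤ n) (hq : 2 ≤ q) (hr : r'.Prime) (hrT : r' ∣ T n q)
    (h1 : m ∣ r' - 1) (h2 : q ^ (n ^ 2) * AA (n - 1) q * (q ^ n - 1) ≡ m [MOD r']) : m = 2 * n := by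
  have := Fact.mk hr
  have hne : Even n := by
    rw [hn]
    exact (Nat.even_pow.2 ⟨even_two, by rintro rfl; omega⟩)
  have hr2 : r' ≠ 2 := by
    rintro rfl
    exact (Nat.not_even_iff_odd.2 (odd_T hq (by omega) hne)) (even_iff_two_dvd.2 hrT)
  have hd := hrT.trans (T_dvd hq (by omega))
  have ho := order_eq hn hr hr2 hd
  have hprim : IsPrimitiveRoot ((q : ZMod r') ^ 2) (n - 1 + 1) := by
    have h3 : IsPrimitiveRoot (q : ZMod r') (2 * n) := ho ▸ IsPrimitiveRoot.orderOf _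
    rw [Nat.sub_add_cancel (by omega)]
    exact h3.pow (by omega) (mul_comm 2 n ▸ rfl)
  have h3 := hprim.prod_pow_sub_one_eq_order
  have h4 : (q : ZMod r') ^ n = -1 := by
    have h5 := (ZMod.natCast_eq_zero_iff (q ^ n + 1) r').2 hd
    push_cast at h5
    exact eq_neg_of_add_eq_zero_left h5
  have h5 : ((AA (n - 1) q : ℕ) : ZMod r') = -n := by
    have h6 : ((AA (n - 1) q : ℕ) : ZMod r') = ∏ k ∈ range (n - 1), (((q : ZMod r') ^ 2) ^ (k + 1) - 1) := by
      rw [AA, Nat.cast_prod]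
      apply Finset.prod_congr rfl
      intro i _
      rw [Nat.cast_sub (Nat.one_le_pow _ _ (by omega)), ← pow_mul]; push_cast; rfl
    rw [h6]
    have h7 : (-1 : ZMod r') ^ (n - 1) = -1 := by
      obtain ⟨j, hj⟩ := hne
      exact Odd.neg_one_pow ⟨j - 1, by omega⟩
    rw [h7] at h3
    have h8 : ((n - 1 : ℕ) : ZMod r') + 1 = n := by
      rw [Nat.cast_sub (by omega)]; push_cast; ring
    rw [h8] at h3
    linear_combination -h3
  have h6 : q ^ (n ^ 2) * AA (n - 1) q * (q ^ n - 1) ≡ 2 * n [MOD r'] := by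
    rw [← ZMod.natCast_eq_natCast_iff, Nat.cast_mul, Nat.cast_mul, h5, Nat.cast_sub (Nat.one_le_pow _ _ (by omega)),
      Nat.cast_pow, Nat.cast_pow, h4, pow_two n, pow_mul, h4, hne.neg_one_pow]
    push_cast
    ring
  have h7 : 2 * n ∣ r' - 1 := by
    rw [← ho]
    have h8 : (q : ZMod r') ≠ 0 := by
      intro h9
      rw [h9, zero_pow (by omega)] at h4
      have h10 : (1 : ZMod r') = 0 := by linear_combination h4
      exact one_ne_zero h10
    exact ZMod.orderOf_dvd_card_sub_one h8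
  have hr1 : 0 < r' - 1 := by have := hr.two_le; omega
  have h8 := Nat.le_of_dvd hr1 h7
  have h9 := Nat.le_of_dvd hr1 h1
  exact Nat.ModEq.eq_of_lt_of_lt (h2.symm.trans h6) (by omega) (by omega)

end Cfsg.Agent.H365.TorSp
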