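import Mathlib
import Cfsg.Agent.H365.TorNum

/-!
# No simple group of Lie type in cross characteristic: `PSp(16,q)`, `PΩ(17,q)`
-/

set_option autoImplicit false

namespace Cfsg.Agent.H365.TorSp

open Finset Cfsg Cfsg.Agent.H902.Art Cfsg.Agent.H902.Lte Cfsg.Agent.H364.SpVal

variable {n q : ℕ}

theorem dvd_of_P {a b : ℕ} (ha : a ≠ 0) (hb : b ≠ 0) (h : ∀ v : ℕ, v.Prime → P v a ≤ P v b) : a ∣ b := by
  rw [← Nat.factorization_le_iff_dvd ha hb]
  intro v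
  by_cases hv : v.Prime
  · exact (Nat.pow_le_pow_iff_right hv.one_lt).1 (h v hv)
  · rw [Nat.factorization_eq_zero_of_not_prime _ hv]; exact Nat.zero_le _

theorem P_AA_one {v : ℕ} (hv : v.Prime) (hvq : v ∣ q) (hq : 2 ≤ q) : P v (AA n q) = 1 := by
  refine P_eq_one fun h => ?_
  rw [AA] at h
  obtain ⟨i, -, h1⟩ := (Prime.dvd_finsetProd_iff hv.prime _).1 h
  have h2 : v ∣ q ^ (2 * (i + 1)) := dvd_pow hvq (by omega)
  have h3 : 1 ≤ q ^ (2 * (i + 1)) := Nat.one_le_pow _ _ (by omega)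
  have h4 := (Nat.dvd_sub_iff_right h3 h2).1 h1
  exact hv.one_lt.ne' (Nat.dvd_one.1 h4)

theorem P_AA_small {v : ℕ} (hv : v.Prime) (hvq : ¬ v ∣ q) (hvs : v ∣ q ^ 2 - 1) (hq : 2 ≤ q) :
    P v (AA n q) = P v (q ^ 2 - 1) ^ n * P v n.factorial := by
  by_cases hv2 : v = 2
  · subst hv2
    have ho : Odd q := by rw [← Nat.not_even_iff_odd, even_iff_two_dvd]; exact hvq
    exact P_AA_two hq ho
  · have he : orderOf ((q ^ 2 : ℕ) : ZMod v) = 1 := by
      rw [orderOf_eq_one_iff]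
      have h3 : 1 ≤ q ^ 2 := Nat.one_le_pow _ _ (by omega)
      rw [← ZMod.natCast_eq_zero_iff, Nat.cast_sub h3] at hvs
      have := sub_eq_zero.1 hvs
      rw [this]; simp
    rw [P_AA hv hv2 hq hvq, he, Nat.div_one, mul_one]

/-- the product is large -/
theorem AA_ge (hq : 2 ≤ q) (n : ℕ) : (q ^ 2 - 1) ^ n * q ^ (n * (n - 1)) ≤ AA n q := by
  induction n with
  | zero => simp [AA]
  | succ n ih =>
    rw [AA_succ]
    have h1 : (q ^ 2 - 1) * q ^ (2 * n) ≤ q ^ (2 * (n + 1)) - 1 := by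
      have h2 : q ^ (2 * (n + 1)) = q ^ 2 * q ^ (2 * n) := by rw [← pow_add]; congr 1; ring
      have h3 : 1 ≤ q ^ (2 * n) := Nat.one_le_pow _ _ (by omega)
      rw [h2, Nat.sub_mul, one_mul]
      omega
    have h4 : (n + 1) * (n + 1 - 1) = n * (n - 1) + 2 * n := by
      rcases n with _ | m
      · rfl
      · rw [Nat.add_sub_cancel, Nat.add_sub_cancel]; ring
    have h5 : (q ^ 2 - 1) ^ (n + 1) * q ^ ((n + 1) * (n + 1 - 1)) =
        ((q ^ 2 - 1) ^ n * q ^ (n * (n - 1))) * ((q ^ 2 - 1) * q ^ (2 * n)) := by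
      rw [h4, pow_add, pow_succ]; ring
    rw [h5]
    exact Nat.mul_le_mul ih h1

variable {p f κ M' i M : ℕ}

theorem P_card (hY : Real (.C n) p f M) {v : ℕ} (hv : v.Prime) (hvp : v ≠ p) (hv2 : v ≠ 2) :
    P v M = P v (AA n (p ^ f)) := by
  have hq := hY.q_ge
  have h1 := hY.eq
  have h2 : dd (.C n) (p ^ f) ≠ 0 := hY.dd_ne
  have h3 : ¬ v ∣ dd (.C n) (p ^ f) := fun h => hv2 ((Nat.prime_dvd_prime_iff_eq hv Nat.prime_two).1
    (h.trans (Nat.gcd_dvd_left 2 _)))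
  have h4 : ¬ v ∣ (p ^ f) ^ NN (.C n) := fun h => hvp ((Nat.prime_dvd_prime_iff_eq hv hY.hp).1
    (hv.dvd_of_dvd_pow (hv.dvd_of_dvd_pow h)))
  have h5 : P v (dd (.C n) (p ^ f) * M) = P v M := by rw [P_mul h2 hY.M_ne, P_eq_one h3, one_mul]
  have h6 : P v ((p ^ f) ^ NN (.C n) * AA n (p ^ f)) = P v (AA n (p ^ f)) := by
    rw [P_mul (pow_ne_zero _ (by omega)) (AA_ne hq), P_eq_one h4, one_mul]
  rw [← h5, h1, ← h6]
  rfl

/-- **the order of the product divides** -/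
theorem AA_dvd {k : ℕ} (hn : n = 2 ^ k) (hY : Real (.C n) p f M) (hfac : κ * (M' * i) = M) (hi : i ∣ 2 * n)
    (hκ : ∀ v : ℕ, v.Prime → v ≠ 2 → ¬ v ∣ p ^ f → ¬ v ∣ (p ^ f) ^ 2 - 1 → ¬ v ∣ κ)
    {w : ℕ} (hw : w.Prime) (hwq : ¬ w ∣ p ^ f) {M'' A : ℕ} (hM' : M' = A * M'') (hA : A = 1 ∨ (w ∣ (p ^ f) ^ 2 - 1 ∧ A = P w M')) :
    AA n (p ^ f) ∣ ((p ^ f) ^ 2 - 1) ^ n * n.factorial * M'' := by
  have hq := hY.q_ge
  have hM0 := hY.M_ne
  set q := p ^ f with hqdef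
  have hκ0 : κ ≠ 0 := by rintro rfl; rw [zero_mul] at hfac; exact hM0 hfac.symm
  have hM'0 : M' ≠ 0 := by rintro rfl; rw [zero_mul, mul_zero] at hfac; exact hM0 hfac.symm
  have hi0 : i ≠ 0 := by rintro rfl; rw [mul_zero, mul_zero] at hfac; exact hM0 hfac.symm
  have hA0 : A ≠ 0 := by rintro rfl; rw [zero_mul] at hM'; exact hM'0 hM'
  have hM''0 : M'' ≠ 0 := by rintro rfl; rw [mul_zero] at hM'; exact hM'0 hM'
  have hsq : q ^ 2 - 1 ≠ 0 := by
    have : 2 ^ 2 ≤ q ^ 2 := Nat.pow_le_pow_left hq 2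
    omega
  have hfac0 : ((q ^ 2 - 1) ^ n * n.factorial) ≠ 0 := Nat.mul_ne_zero (pow_ne_zero _ hsq) (Nat.factorial_pos n).ne'
  apply dvd_of_P (AA_ne hq) (Nat.mul_ne_zero hfac0 hM''0)
  intro v hv
  by_cases hvq : v ∣ q
  · rw [P_AA_one hv hvq hq]
    exact P_pos hv
  by_cases hvs : v ∣ q ^ 2 - 1
  · rw [P_AA_small hv hvq hvs hq, P_mul hfac0 hM''0, P_mul (pow_ne_zero _ hsq) (Nat.factorial_pos n).ne', P_pow]
    exact Nat.le_mul_of_pos_right _ (P_pos hv)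
  · have hv2 : v ≠ 2 := by
      rintro rfl
      apply hvs
      have ho : Odd q := by rw [← Nat.not_even_iff_odd, even_iff_two_dvd]; exact hvq
      obtain ⟨c, hc⟩ := ho.pow (n := 2)
      exact ⟨c, by omega⟩
    have hvp : v ≠ p := by
      rintro rfl
      exact hvq (dvd_pow_self v (by have := hY.hf; omega))
    have h1 : P v M = P v M' := by
      rw [← hfac, P_mul hκ0 (Nat.mul_ne_zero hM'0 hi0), P_mul hM'0 hi0, P_eq_one (hκ v hv hv2 hvq hvs), one_mul]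
      have h2 : ¬ v ∣ i := by
        intro h3
        have h4 : v ∣ 2 ^ (k + 1) := by
          refine h3.trans (hi.trans ?_)
          rw [hn, pow_succ, mul_comm]
        exact hv2 ((Nat.prime_dvd_prime_iff_eq hv Nat.prime_two).1 (hv.dvd_of_dvd_pow h4))
      rw [P_eq_one h2, mul_one]
    have h3 : P v M' = P v M'' := by
      rw [hM', P_mul hA0 hM''0]
      have h4 : ¬ v ∣ A := by
        rcases hA with rfl | ⟨h5, h6⟩
        · exact hv.one_lt.not_ge ∘ Nat.le_of_dvd one_pos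
        · intro h7
          rw [h6, P] at h7
          have h8 := (Nat.prime_dvd_prime_iff_eq hv hw).1 (hv.dvd_of_dvd_pow h7)
          exact hvs (h8 ▸ h5)
      rw [P_eq_one h4, one_mul]
    rw [← P_card hY hv hvp hv2, h1, h3, P_mul hfac0 hM''0]
    exact Nat.le_mul_of_pos_left _ (P_pos hv)

theorem P_two_sq_le {q : ℕ} (ho : Odd q) (hq : 2 ≤ q) : P 2 (q ^ 2 - 1) ≤ 2 * (q + 1) := by
  obtain ⟨m, hm⟩ := ho
  have h5 : q ^ 2 - 1 = 4 * (m * (m + 1)) := by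
    have : q ^ 2 = 4 * (m * (m + 1)) + 1 := by rw [hm]; ring
    omega
  have hm0 : m ≠ 0 := by omega
  rw [h5, P_mul (by norm_num) (Nat.mul_ne_zero hm0 (by omega)), P_mul hm0 (by omega)]
  have h6 : P 2 4 * (P 2 m * P 2 (m + 1)) ≤ 4 * (m + 1) := by
    refine Nat.mul_le_mul (P_le (by norm_num)) ?_
    rcases Nat.even_or_odd m with he | ho
    · have h7 : P 2 (m + 1) = 1 := P_eq_one (by
        rw [← even_iff_two_dvd, Nat.not_even_iff_odd]; exact he.add_one)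
      rw [h7, mul_one]
      exact (P_le hm0).trans (by omega)
    · have h7 : P 2 m = 1 := P_eq_one (by
        rw [← even_iff_two_dvd, Nat.not_even_iff_odd]; exact ho)
      rw [h7, one_mul]
      exact P_le (by omega)
  omega

theorem P_fac_eight {w : ℕ} (hw : w.Prime) (hw2 : w ≠ 2) : P w (Nat.factorial 8) ≤ 9 := by
  have h8 : Nat.factorial 8 = 40320 := by decide
  rw [h8]
  by_cases h : w ∣ 40320
  · have h1 : w ∣ 2 ^ 7 * (3 ^ 2 * (5 * 7)) := h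
    rcases hw.dvd_mul.1 h1 with h2 | h2
    · exact absurd ((Nat.prime_dvd_prime_iff_eq hw Nat.prime_two).1 (hw.dvd_of_dvd_pow h2)) hw2
    rcases hw.dvd_mul.1 h2 with h3 | h3
    · have := (Nat.prime_dvd_prime_iff_eq hw Nat.prime_three).1 (hw.dvd_of_dvd_pow h3)
      subst this
      have h7 := P_pow_self (r := 3) (k := 2) (a := 4480) Nat.prime_three (by norm_num)
      norm_num at h7
      omega
    rcases hw.dvd_mul.1 h3 with h4 | h4
    · have := (Nat.prime_dvd_prime_iff_eq hw Nat.prime_five).1 h4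
      subst this
      have h7 := P_pow_self (r := 5) (k := 1) (a := 8064) Nat.prime_five (by norm_num)
      norm_num at h7
      omega
    · have := (Nat.prime_dvd_prime_iff_eq hw (by norm_num : Nat.Prime 7)).1 h4
      subst this
      have h7 := P_pow_self (r := 7) (k := 1) (a := 5760) (by norm_num) (by norm_num)
      norm_num at h7
      omega
  · rw [P_eq_one h]; norm_num

theorem P_le_other {w : ℕ} (hw : w.Prime) (hw2 : w ≠ 2) (hwq : ¬ w ∣ q) (hws : ¬ w ∣ q ^ 2 - 1) (hq : 2 ≤ q) :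
    P w (AA 8 q) ≤ (q ^ 2 + 1) ^ 4 := by
  have he1 := order_ne_one hq hws
  have he0 : orderOf ((q ^ 2 : ℕ) : ZMod w) ≠ 0 := by
    have := order_pos (q := q) hw (not_dvd_sq hw hwq)
    rw [cast_sq] at this
    omega
  rw [P_AA hw hw2 hq hwq]
  have hr3 := ne_three hwq hq hws
  obtain ⟨e, he⟩ : ∃ e, e = orderOf ((q ^ 2 : ℕ) : ZMod w) := ⟨_, rfl⟩
  rw [← he] at he1 he0 ⊢
  have hfac : P w (8 / e).factorial = 1 := not_dvd_fac hw hw2 hr3 (by
    have : 8 / e ≤ 8 / 2 := Nat.div_le_div_left (by omega) (by norm_num)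
    omega)
  rw [hfac, mul_one]
  by_cases he8 : 8 < e
  · rw [Nat.div_eq_of_lt he8, pow_zero]
    exact Nat.one_le_pow _ _ (by positivity)
  have hhalf := P_sq_sub_one_le (q := q) hw hw2 hq (show 1 ≤ e by omega)
  refine (Nat.pow_le_pow_left hhalf _).trans ?_
  have h8 : q ^ 8 + 1 ≤ (q ^ 2 + 1) ^ 4 := by
    have : (q ^ 2 + 1) ^ 4 = q ^ 8 + 1 + (4 * q ^ 6 + 6 * q ^ 4 + 4 * q ^ 2) := by ring
    omega
  have hmono : ∀ j, j ≤ 8 → q ^ j ≤ q ^ 8 := fun j hj => Nat.pow_le_pow_right (by omega) hj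
  have h5' := hmono 5 (by norm_num)
  have h6' := hmono 6 (by norm_num)
  have h7' := hmono 7 (by norm_num)
  have h34 : q ^ 3 ≤ q ^ 4 := Nat.pow_le_pow_right (by omega) (by norm_num)
  have h4 : q ^ 4 + 1 ≤ (q ^ 2 + 1) ^ 2 := by
    have : (q ^ 2 + 1) ^ 2 = q ^ 4 + 1 + 2 * q ^ 2 := by ring
    omega
  have h42 : (q ^ 4 + 1) ^ 2 ≤ (q ^ 2 + 1) ^ 4 := by
    calc (q ^ 4 + 1) ^ 2 ≤ ((q ^ 2 + 1) ^ 2) ^ 2 := Nat.pow_le_pow_left h4 2
      _ = _ := by ring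
  have h32 : (q ^ 3 + 1) ^ 2 ≤ (q ^ 2 + 1) ^ 4 := by
    calc (q ^ 3 + 1) ^ 2 ≤ ((q ^ 2 + 1) ^ 2) ^ 2 := Nat.pow_le_pow_left (by omega) 2
      _ = _ := by ring
  have h6a : 2 ≤ e := by omega
  have h6b : e ≤ 8 := by omega
  interval_cases e
  · norm_num
  · norm_num; exact h32
  · norm_num; exact h42
  · norm_num; omega
  · norm_num; omega
  · norm_num; omega
  · norm_num; omega

/-- **No simple group of Lie type in cross characteristic**, `n = 8`. -/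
theorem cross_eight {X : Sh} {w g : ℕ} (hY : Real (.C 8) p f M) (hX : Real X w g M') (hwp : w ≠ p)
    (hfac : κ * (M' * i) = M) (hi : i ∣ 2 * 8)
    (hκ : ∀ v : ℕ, v.Prime → v ≠ 2 → ¬ v ∣ p ^ f → ¬ v ∣ (p ^ f) ^ 2 - 1 → ¬ v ∣ κ) : False := by
  have hq := hY.q_ge
  have hw := hX.hp
  have hM0 := hY.M_ne
  have hM'0 := hX.M_ne
  have hlt := hX.lt_cube
  have hwq : ¬ w ∣ p ^ f := fun h => hwp ((Nat.prime_dvd_prime_iff_eq hw hY.hp).1 (hw.dvd_of_dvd_pow h))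
  have hdvd : M' ∣ M := ⟨i * κ, by rw [← hfac]; ring⟩
  have hAM : P w M' ≤ P w M := P_mono hw hM0 hdvd
  obtain ⟨A, hA⟩ : ∃ A, A = P w M' := ⟨_, rfl⟩
  have hApos : 0 < A := by rw [hA]; exact P_pos hw
  obtain ⟨M'', hM''⟩ : A ∣ M' := by rw [hA]; exact P_dvd w M'
  have hM''0 : 0 < M'' := Nat.pos_of_ne_zero (by rintro rfl; rw [mul_zero] at hM''; exact hM'0 hM'')
  have hlt2 : M'' < A ^ 2 := by
    rw [← hA] at hlt
    have h1 : A * M'' < A * A ^ 2 := by rw [← hM'']; calc M' < A ^ 3 := hlt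
      _ = _ := by ring
    exact Nat.lt_of_mul_lt_mul_left h1
  have h8 : Nat.factorial 8 = 40320 := by decide
  set q := p ^ f with hqdef
  have hge := AA_ge hq 8
  have hsq : 0 < (q ^ 2 - 1) ^ 8 := by
    have : 2 ^ 2 ≤ q ^ 2 := Nat.pow_le_pow_left hq 2
    exact pow_pos (by omega) 8
  have key : ∀ B : ℕ, AA 8 q ∣ (q ^ 2 - 1) ^ 8 * Nat.factorial 8 * B → 0 < B → q ^ 56 ≤ 40320 * B := by
    intro B hB hB0
    have h1 := Nat.le_of_dvd (Nat.mul_pos (Nat.mul_pos hsq (Nat.factorial_pos 8)) hB0) hB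
    rw [h8] at h1
    have h2 : (q ^ 2 - 1) ^ 8 * q ^ 56 ≤ (q ^ 2 - 1) ^ 8 * (40320 * B) := by
      calc (q ^ 2 - 1) ^ 8 * q ^ 56 ≤ AA 8 q := hge
        _ ≤ _ := h1
        _ = _ := by ring
    exact Nat.le_of_mul_le_mul_left h2 hsq
  by_cases hws : w ∣ q ^ 2 - 1
  · have h1 := key M'' (AA_dvd (k := 3) (by norm_num) hY hfac hi hκ hw hwq hM'' (Or.inr ⟨hws, hA⟩)) hM''0
    by_cases hw2 : w = 2
    · subst hw2
      have ho : Odd q := by rw [← Nat.not_even_iff_odd, even_iff_two_dvd]; exact hwq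
      have hq3 : 3 ≤ q := by obtain ⟨c, hc⟩ := ho; omega
      have h2 : 2 * P 2 M = P 2 (q ^ 2 - 1) ^ 8 * P 2 (Nat.factorial 8) := by
        rw [← P_AA_small hw hwq hws hq]
        have h3 := hY.eq
        have h4 : dd (.C 8) q = 2 := Nat.gcd_eq_left (by obtain ⟨c, hc⟩ := ho; exact ⟨c, by omega⟩)
        have h5 : P 2 (dd (.C 8) q * M) = 2 * P 2 M := by
          rw [h4, P_mul (by norm_num) hM0]
          have h6 := P_pow_self (r := 2) (k := 1) (a := 1) Nat.prime_two (by norm_num)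
          norm_num at h6
          rw [h6]
        rw [← h5, h3]
        have h6 : ¬ 2 ∣ q ^ NN (.C 8) := fun h => hwq (Nat.prime_two.dvd_of_dvd_pow h)
        have h7 : P 2 (q ^ NN (.C 8) * AA 8 q) = P 2 (AA 8 q) := by
          rw [P_mul (pow_ne_zero _ (by omega)) (AA_ne hq), P_eq_one h6, one_mul]
        rw [← h7]; rfl
      have h3 : P 2 (Nat.factorial 8) = 128 := by
        have h6 := P_pow_self (r := 2) (k := 7) (a := 315) Nat.prime_two (by norm_num)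
        norm_num at h6
        rw [h8]; exact h6
      rw [h3] at h2
      have h4 := Nat.pow_le_pow_left (P_two_sq_le ho hq) 8
      have h5 : (2 * (q + 1)) ^ 8 = 256 * (q + 1) ^ 8 := by ring
      have h6 : A ≤ 16384 * (q + 1) ^ 8 := by omega
      have h7 : M'' < (16384 * (q + 1) ^ 8) ^ 2 := hlt2.trans_le (Nat.pow_le_pow_left h6 2)
      have h9 : (16384 * (q + 1) ^ 8) ^ 2 = 268435456 * (q + 1) ^ 16 := by ring
      have h10 : (3 * (q + 1)) ^ 16 ≤ (4 * q) ^ 16 := Nat.pow_le_pow_left (by omega) 16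
      have h11 : (3 * (q + 1)) ^ 16 = 43046721 * (q + 1) ^ 16 := by ring
      have h12 : (4 * q) ^ 16 = 4294967296 * q ^ 16 := by ring
      have h13 : q ^ 56 = q ^ 16 * q ^ 40 := by ring
      have h14 : 3 ^ 40 ≤ q ^ 40 := Nat.pow_le_pow_left hq3 40
      have h15 : q ^ 16 * 3 ^ 40 ≤ q ^ 16 * q ^ 40 := Nat.mul_le_mul_left _ h14
      have h16 : 0 < q ^ 16 := pow_pos (by omega) 16
      norm_num at h15
      omega
    · rw [P_card hY hw hwp hw2, P_AA_small hw hwq hws hq] at hAM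
      have h2 : P w (q ^ 2 - 1) ≤ q + 1 := by
        have := P_sq_sub_one_le (q := q) (j := 1) hw hw2 hq le_rfl
        simpa using this
      have h3 := P_fac_eight hw hw2
      have h4 : A ≤ (q + 1) ^ 8 * 9 := by
        rw [hA]
        exact hAM.trans (Nat.mul_le_mul (Nat.pow_le_pow_left h2 8) h3)
      have h7 : M'' < ((q + 1) ^ 8 * 9) ^ 2 := hlt2.trans_le (Nat.pow_le_pow_left h4 2)
      have h9 : ((q + 1) ^ 8 * 9) ^ 2 = 81 * (q + 1) ^ 16 := by ring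
      have h10 : (2 * (q + 1)) ^ 16 ≤ (3 * q) ^ 16 := Nat.pow_le_pow_left (by omega) 16
      have h11 : (2 * (q + 1)) ^ 16 = 65536 * (q + 1) ^ 16 := by ring
      have h12 : (3 * q) ^ 16 = 43046721 * q ^ 16 := by ring
      have h13 : q ^ 56 = q ^ 16 * q ^ 40 := by ring
      have h14 : 2 ^ 40 ≤ q ^ 40 := Nat.pow_le_pow_left hq 40
      have h15 : q ^ 16 * 2 ^ 40 ≤ q ^ 16 * q ^ 40 := Nat.mul_le_mul_left _ h14
      have h16 : 0 < q ^ 16 := pow_pos (by omega) 16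
      norm_num at h15
      omega
  · have hw2 : w ≠ 2 := by
      rintro rfl
      apply hws
      have ho : Odd q := by rw [← Nat.not_even_iff_odd, even_iff_two_dvd]; exact hwq
      obtain ⟨c, hc⟩ := ho.pow (n := 2)
      exact ⟨c, by omega⟩
    have h1 := key M' (AA_dvd (k := 3) (by norm_num) hY hfac hi hκ hw hwq (one_mul M').symm (Or.inl rfl))
      (Nat.pos_of_ne_zero hM'0)
    rw [P_card hY hw hwp hw2] at hAM
    have h2 := P_le_other hw hw2 hwq hws hq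
    have h3 : M' < ((q ^ 2 + 1) ^ 4) ^ 3 := hlt.trans_le (Nat.pow_le_pow_left (hAM.trans h2) 3)
    have h4 : ((q ^ 2 + 1) ^ 4) ^ 3 = (q ^ 2 + 1) ^ 12 := by ring
    have hq2 : 2 ^ 2 ≤ q ^ 2 := Nat.pow_le_pow_left hq 2
    have h5 : (4 * (q ^ 2 + 1)) ^ 12 ≤ (5 * q ^ 2) ^ 12 := Nat.pow_le_pow_left (by omega) 12
    have h6 : (4 * (q ^ 2 + 1)) ^ 12 = 16777216 * (q ^ 2 + 1) ^ 12 := by ring
    have h7 : (5 * q ^ 2) ^ 12 = 244140625 * q ^ 24 := by ring
    have h13 : q ^ 56 = q ^ 24 * q ^ 32 := by ring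
    have h14 : 2 ^ 32 ≤ q ^ 32 := Nat.pow_le_pow_left hq 32
    have h15 : q ^ 24 * 2 ^ 32 ≤ q ^ 24 * q ^ 32 := Nat.mul_le_mul_left _ h14
    have h16 : 0 < q ^ 24 := pow_pos (by omega) 24
    norm_num at h15
    omega

end Cfsg.Agent.H365.TorSp
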