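import Cfsg.Agent.H378.RegE7
import Cfsg.Agent.H364.Reduce
import Cfsg.Agent.H364.Slack
import Cfsg.Agent.H364.OutLie
import Cfsg.Agent.H364.ArithU
import Cfsg.Agent.H364.UnitaryP
import Cfsg.Agent.H365.Near

/-!
# E₇(q): primes not adjacent to the characteristic, exponent of the unipotent elements
-/

set_option autoImplicit false

namespace Cfsg.Agent.H365.ExcSeven

open CoxeterSystem Subgroup Cfsg Cfsg.Lie Cfsg.Lie.ChevalleyDatum
open Cfsg.Agent.ChevalleyStructure Cfsg.Agent.ChevalleyStructure.Elts Cfsg.Agent.ChevalleyStructure.CoxeterGeom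
  Cfsg.Agent.ChevalleyStructure.CoxeterGeomTypes
open Cfsg.Agent.Nodes.RGDChev Cfsg.Agent.KFacts.RgdField Cfsg.Agent.KFacts.RgdChevCoord Cfsg.Agent.BpExc.TorCent
  Cfsg.Agent.BpExc.TorChev Cfsg.Agent.BpExc.Tow Cfsg.Agent.BpExc.TowChev Cfsg.Agent.BpExc.FamExt Cfsg.Agent.BpExc.FamUntw
  Cfsg.Agent.BpExc.FamInst Cfsg.Agent.BpExc.LangFr Cfsg.Agent.BpExc.FamField Cfsg.Agent.BpExc.RowsUntw
open Cfsg.Agent.H378.TorDual Cfsg.Agent.H378.ExcAdj Cfsg.Agent.H378.RegE7
open Cfsg.Agent.H364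

universe u v

/-- an endomorphism `w - q` of `ℤ^l` with `w` invertible and `p ∣ q` has a cokernel without `p`-torsion -/
theorem co_no_torsion {l p : ℕ} {q : ℤ} (hpq : (p : ℤ) ∣ q) {w w' : Module.End ℤ (Fin l → ℤ)} (hw : w' * w = 1)
    (hp0 : (p : ℤ) ≠ 0) (y : Co (w - q • (1 : Module.End ℤ (Fin l → ℤ)))) (hy : (p : ℤ) • y = 0) : y = 0 := by
  obtain ⟨v, rfl⟩ := Submodule.Quotient.mk_surjective _ y
  rw [← Submodule.Quotient.mk_smul, Submodule.Quotient.mk_eq_zero] at hy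
  obtain ⟨u, hu⟩ := LinearMap.mem_range.1 hy
  rw [Submodule.Quotient.mk_eq_zero]
  obtain ⟨c, rfl⟩ := hpq
  have h0 : w u - ((p : ℤ) * c) • u = (p : ℤ) • v := by
    rw [← hu]; rfl
  have h1 : w u = (p : ℤ) • (c • u + v) := by
    rw [smul_add, ← h0, smul_smul]; abel
  have h2 : u = (p : ℤ) • w' (c • u + v) := by
    have h3 : w' (w u) = u := by
      have := congrArg (fun g : Module.End ℤ (Fin l → ℤ) => g u) hw
      exact this
    rw [← map_smul, ← h1, h3]
  refine LinearMap.mem_range.2 ⟨w' (c • u + v), ?_⟩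
  set u' := w' (c • u + v)
  have h4 : (p : ℤ) • ((w - ((p : ℤ) * c) • (1 : Module.End ℤ (Fin l → ℤ))) u') = (p : ℤ) • v := by
    rw [← map_smul, ← h2, hu]
  exact smul_right_injective _ hp0 h4

variable {F : Type u} [Field F] [Finite F]

/-- **E₇(q)**: no element of order `ℓ p`, where `q` has order 7, 9, 14 or 18 modulo `ℓ`. -/
theorem noEdge_E7 {p ℓ m : ℕ} (hp : p.Prime) (hpF : p ∣ Nat.card F) (hℓ : ℓ.Prime) (h : od (Nat.card F) ℓ = m)
    (hm : m = 7 ∨ m = 9 ∨ m = 14 ∨ m = 18) : NoEdge ↥(chevE7.group F) ℓ p := by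
  intro y hy
  have hfin := finite_W e7T (CoxeterMatrix.E₇.toCoxeterSystem)
  have hx : orderOf (y ^ p) = ℓ := by
    rw [orderOf_pow' _ hp.ne_zero, hy, Nat.gcd_eq_right (dvd_mul_left p ℓ), Nat.mul_div_cancel _ hp.pos]
  obtain ⟨w, -, φ, hφ⟩ := cent_E7 hℓ hx h hm (CoxeterMatrix.E₇.toCoxeterSystem)
  have hyc : y ^ ℓ ∈ Subgroup.centralizer {y ^ p} := by
    rw [Subgroup.mem_centralizer_singleton_iff]
    exact (((Commute.refl y).pow_left ℓ).pow_right p).eq
  have hyp : orderOf (y ^ ℓ) = p := by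
    rw [orderOf_pow' _ hℓ.ne_zero, hy, Nat.gcd_eq_right (dvd_mul_right ℓ p), Nat.mul_div_cancel_left _ hℓ.pos]
  have h1 : orderOf (φ ⟨y ^ ℓ, hyc⟩) = p := by
    rw [orderOf_injective φ hφ, Subgroup.orderOf_mk, hyp]
  generalize φ ⟨y ^ ℓ, hyc⟩ = z at h1
  have h2 : z ^ p = 1 := by
    have := pow_orderOf_eq_one z
    rwa [h1] at this
  have h3 : (p : ℤ) • (Multiplicative.toAdd z) = 0 := by
    have := congrArg Multiplicative.toAdd h2
    rw [toAdd_pow, toAdd_one] at this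
    exact (natCast_zsmul _ _).trans this
  have h4 := co_no_torsion (q := ((Nat.card F : ℕ) : ℤ)) (by exact_mod_cast hpF) (w' := rep _ e7T.isCartan w⁻¹) (by
    rw [← map_mul, inv_mul_cancel, map_one]) (by exact_mod_cast hp.ne_zero) _ h3
  have h5 : z = 1 := h4
  rw [h5, orderOf_one] at h1
  exact hp.one_lt.ne h1

/-- a matrix whose `p^j`-th power is the identity: its `p^e`-th power is the identity as soon as `p^e` is at least the
dimension -/
theorem matrix_pow {ι K : Type*} [Fintype ι] [DecidableEq ι] [Nonempty ι] [Field K] {p : ℕ} [hp : Fact p.Prime]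
    [CharP K p] {e j : ℕ} (he : Fintype.card ι ≤ p ^ e) {A : Matrix ι ι K} (h : A ^ p ^ j = 1) : A ^ p ^ e = 1 := by
  have : CharP (Matrix ι ι K) p := inferInstance
  have h3 : (A - 1) ^ (p ^ j) = 0 := by
    rw [sub_pow_char_pow_of_commute (p := p) _ (Commute.one_right _), h, one_pow, sub_self]
  have h4 : (A - 1) ^ Fintype.card ι = 0 := Unitary.pow_card_eq_zero (⟨_, h3⟩ : IsNilpotent (A - 1))
  have h6 : (A - 1) ^ (p ^ e) = 0 := by
    obtain ⟨k, hk⟩ := Nat.exists_eq_add_of_le he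
    rw [hk, pow_add, h4, zero_mul]
  rwa [sub_pow_char_pow_of_commute (p := p) _ (Commute.one_right _), one_pow, sub_eq_zero] at h6

/-- the exponent of the `p`-elements of `E₇(q)` -/
theorem exp_E7 {K : Type*} [Field K] {p : ℕ} [hp : Fact p.Prime] [CharP K p] {j : ℕ} {x : ↥(chevE7.group K)}
    (hx : orderOf x = p ^ j) : j ≤ Nat.clog p 133 := by
  have hne : Nonempty chevE7.Idx := ⟨Sum.inl ⟨0, by decide⟩⟩
  have hcard : Fintype.card chevE7.Idx = 133 := by
    rw [Fintype.card_sum, Fintype.card_fin, Fintype.card_fin]; decide +kernel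
  have h1 : (((x : GL chevE7.Idx K) : Matrix chevE7.Idx chevE7.Idx K)) ^ p ^ j = 1 := by
    have h2 : x ^ p ^ j = 1 := by rw [← hx]; exact pow_orderOf_eq_one x
    have h3 := congrArg (fun y : ↥(chevE7.group K) => ((y : GL chevE7.Idx K) : Matrix chevE7.Idx chevE7.Idx K)) h2
    simpa using h3
  have h2 := matrix_pow (e := Nat.clog p 133) (by rw [hcard]; exact Nat.le_pow_clog hp.out.one_lt 133) h1
  have h3 : x ^ p ^ Nat.clog p 133 = 1 := by
    apply Subtype.ext
    apply Units.ext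
    simpa using h2
  have h4 := orderOf_dvd_of_pow_eq_one h3
  rw [hx] at h4
  exact (Nat.pow_dvd_pow_iff_le_right hp.out.one_lt).1 h4

end Cfsg.Agent.H365.ExcSeven
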