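import Cfsg.Agent.H378.RegTw
import Cfsg.Agent.H129.TorusUntw
import Cfsg.Agent.H365.ExcSeven

/-!
# Elements of prime order `ℓ` of groups of type `E₆`, `q` of order 8 modulo `ℓ`

* `dvd_card_perm` : a permutation all whose orbits have length divisible by `m`;
* `aeval_root` : `χ (g x) = χ x ^ q`, `l < 2 φ(m)`: if `χ a = 1` for a root `a` then `Q(g) a = 0`, `X ^ (N m) - 1 = Φ_m Q`;
* `rank_ker` : the rank of the kernel of `Q(g)` is at most `l - φ(m)`;
* `root_E6` : type `E₆`, `m = 8, 12`: no root is trivial; `root_phi` : `φ(m) = l`;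
* `noEdge_gen`: no element of order `ℓ p`.
-/

set_option autoImplicit false
set_option linter.unusedSectionVars false

namespace Cfsg.Agent.H365.ExcEight

open CoxeterSystem Subgroup Cfsg Cfsg.Lie Cfsg.Lie.ChevalleyDatum
open Cfsg.Agent.ChevalleyStructure Cfsg.Agent.ChevalleyStructure.Elts Cfsg.Agent.ChevalleyStructure.CoxeterGeom
  Cfsg.Agent.ChevalleyStructure.CoxeterGeomTypes Cfsg.Agent.ChevalleyStructure.NPerm
open Cfsg.Agent.Tits.Roots Cfsg.Agent.Tits.Core Cfsg.Agent.Nodes.Reps Cfsg.Agent.Nodes.BNOf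
  Cfsg.Agent.Nodes.RGDChev Cfsg.Agent.Nodes.Bruhat
open Cfsg.Agent.KFacts.RgdField Cfsg.Agent.KFacts.RgdChevCoord Cfsg.Agent.BpExc Cfsg.Agent.BpExc.TorCent
  Cfsg.Agent.BpExc.TorChev Cfsg.Agent.BpExc.Tow Cfsg.Agent.BpExc.TowChev Cfsg.Agent.BpExc.Fr Cfsg.Agent.BpExc.Pair
  Cfsg.Agent.BpExc.LangFr
open Cfsg.Agent.H378.TorDual Cfsg.Agent.H378.TorChar Cfsg.Agent.H378.TorFin Cfsg.Agent.H378.LatRoot
  Cfsg.Agent.H378.LatCyc Cfsg.Agent.H378.LatCodim Cfsg.Agent.H378.LatPerp Cfsg.Agent.H378.RegTw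
  Cfsg.Agent.H378.ExcAdj
open Cfsg.Agent.H364 Cfsg.Agent.BpExc.RowsUntw
open Polynomial

universe u v

/-! ### permutations -/

theorem dvd_card_perm {X : Type*} [Fintype X] [DecidableEq X] (π : Equiv.Perm X) {m : ℕ} (hm : 1 < m)
    (h : ∀ (x : X) (j : ℕ), (π ^ j) x = x → m ∣ j) : m ∣ Fintype.card X := by
  have h1 : π.support = Finset.univ := by
    ext x
    simp only [Equiv.Perm.mem_support, Finset.mem_univ, iff_true]
    intro hx
    have := Nat.le_of_dvd one_pos (h x 1 (by rwa [pow_one]))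
    omega
  rw [← Finset.card_univ, ← h1, ← Equiv.Perm.sum_cycleType]
  refine Multiset.dvd_sum fun n hn => ?_
  obtain ⟨c, τ, hπ, hd, hc, hcard⟩ := Equiv.Perm.mem_cycleType_iff.1 hn
  obtain ⟨x, hx, -⟩ := id hc
  refine h x n ?_
  have h2 : τ x = x := (hd x).resolve_left hx
  have h3 : (τ ^ n) x = x := Equiv.Perm.pow_apply_eq_self_of_apply_eq_self h2 n
  rw [hπ, hd.commute.mul_pow, Equiv.Perm.mul_apply, h3, ← hcard, ← hc.orderOf, pow_orderOf_eq_one,
    Equiv.Perm.one_apply]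

/-! ### lattices -/

section Lat

variable {l : ℕ}

theorem pow_mul_apply {m : ℕ} {w : Module.End ℤ (Fin l → ℤ)} {b : Fin l → ℤ} (h : (w ^ m) b = b) (k : ℕ) :
    (w ^ (m * k)) b = b := by
  induction k with
  | zero => rfl
  | succ k ih => rw [Nat.mul_succ, pow_add, Module.End.mul_apply, h, ih]

theorem dvd_of_pow_apply {m : ℕ} (hm : 0 < m) {w : Module.End ℤ (Fin l → ℤ)} {b : Fin l → ℤ} (hb : b ≠ 0)
    (h : aeval w (cyclotomic m ℤ) b = 0) {j : ℕ} (hj : (w ^ j) b = b) : m ∣ j := by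
  rw [← Nat.mod_add_div j m, pow_add, Module.End.mul_apply, pow_mul_apply (pow_apply_eq h)] at hj
  by_contra hcon
  exact pow_apply_ne hm hb h (Nat.pos_of_ne_zero fun h0 => hcon (Nat.dvd_of_mod_eq_zero h0)) (Nat.mod_lt j hm) hj

/-- **The rank of the kernel of the complementary factor.** -/
theorem rank_ker {m N : ℕ} (hm : 0 < m) (hN : 0 < N) {w : Module.End ℤ (Fin l → ℤ)} {Q : ℤ[X]}
    (hQ : X ^ N - 1 = cyclotomic m ℤ * Q) {y : Fin l → ℤ} (hy : y ≠ 0) (hy' : aeval w (cyclotomic m ℤ) y = 0)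
    {n : ℕ} (b : Module.Basis (Fin n) ℤ ↥(LinearMap.ker (aeval w Q))) : m.totient + n ≤ l := by
  obtain ⟨T, hT⟩ : ∃ T, T = toQ w := ⟨_, rfl⟩
  have h1 : LinearIndependent ℚ (fun i : Fin m.totient => (T ^ (i : ℕ)) (vq y)) :=
    indepQ hm (fun h0 => hy (vq_eq_zero.1 h0)) (by rw [hT]; exact aeval_vq hy')
  let vql : (Fin l → ℤ) →ₗ[ℤ] (Fin l → ℚ) :=
    { toFun := vq
      map_add' := fun x y => by funext i; simp [vq]
      map_smul' := fun c x => by funext i; simp [vq] }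
  have hvql : LinearMap.ker vql = ⊥ := LinearMap.ker_eq_bot.2 vq_injective
  have h2 : LinearIndependent ℚ (fun j : Fin n => vq ((b j : ↥(LinearMap.ker (aeval w Q))) : Fin l → ℤ)) := by
    rw [← LinearIndependent.iff_fractionRing ℤ ℚ]
    have h3 := b.linearIndependent.map' (LinearMap.ker (aeval w Q)).subtype (Submodule.ker_subtype _)
    exact h3.map' vql hvql
  have hcop : IsCoprime (cyclotomic m ℚ) (Q.map (Int.castRingHom ℚ)) := by
    have h3 : (X ^ N - 1 : ℚ[X]) = cyclotomic m ℚ * Q.map (Int.castRingHom ℚ) := by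
      have h4 := congrArg (Polynomial.map (Int.castRingHom ℚ)) hQ
      rwa [Polynomial.map_sub, Polynomial.map_pow, Polynomial.map_X, Polynomial.map_one, Polynomial.map_mul,
        map_cyclotomic_int] at h4
    have h4 : (X ^ N - 1 : ℚ[X]).Separable := by
      refine separable_X_pow_sub_C (1 : ℚ) ?_ one_ne_zero |> fun h => by simpa using h
      exact_mod_cast hN.ne'
    rw [h3] at h4
    exact h4.isCoprime
  have hd : Disjoint (Submodule.span ℚ (Set.range fun i : Fin m.totient => (T ^ (i : ℕ)) (vq y)))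
      (Submodule.span ℚ (Set.range fun j : Fin n => vq ((b j : ↥(LinearMap.ker (aeval w Q))) : Fin l → ℤ))) := by
    refine (disjoint_ker_aeval_of_isCoprime T hcop).mono ?_ ?_
    · rw [Submodule.span_le]
      rintro _ ⟨i, rfl⟩
      rw [SetLike.mem_coe, LinearMap.mem_ker]
      show aeval T (cyclotomic m ℚ) ((T ^ (i : ℕ)) (vq y)) = 0
      have h3 : (T ^ (i : ℕ)) (vq y) = aeval T (X ^ (i : ℕ) : ℚ[X]) (vq y) := by rw [map_pow, aeval_X]
      rw [h3, ← Module.End.mul_apply, ← map_mul, mul_comm, map_mul, Module.End.mul_apply, hT, aeval_vq hy', map_zero]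
    · rw [Submodule.span_le]
      rintro _ ⟨j, rfl⟩
      rw [SetLike.mem_coe, LinearMap.mem_ker]
      show aeval T (Q.map (Int.castRingHom ℚ)) (vq _) = 0
      rw [hT, ← toQ_aeval, toQ_vq, LinearMap.mem_ker.1 (b j).2]
      exact vq_zero
  have h3 := (h1.sum_type h2 hd).fintype_card_le_finrank
  rwa [Fintype.card_sum, Fintype.card_fin, Fintype.card_fin, Module.finrank_fin_fun] at h3

section Root

variable {M : CoxeterMatrix (Fin l)} {A : Fin l → Fin l → ℤ} {h : IsCartan M A} {W : Type*} [Group W] [Finite W]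
  {cs : CoxeterSystem M W}

/-- **The trivial roots lie in the kernel of the complementary factor.** -/
theorem aeval_root {g : (Fin l → ℤ) ≃+ (Fin l → ℤ)} (hg : ∀ a, IsRoot cs h (g a) ↔ IsRoot cs h a)
    {m N : ℕ} (hm : 0 < m) (hl : l < 2 * m.totient) (hwN : endo g ^ N = 1) {Q : ℤ[X]}
    (hQ : X ^ (N * m) - 1 = cyclotomic m ℤ * Q) {k : Type u} [Field k] {ℓ : ℕ} (hℓ : ℓ.Prime)
    (hℓW : ¬ ℓ ∣ Nat.card W) {q : ℕ} {χ : Ch l k} (hE : EigG k q ℓ g χ) {x : Fin l → ℤ}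
    (hx : aeval (endo g) (cyclotomic m ℤ) (aeval (endo g) Q x) = 0)
    (hx1 : χ (Multiplicative.ofAdd (aeval (endo g) Q x)) ≠ 1)
    {a : Fin l → ℤ} (ha : IsRoot cs h a) (h1 : χ (Multiplicative.ofAdd a) = 1) : aeval (endo g) Q a = 0 := by
  obtain ⟨hχ, hχ1, hχℓ⟩ := hE
  by_contra hd
  have hpow : ∀ i : ℕ, χ (Multiplicative.ofAdd (g^[i] a)) = 1 := by
    intro i
    induction i with
    | zero => exact h1
    | succ i ih => rw [Function.iterate_succ_apply', mem_kerOf_iff.1 hχ, ih, one_pow]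
  have havg : ∀ P : ℤ[X], avg cs h χ (aeval (endo g) P a) = 0 := by
    intro P
    induction P using Polynomial.induction_on' with
    | add p q hp hq => rw [map_add, LinearMap.add_apply, map_add, hp, hq, add_zero]
    | monomial n c =>
      rw [aeval_monomial, Module.End.mul_apply, Module.algebraMap_end_apply, map_smul, endo_pow,
        avg_root (iter_root hg n ha) (hpow n), smul_zero]
  have hzero : aeval (endo g) (cyclotomic m ℤ) (aeval (endo g) Q a) = 0 := by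
    rw [← Module.End.mul_apply, ← map_mul, ← hQ, map_sub, map_pow, aeval_X, map_one, pow_mul, hwN, one_pow, sub_self,
      LinearMap.zero_apply]
  have h2 := eq_zero_of_two hm hl hd hzero hx (e := avg cs h χ) fun i => by
    have h3 : (endo g ^ i) (aeval (endo g) Q a) = aeval (endo g) (X ^ i * Q) a := by
      rw [map_mul, map_pow, aeval_X, Module.End.mul_apply]
    rw [h3]
    exact havg _
  have hcop : (Nat.card ↥(stab cs h χ)).Coprime ℓ :=
    ((Nat.Prime.coprime_iff_not_dvd hℓ).2 fun h2 => hℓW (h2.trans (Subgroup.card_subgroup_dvd_card _))).symm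
  have h3 := chi_avg (cs := cs) (h := h) χ (aeval (endo g) Q x)
  rw [h2, ofAdd_zero, map_one] at h3
  have h4 : χ (Multiplicative.ofAdd (aeval (endo g) Q x)) ^ ℓ = 1 := by
    rw [← MonoidHom.pow_apply, hχℓ, MonoidHom.one_apply]
  exact hx1 (pow_eq_one_of_coprime h3.symm h4 hcop)

/-- the roots outside the kernel of the complementary factor: their number is divisible by `m` -/
theorem dvd_card_compl {g : (Fin l → ℤ) ≃+ (Fin l → ℤ)} (hg : ∀ a, IsRoot cs h (g a) ↔ IsRoot cs h a)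
    {m N : ℕ} (hm : 1 < m) (hwN : endo g ^ N = 1) {Q : ℤ[X]}
    (hQ : X ^ (N * m) - 1 = cyclotomic m ℤ * Q) :
    m ∣ Nat.card {b : Fin l → ℤ // IsRoot cs h b ∧ aeval (endo g) Q b ≠ 0} := by
  classical
  have hcomm : ∀ b, aeval (endo g) Q (g b) = g (aeval (endo g) Q b) := by
    intro b
    have h3 : aeval (endo g) Q (g b) = aeval (endo g) (Q * X) b := by
      rw [map_mul, aeval_X, Module.End.mul_apply]; rfl
    rw [h3, mul_comm, map_mul, aeval_X, Module.End.mul_apply]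
    rfl
  have hst : ∀ b, (IsRoot cs h (g b) ∧ aeval (endo g) Q (g b) ≠ 0) ↔ (IsRoot cs h b ∧ aeval (endo g) Q b ≠ 0) := by
    intro b
    rw [hg, hcomm]
    exact and_congr_right fun _ => not_congr ⟨fun h0 => g.injective (by rw [h0, map_zero]), fun h0 => by rw [h0, map_zero]⟩
  have hfin : Finite {b : Fin l → ℤ // IsRoot cs h b ∧ aeval (endo g) Q b ≠ 0} := by
    have := (RGD.finite_roots (cs := cs) (h := h))
    exact Set.Finite.subset this (fun b hb => hb.1)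
  have := Fintype.ofFinite {b : Fin l → ℤ // IsRoot cs h b ∧ aeval (endo g) Q b ≠ 0}
  let π : Equiv.Perm {b : Fin l → ℤ // IsRoot cs h b ∧ aeval (endo g) Q b ≠ 0} :=
    { toFun := fun b => ⟨g b.1, (hst _).2 b.2⟩
      invFun := fun b => ⟨g.symm b.1, by rw [← hst, g.apply_symm_apply]; exact b.2⟩
      left_inv := fun b => Subtype.ext (g.symm_apply_apply _)
      right_inv := fun b => Subtype.ext (g.apply_symm_apply _) }
  have hπ : ∀ (n : ℕ) (b : {b : Fin l → ℤ // IsRoot cs h b ∧ aeval (endo g) Q b ≠ 0}),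
      ((π ^ n) b).1 = (endo g ^ n) b.1 := by
    intro n
    induction n with
    | zero => intro b; rfl
    | succ n ih =>
      intro b
      rw [pow_succ, Equiv.Perm.mul_apply, ih, pow_succ, Module.End.mul_apply]
      rfl
  rw [Nat.card_eq_fintype_card]
  refine dvd_card_perm π hm fun b j hj => ?_
  have h3 : (endo g ^ j) b.1 = b.1 := by rw [← hπ, hj]
  refine dvd_of_pow_apply (w := endo g) (by omega) b.2.2 ?_ (j := j) ?_
  · rw [← Module.End.mul_apply, ← map_mul, ← hQ, map_sub, map_pow, aeval_X, map_one, pow_mul, hwN, one_pow, sub_self,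
      LinearMap.zero_apply]
  · have h4 : (endo g ^ j) (aeval (endo g) Q b.1) = aeval (endo g) (X ^ j * Q) b.1 := by
      rw [map_mul, map_pow, aeval_X, Module.End.mul_apply]
    rw [h4, mul_comm, map_mul, map_pow, aeval_X, Module.End.mul_apply, h3]

end Root

end Lat

/-! ### type `E₆` -/

section E6

/-- two roots of `E₆` congruent modulo 2 are equal up to sign -/
theorem mod_two_E6 : ∀ r s : Fin chevE6.nroots, (∀ i : Fin 6, (2 : ℤ) ∣ vec chevE6 6 r i - vec chevE6 6 s i) →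
    r = s ∨ ∀ i : Fin 6, vec chevE6 6 r i = - vec chevE6 6 s i := by
  decide +kernel

theorem mod_two_zero_E6 : ∀ r : Fin chevE6.nroots, ∃ i : Fin 6, ¬ (2 : ℤ) ∣ vec chevE6 6 r i := by
  decide +kernel

theorem nroots_E6 : chevE6.nroots = 72 := by decide +kernel

/-- the number of roots of `E₆` in a saturated sublattice of rank at most two -/
theorem card_le_six {L : Submodule ℤ (Fin 6 → ℤ)} {n : ℕ} (hn : n ≤ 2) (b : Module.Basis (Fin n) ℤ ↥L)
    (S : Finset (Fin chevE6.nroots)) (hS : ∀ r ∈ S, vec chevE6 6 r ∈ L) : S.card ≤ 6 := by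
  classical
  let c : Fin chevE6.nroots → (Fin n → ZMod 2) := fun r =>
    if h : vec chevE6 6 r ∈ L then fun i => ((b.repr ⟨_, h⟩ i : ℤ) : ZMod 2) else 0
  have hdiv : ∀ u : ↥L, (∀ i, ((b.repr u i : ℤ) : ZMod 2) = 0) → ∀ i, (2 : ℤ) ∣ (u : Fin 6 → ℤ) i := by
    intro u hu i
    have h1 : ∀ j, ∃ d : ℤ, b.repr u j = 2 * d := fun j => by
      have := (ZMod.intCast_zmod_eq_zero_iff_dvd _ 2).1 (hu j)
      exact this
    choose d hd using h1
    have h2 : u = (2 : ℤ) • ∑ j, d j • b j := by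
      conv_lhs => rw [← b.sum_repr u]
      rw [Finset.smul_sum]
      refine Finset.sum_congr rfl fun j _ => ?_
      rw [hd j, mul_smul]
    rw [h2]
    exact ⟨((∑ j, d j • b j : ↥L) : Fin 6 → ℤ) i, rfl⟩
  have hfib : ∀ a ∈ S.image c, (S.filter fun x => c x = a).card ≤ 2 := by
    intro a ha
    obtain ⟨r0, hr0, rfl⟩ := Finset.mem_image.1 ha
    have hsub : ∀ x ∈ S.filter fun x => c x = c r0, x = r0 ∨ ∀ i : Fin 6, vec chevE6 6 x i = - vec chevE6 6 r0 i := by
      intro x hx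
      obtain ⟨hxS, hx⟩ := Finset.mem_filter.1 hx
      refine mod_two_E6 x r0 ?_
      have hxL := hS x hxS
      have hr0L := hS r0 hr0
      refine hdiv (⟨_, hxL⟩ - ⟨_, hr0L⟩) fun i => ?_
      have h3 := congrFun hx i
      simp only [c, dif_pos hxL, dif_pos hr0L] at h3
      rw [map_sub, Finsupp.sub_apply, Int.cast_sub, h3, sub_self]
    by_contra hcon
    push Not at hcon
    obtain ⟨x, y, z, hx, hy, hz, hxy, hxz, hyz⟩ := Finset.two_lt_card_iff.1 hcon
    have key : ∀ x y : Fin chevE6.nroots, (∀ i : Fin 6, vec chevE6 6 x i = - vec chevE6 6 r0 i) →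
        (∀ i : Fin 6, vec chevE6 6 y i = - vec chevE6 6 r0 i) → x = y := by
      intro x y hx hy
      exact Fin.ext (vec_inj e6T x.2 y.2 (funext fun i => by rw [hx, hy]))
    rcases hsub x hx with h1 | h1 <;> rcases hsub y hy with h2 | h2 <;> rcases hsub z hz with h3 | h3
    · exact hxy (h1.trans h2.symm)
    · exact hxy (h1.trans h2.symm)
    · exact hxz (h1.trans h3.symm)
    · exact hyz (key _ _ h2 h3)
    · exact hyz (h2.trans h3.symm)
    · exact hxz (key _ _ h1 h3)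
    · exact hxy (key _ _ h1 h2)
    · exact hxy (key _ _ h1 h2)
  have h1 := Finset.card_le_mul_card_image S 2 hfib
  have h2 : S.image c ⊆ Finset.univ.erase 0 := by
    intro a ha
    obtain ⟨r0, hr0, rfl⟩ := Finset.mem_image.1 ha
    refine Finset.mem_erase.2 ⟨fun h0 => ?_, Finset.mem_univ _⟩
    have hr0L := hS r0 hr0
    obtain ⟨i, hi⟩ := mod_two_zero_E6 r0
    refine hi (hdiv ⟨_, hr0L⟩ (fun j => ?_) i)
    have h3 := congrFun h0 j
    simp only [c, dif_pos hr0L] at h3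
    exact h3
  have h3 := Finset.card_le_card h2
  rw [Finset.card_erase_of_mem (Finset.mem_univ _), Finset.card_univ, Fintype.card_fun, ZMod.card,
    Fintype.card_fin] at h3
  have h4 : 2 ^ n ≤ 2 ^ 2 := Nat.pow_le_pow_right (by norm_num) hn
  omega

variable {W : Type*} [Group W] [Finite W] (cs : CoxeterSystem CoxeterMatrix.E₆ W)

/-- **Type `E₆`, `m = 8` or `m = 12`: no root is trivial.** -/
theorem root_E6 {g : (Fin 6 → ℤ) ≃+ (Fin 6 → ℤ)} (hg : ∀ a, IsRoot cs e6T.isCartan (g a) ↔ IsRoot cs e6T.isCartan a)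
    {k : Type u} [Field k] {ℓ m : ℕ} (hℓ : ℓ.Prime) (hm : m = 8 ∨ m = 12) (hℓ8 : m < ℓ) {q : ℕ}
    (hq : (ℓ : ℤ) ∣ (cyclotomic m ℤ).eval ((q : ℕ) : ℤ)) {χ : Ch 6 k} (hE : EigG k q ℓ g χ)
    {a : Fin 6 → ℤ} (ha : IsRoot cs e6T.isCartan a) : χ (Multiplicative.ofAdd a) ≠ 1 := by
  classical
  intro h1
  have hℓW : ¬ ℓ ∣ Nat.card W := fun h => by
    have := le_of_dvd_card cs e6T.isCartan hℓ h
    omega
  obtain ⟨N, hN, hwN⟩ := exists_pow_one (cs := cs) (h := e6T.isCartan) hg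
  obtain ⟨n, hn, hwn, hℓn⟩ := order_coprime hN hwN hℓ (by omega)
  have t8 : Nat.totient m = 4 := by rcases hm with rfl | rfl <;> decide
  have hm0 : 0 < m := by omega
  obtain ⟨Q, hQ, x, hx, hx1⟩ := exists_ker (m := m) hm0 hn hwn hℓ hℓn
    (fun h => by have := Nat.le_of_dvd hm0 h; omega) hq hE.1 hE.2.1 hE.2.2
  have hy : aeval (endo g) Q x ≠ 0 := by
    intro h0
    rw [h0, ofAdd_zero, map_one] at hx1
    exact hx1 rfl
  obtain ⟨r, b⟩ := Submodule.basisOfPid (Pi.basisFun ℤ (Fin 6)) (LinearMap.ker (aeval (endo g) Q))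
  have hr := rank_ker hm0 (by positivity) hQ hy hx b
  rw [t8] at hr
  have h2 := aeval_root hg hm0 (by rw [t8]; norm_num) hwn hQ hℓ hℓW hE hx hx1 ha h1
  have h3 := dvd_card_compl (cs := cs) hg (by omega) hwn hQ
  have e : {r : Fin chevE6.nroots // aeval (endo g) Q (vec chevE6 6 r) ≠ 0} ≃
      {b : Fin 6 → ℤ // IsRoot cs e6T.isCartan b ∧ aeval (endo g) Q b ≠ 0} := by
    refine Equiv.ofBijective (fun r => ⟨vec chevE6 6 r.1, isRoot_vec e6T cs r.1.2, r.2⟩) ⟨?_, ?_⟩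
    · intro r s hrs
      have h1 : vec chevE6 6 r.1 = vec chevE6 6 s.1 := congrArg Subtype.val hrs
      exact Subtype.ext (Fin.ext (vec_inj e6T r.1.2 s.1.2 h1))
    · rintro ⟨b, hb, h0⟩
      obtain ⟨r, hr, rfl⟩ := (isRoot_iff e6T cs b).1 hb
      exact ⟨⟨⟨r, hr⟩, h0⟩, rfl⟩
  rw [← Nat.card_congr e, Nat.card_eq_fintype_card, Fintype.card_subtype] at h3
  have h4 := card_le_six (by omega) b (Finset.univ.filter fun r => aeval (endo g) Q (vec chevE6 6 r) = 0)
    fun r hr => LinearMap.mem_ker.2 (Finset.mem_filter.1 hr).2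
  have h5 : 0 < (Finset.univ.filter fun r : Fin chevE6.nroots => aeval (endo g) Q (vec chevE6 6 r) = 0).card := by
    obtain ⟨r, hr, rfl⟩ := (isRoot_iff e6T cs a).1 ha
    exact Finset.card_pos.2 ⟨⟨r, hr⟩, Finset.mem_filter.2 ⟨Finset.mem_univ _, h2⟩⟩
  have h6 := Finset.card_filter_add_card_filter_not (s := (Finset.univ : Finset (Fin chevE6.nroots)))
    (fun r => aeval (endo g) Q (vec chevE6 6 r) = 0)
  rw [Finset.card_univ, Fintype.card_fin, nroots_E6] at h6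
  obtain ⟨d, hd⟩ := h3
  have h7 : (Finset.univ.filter fun r : Fin chevE6.nroots => ¬ aeval (endo g) Q (vec chevE6 6 r) = 0).card = m * d := by
    rw [← hd]
  have h8 : (Finset.univ.filter fun r : Fin chevE6.nroots => aeval (endo g) Q (vec chevE6 6 r) = 0).card + m * d = 72 := by
    rw [← h6, ← hd]
    congr!
  rcases hm with rfl | rfl <;> omega

end E6

/-- `φ(m) = l` -/
theorem root_phi {l : ℕ} {M : CoxeterMatrix (Fin l)} {A : Fin l → Fin l → ℤ} {h : IsCartan M A} {W : Type*} [Group W]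
    [Finite W] (cs : CoxeterSystem M W) {g : (Fin l → ℤ) ≃+ (Fin l → ℤ)} (hg : ∀ a, IsRoot cs h (g a) ↔ IsRoot cs h a)
    {k : Type u} [Field k] {ℓ m : ℕ} (hℓ : ℓ.Prime) (hm : 0 < m) (hl : m.totient = l) (hlℓ : l + 1 < ℓ) (hmℓ : m < ℓ)
    {q : ℕ} (hq : (ℓ : ℤ) ∣ (cyclotomic m ℤ).eval ((q : ℕ) : ℤ)) {χ : Ch l k} (hE : EigG k q ℓ g χ)
    {a : Fin l → ℤ} (ha : IsRoot cs h a) : χ (Multiplicative.ofAdd a) ≠ 1 := by
  have hℓW : ¬ ℓ ∣ Nat.card W := fun h' => by
    have := le_of_dvd_card cs h hℓ h'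
    omega
  obtain ⟨N, hN, hwN⟩ := exists_pow_one (cs := cs) (h := h) hg
  obtain ⟨n, hn, hwn, hℓn⟩ := order_coprime hN hwN hℓ hlℓ
  have hcyc := aeval_eq_zero_of_char hm hl hn hwn hℓ hℓn
    (fun h => by have := Nat.le_of_dvd hm h; omega) hq hE.1 hE.2.1 hE.2.2
  exact ne_one_of_root' hg hm hl hcyc hℓ hℓW hE ha

/-! ### groups -/

section Gen

variable {D : ChevalleyDatum} {l : ℕ} {M : CoxeterMatrix (Fin l)} (hp : IsType D l M) {k : Type u} [Field k]
  {W : Type*} [Group W] (cs : CoxeterSystem M W) [IsAlgClosed k] (hk : LocFin k) {p e : ℕ} [Fact p.Prime] [CharP k p]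
  {σ : MulAut ↥(D.group k)} {g : (Fin l → ℤ) ≃+ (Fin l → ℤ)}
  {G0 : Type*} [Group G0] [Finite G0] {e0 : G0 →* ↥(D.group k)}

include hp cs hk in
/-- **No element of order `ℓ p`** if no root is trivial. -/
theorem noEdge_gen [Finite W] (hka : BpExc.TorAll.HAlg p k) (he : 0 < e) (hσ : IsFrob p e σ)
    (F : Fr cs hp.isCartan (TT D k) (XX D l k) σ g) (he0 : Function.Injective e0) (hfix : ∀ a, σ (e0 a) = e0 a)
    {ℓ : ℕ} (hℓ : ℓ.Prime) (hℓp : ℓ ≠ p) (hℓW : ¬ ℓ ∣ Nat.card W)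
    (hroot : ∀ (g' : (Fin l → ℤ) ≃+ (Fin l → ℤ)) (χ : Ch l k),
      (∀ a, IsRoot cs hp.isCartan (g' a) ↔ IsRoot cs hp.isCartan a) → EigG k (p ^ e) ℓ g' χ →
      ∀ a, IsRoot cs hp.isCartan a → χ (Multiplicative.ofAdd a) ≠ 1) : NoEdge G0 ℓ p := by
  have hpp : p.Prime := Fact.out
  intro y hy
  have hx : orderOf (y ^ p) = ℓ := by
    rw [orderOf_pow' _ hpp.ne_zero, hy, Nat.gcd_eq_right (dvd_mul_left p ℓ), Nat.mul_div_cancel _ hpp.pos]
  have hyp : orderOf (y ^ ℓ) = p := by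
    rw [orderOf_pow' _ hℓ.ne_zero, hy, Nat.gcd_eq_right (dvd_mul_right ℓ p), Nat.mul_div_cancel_left _ hℓ.pos]
  have hxℓ : (y ^ p) ^ ℓ = 1 := by
    have := pow_orderOf_eq_one (y ^ p)
    rwa [hx] at this
  have hx1 : y ^ p ≠ 1 := fun h0 => by
    rw [h0, orderOf_one] at hx
    exact hℓ.one_lt.ne hx
  obtain ⟨g', χ, hg', hE, -, h2⟩ := pair_core hp cs hk hka he hσ F (hfix (y ^ p)) hℓ hℓp
    (by rw [← map_pow, hxℓ, map_one]) (fun h => hx1 (he0 (h.trans (map_one _).symm))) hℓW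
  obtain ⟨φ, hφ⟩ := h2 (hroot g' χ hg' hE)
  have hu : e0 (y ^ ℓ) ∈ fixC σ (e0 (y ^ p)) := by
    refine mem_fixC.2 ⟨hfix _, ?_⟩
    rw [← map_mul, ← map_mul, (((Commute.refl y).pow_left ℓ).pow_right p).eq]
  have h3 : (⟨e0 (y ^ ℓ), hu⟩ : ↥(fixC σ (e0 (y ^ p)))) ^ p = 1 := by
    apply Subtype.ext
    show (e0 (y ^ ℓ)) ^ p = 1
    rw [← map_pow]
    have := pow_orderOf_eq_one (y ^ ℓ)
    rw [hyp] at this
    rw [this, map_one]
  have h4 : φ ⟨e0 (y ^ ℓ), hu⟩ = 1 := by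
    have h5 : φ ⟨e0 (y ^ ℓ), hu⟩ ^ p = 1 := by rw [← map_pow, h3, map_one]
    apply Subtype.ext
    refine MonoidHom.ext fun x => Units.ext ?_
    have h6 := congrArg (fun χ => ((χ.1 x : kˣ) : k)) h5
    have h7 : (((φ ⟨e0 (y ^ ℓ), hu⟩).1 x : kˣ) : k) ^ p = 1 := h6
    exact frobenius_inj k p (h7.trans (one_pow p).symm)
  have h5 : (⟨e0 (y ^ ℓ), hu⟩ : ↥(fixC σ (e0 (y ^ p)))) = 1 := hφ (h4.trans (map_one φ).symm)
  have h6 : e0 (y ^ ℓ) = 1 := congrArg Subtype.val h5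
  have h7 : y ^ ℓ = 1 := he0 (h6.trans (map_one e0).symm)
  rw [h7, orderOf_one] at hyp
  exact hpp.one_lt.ne hyp

end Gen

end Cfsg.Agent.H365.ExcEight
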