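import Cfsg.Agent.H365.NumLU

/-!
# S3677, the numerics for `PSL_n(q)` (helper365)
-/

set_option autoImplicit false

namespace Cfsg.Agent.H365.NumL

open Finset Cfsg.Agent.H902.Lte Cfsg.Agent.H902.Art Cfsg.Agent.H365.NumLU Cfsg.Agent.H365.PPart

theorem pt_eq_P (r a : ℕ) : pt r a = P r a := rfl

theorem exp_L {n : ℕ} (hn : 4 ≤ n) :
    (∑ i ∈ range (n - 1), (i + 2)) + n * (n - 1) / 2 = (n - 1) ^ 2 + 1 + (2 * n - 3) := by
  have h1 := two_sum (n - 1)
  have h2 := two_mul_half n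
  obtain ⟨m, rfl⟩ := Nat.exists_eq_add_of_le' hn
  have h3 : m + 4 - 1 = m + 3 := by omega
  have h4 : 2 * (m + 4) - 3 = 2 * m + 5 := by omega
  rw [h3] at h1 h2 ⊢
  rw [h4]
  have h5 : 2 * ((∑ i ∈ range (m + 3), (i + 2)) + (m + 4) * (m + 3) / 2) = 2 * ((m + 3) ^ 2 + 1 + (2 * m + 5)) := by
    rw [mul_add, h1, mul_comm 2 ((m + 4) * (m + 3) / 2), h2]; ring
  omega

/-- `t = 2`: the numerical core -/
theorem core_two {q u v k : ℕ} (hq : 3 ≤ q) (huv : (u = 2 ∧ v ≤ q + 1 ∧ q % 4 = 3) ∨ (v = 2 ∧ u ≤ q - 1 ∧ q % 4 = 1))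
    (hk : 1 ≤ k) (hq3 : q = 3 → 2 ≤ k) :
    6 * ((q - 1) * v) * (2 * (u ^ 2 * v)) ^ k ≤ 5 * q * (q ^ 4) ^ k := by
  rcases huv with ⟨rfl, hv, hm⟩ | ⟨rfl, hu, hm⟩
  · rcases Nat.lt_or_ge q 7 with hq7 | hq7
    · have h3 : q = 3 := by omega
      subst h3
      have hk2 := hq3 rfl
      obtain ⟨j, rfl⟩ := Nat.exists_eq_add_of_le' hk2
      have h1 : 2 * (2 ^ 2 * v) ≤ 32 := by omega
      calc 6 * ((3 - 1) * v) * (2 * (2 ^ 2 * v)) ^ (j + 2) ≤ 48 * 32 ^ (j + 2) :=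
            Nat.mul_le_mul (by omega) (Nat.pow_le_pow_left h1 _)
        _ = 49152 * 32 ^ j := by ring
        _ ≤ 98415 * 81 ^ j := Nat.mul_le_mul (by norm_num) (Nat.pow_le_pow_left (by norm_num) _)
        _ = 5 * 3 * (3 ^ 4) ^ (j + 2) := by ring
    · obtain ⟨j, rfl⟩ := Nat.exists_eq_add_of_le' hk
      have h1 : 2 * (2 ^ 2 * v) ≤ 8 * (q + 1) := by omega
      have h2 : 8 * (q + 1) ≤ q ^ 4 := by
        have : q ^ 4 = q * (q * (q * q)) := by ring
        rw [this]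
        nlinarith [Nat.mul_le_mul hq7 hq7, Nat.mul_le_mul hq7 (Nat.mul_le_mul hq7 hq7)]
      have h3 : 6 * ((q - 1) * v) * (2 * (2 ^ 2 * v)) ≤ 5 * q * q ^ 4 := by
        calc 6 * ((q - 1) * v) * (2 * (2 ^ 2 * v)) ≤ 6 * (q * (q + 1)) * (8 * (q + 1)) :=
              Nat.mul_le_mul (Nat.mul_le_mul_left _ (Nat.mul_le_mul (by omega) hv)) h1
          _ = q * (48 * (q + 1) ^ 2) := by ring
          _ ≤ q * (5 * q ^ 4) := by
              apply Nat.mul_le_mul_left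
              have h4 : 7 * (q + 1) ≤ 8 * q := by omega
              have h5 : 49 * (q + 1) ^ 2 ≤ 64 * q ^ 2 := by nlinarith
              have h6 : 49 * q ^ 2 ≤ q ^ 4 := by
                have : q ^ 4 = q ^ 2 * q ^ 2 := by ring
                rw [this]
                exact Nat.mul_le_mul_right _ (by nlinarith)
              omega
          _ = _ := by ring
      calc 6 * ((q - 1) * v) * (2 * (2 ^ 2 * v)) ^ (j + 1) = (6 * ((q - 1) * v) * (2 * (2 ^ 2 * v))) * (2 * (2 ^ 2 * v)) ^ j := by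
            rw [pow_succ]; ring
        _ ≤ (5 * q * q ^ 4) * (q ^ 4) ^ j := Nat.mul_le_mul h3 (Nat.pow_le_pow_left (h1.trans h2) _)
        _ = _ := by rw [pow_succ (q ^ 4) j]; ring
  · obtain ⟨j, rfl⟩ := Nat.exists_eq_add_of_le' hk
    have hq5 : 5 ≤ q := by omega
    have h1 : 2 * (u ^ 2 * 2) ≤ 4 * q ^ 2 := by
      have : u ^ 2 ≤ q ^ 2 := Nat.pow_le_pow_left (by omega) 2
      omega
    have h2 : 4 * q ^ 2 ≤ q ^ 4 := by
      have : q ^ 4 = q ^ 2 * q ^ 2 := by ring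
      rw [this]
      exact Nat.mul_le_mul_right _ (by nlinarith)
    have h3 : 6 * ((q - 1) * 2) * (2 * (u ^ 2 * 2)) ≤ 5 * q * q ^ 4 := by
      calc 6 * ((q - 1) * 2) * (2 * (u ^ 2 * 2)) ≤ 6 * (q * 2) * (4 * q ^ 2) :=
            Nat.mul_le_mul (Nat.mul_le_mul_left _ (Nat.mul_le_mul_right _ (by omega))) h1
        _ = q * (48 * q ^ 2) := by ring
        _ ≤ q * (5 * q ^ 4) := by
            apply Nat.mul_le_mul_left
            have h6 : 25 * q ^ 2 ≤ q ^ 4 := by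
              have : q ^ 4 = q ^ 2 * q ^ 2 := by ring
              rw [this]
              exact Nat.mul_le_mul_right _ (by nlinarith)
            omega
        _ = _ := by ring
    calc 6 * ((q - 1) * 2) * (2 * (u ^ 2 * 2)) ^ (j + 1) = (6 * ((q - 1) * 2) * (2 * (u ^ 2 * 2))) * (2 * (u ^ 2 * 2)) ^ j := by
          rw [pow_succ]; ring
      _ ≤ (5 * q * q ^ 4) * (q ^ 4) ^ j := Nat.mul_le_mul h3 (Nat.pow_le_pow_left (h1.trans h2) _)
      _ = _ := by rw [pow_succ (q ^ 4) j]; ring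

/-- same, with one more factor `u` -/
theorem core_two' {q u v k : ℕ} (hq : 3 ≤ q) (huv : (u = 2 ∧ v ≤ q + 1 ∧ q % 4 = 3) ∨ (v = 2 ∧ u ≤ q - 1 ∧ q % 4 = 1))
    (hk : 1 ≤ k) : 6 * ((q - 1) * v) * (2 * (u ^ 2 * v)) ^ k * u ≤ 5 * q * (q ^ 4) ^ k * q ^ 2 := by
  by_cases h : q = 3 ∧ k = 1
  · obtain ⟨rfl, rfl⟩ := h
    rcases huv with ⟨rfl, hv, hm⟩ | ⟨rfl, hu, hm⟩
    · simp only [pow_one]
      have : v * v ≤ 4 * 4 := Nat.mul_le_mul (by omega) (by omega)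
      nlinarith
    · omega
  · have h1 := core_two hq huv hk (by rintro rfl; by_contra h2; exact h ⟨rfl, by omega⟩)
    refine Nat.mul_le_mul h1 ?_
    have : q ≤ q ^ 2 := Nat.le_self_pow (by norm_num) q
    rcases huv with ⟨rfl, hv, hm⟩ | ⟨rfl, hu, hm⟩ <;> omega

theorem uv_cases {q : ℕ} (hq : 3 ≤ q) (hodd : Odd q) :
    (P 2 (q - 1) = 2 ∧ P 2 (q + 1) ≤ q + 1 ∧ q % 4 = 3) ∨ (P 2 (q + 1) = 2 ∧ P 2 (q - 1) ≤ q - 1 ∧ q % 4 = 1) := by
  rcases two_cases (show 2 ≤ q by omega) hodd with ⟨h, h1⟩ | ⟨h, h1⟩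
  · exact Or.inl ⟨h, P_le (by omega), h1⟩
  · exact Or.inr ⟨h, P_le (by omega), h1⟩

theorem P_sq {q : ℕ} (hq : 3 ≤ q) : P 2 (q ^ 2 - 1) = P 2 (q - 1) * P 2 (q + 1) := pt_two_sq (by omega)

/-- `t = 2` -/
theorem L_two {q n N d : ℕ} (hq : 3 ≤ q) (hn : 4 ≤ n) (hodd : Odd q) (h43 : ¬ (n = 4 ∧ q = 3)) (hd : d ∣ q - 1)
    (hN : N * ((q : ℤ) - 1).natAbs = (W (q : ℤ) n).natAbs) :
    6 * d * P 2 N ≤ 5 * q ^ (2 * n - 3) * P 2 d := by
  have hx1 : ((q : ℤ) - 1).natAbs = q - 1 := by omega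
  have h1 := PLU_two hq hodd (by omega) (Or.inl rfl) hN
  rw [hx1, P_sq hq] at h1
  have huv := uv_cases hq hodd
  have hdp := dpart (t := 2) (show q - 1 ≠ 0 by omega) hd
  set u := P 2 (q - 1)
  set v := P 2 (q + 1)
  rcases Nat.even_or_odd' n with ⟨h, hh | hh⟩
  · have e1 : (n + 1) / 2 - 1 = h - 1 := by omega
    have e2 : n / 2 + 1 - (n + 1) / 2 = 1 := by omega
    have e3 : n / 2 = h := by omega
    rw [e1, e2, e3, pow_one] at h1
    have hf := pow_val_factorial_two_le (a := h) (by omega)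
    obtain ⟨k, rfl⟩ : ∃ k, h = k + 1 := ⟨h - 1, by omega⟩
    rw [Nat.add_sub_cancel] at h1 hf
    have hc := core_two (k := k) hq huv (by omega) (by rintro rfl; by_contra h2; exact h43 ⟨by omega, rfl⟩)
    calc 6 * d * P 2 N ≤ 6 * d * ((u * (u * v)) ^ k * (u * v) * 2 ^ k) := by
          rw [h1]
          exact Nat.mul_le_mul_left _ (Nat.mul_le_mul_left _ hf)
      _ = 6 * ((d * u) * v) * (2 * (u ^ 2 * v)) ^ k := by
          rw [show 2 * (u ^ 2 * v) = (u * (u * v)) * 2 by ring, mul_pow (u * (u * v)) 2]; ring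
      _ ≤ 6 * (((q - 1) * P 2 d) * v) * (2 * (u ^ 2 * v)) ^ k :=
          Nat.mul_le_mul_right _ (Nat.mul_le_mul_left _ (Nat.mul_le_mul_right _ hdp))
      _ = (6 * ((q - 1) * v) * (2 * (u ^ 2 * v)) ^ k) * P 2 d := by ring
      _ ≤ (5 * q * (q ^ 4) ^ k) * P 2 d := Nat.mul_le_mul_right _ hc
      _ = 5 * q ^ (2 * n - 3) * P 2 d := by
          rw [show 2 * n - 3 = 1 + 4 * k by omega, pow_add, pow_one, pow_mul]; ring
  · have e1 : (n + 1) / 2 - 1 = h := by omega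
    have e2 : n / 2 + 1 - (n + 1) / 2 = 0 := by omega
    have e3 : n / 2 = h := by omega
    rw [e1, e2, e3, pow_zero, mul_one] at h1
    have hf := pow_val_factorial_two_le (a := h) (by omega)
    obtain ⟨k, rfl⟩ : ∃ k, h = k + 1 := ⟨h - 1, by omega⟩
    rw [Nat.add_sub_cancel] at hf
    have hc := core_two' (k := k) hq huv (by omega)
    calc 6 * d * P 2 N ≤ 6 * d * ((u * (u * v)) ^ (k + 1) * 2 ^ k) := by
          rw [h1]
          exact Nat.mul_le_mul_left _ (Nat.mul_le_mul_left _ hf)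
      _ = 6 * ((d * u) * v) * (2 * (u ^ 2 * v)) ^ k * u := by
          rw [show 2 * (u ^ 2 * v) = (u * (u * v)) * 2 by ring, mul_pow (u * (u * v)) 2]; ring
      _ ≤ 6 * (((q - 1) * P 2 d) * v) * (2 * (u ^ 2 * v)) ^ k * u :=
          Nat.mul_le_mul_right _ (Nat.mul_le_mul_right _ (Nat.mul_le_mul_left _ (Nat.mul_le_mul_right _ hdp)))
      _ = (6 * ((q - 1) * v) * (2 * (u ^ 2 * v)) ^ k * u) * P 2 d := by ring
      _ ≤ (5 * q * (q ^ 4) ^ k * q ^ 2) * P 2 d := Nat.mul_le_mul_right _ hc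
      _ = 5 * q ^ (2 * n - 3) * P 2 d := by
          rw [show 2 * n - 3 = 1 + 4 * k + 2 by omega, pow_add, pow_add, pow_one, pow_mul]; ring

/-- `t` odd, `q ≥ 3` -/
theorem L_odd {t q n N d : ℕ} (ht : t.Prime) (ht2 : t ≠ 2) (hq : 3 ≤ q) (hn : 4 ≤ n) (htq : ¬ t ∣ q) (hd : d ∣ q - 1)
    (hN : N * ((q : ℤ) - 1).natAbs = (W (q : ℤ) n).natAbs) :
    6 * d * P t N ≤ 5 * q ^ (2 * n - 3) * P t d := by
  have hx1 : ((q : ℤ) - 1).natAbs = q - 1 := by omega
  have hdq : d ≤ q - 1 := Nat.le_of_dvd (by omega) hd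
  have hPd : 1 ≤ P t d := P_pos ht
  rcases cases_odd ht ht2 (by omega) htq (by omega) (Or.inl rfl) hN with ⟨h, h1, h2⟩ | ⟨h, e, a, G, f, he, hae, h1, h2, h3⟩
  · rw [hx1] at h h1
    have hdp := dpart (t := t) (show q - 1 ≠ 0 by omega) hd
    have hq4 : 4 ≤ q := by
      have := Nat.le_of_dvd (by omega) h
      have := ht.two_le
      omega
    have hu : P t (q - 1) ≤ q - 1 := P_le (by omega)
    have hf := le_two_pow h2
    rw [h1]
    set u := P t (q - 1)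
    set f := t ^ padicValNat t n.factorial
    obtain ⟨m, rfl⟩ : ∃ m, n = m + 2 := ⟨n - 2, by omega⟩
    have e1 : m + 2 - 1 = m + 1 := by omega
    have e2 : 2 * (m + 2) - 3 = m + (m + 1) := by omega
    rw [e1] at hf ⊢
    rw [e2]
    calc 6 * d * (u ^ (m + 1) * f) = 6 * (d * u) * (u ^ m * f) := by ring
      _ ≤ 6 * ((q - 1) * P t d) * (q ^ m * 2 ^ (m + 1)) :=
          Nat.mul_le_mul (Nat.mul_le_mul_left _ hdp)
            (Nat.mul_le_mul (Nat.pow_le_pow_left (by omega) _) hf)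
      _ ≤ 6 * (q * P t d) * (q ^ m * 2 ^ (m + 1)) :=
          Nat.mul_le_mul_right _ (Nat.mul_le_mul_left _ (Nat.mul_le_mul_right _ (by omega)))
      _ = (q ^ (m + 1) * P t d) * (12 * 2 ^ m) := by ring
      _ ≤ (q ^ (m + 1) * P t d) * (5 * q ^ m) := by
          apply Nat.mul_le_mul_left
          obtain ⟨j, rfl⟩ : ∃ j, m = j + 2 := ⟨m - 2, by omega⟩
          calc 12 * 2 ^ (j + 2) = 48 * 2 ^ j := by ring
            _ ≤ 80 * 4 ^ j := Nat.mul_le_mul (by norm_num) (Nat.pow_le_pow_left (by norm_num) _)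
            _ = 5 * 4 ^ (j + 2) := by ring
            _ ≤ 5 * q ^ (j + 2) := Nat.mul_le_mul_left _ (Nat.pow_le_pow_left hq4 _)
      _ = _ := by rw [pow_add]; ring
  · rw [hx1] at h h3
    have h4 : ((q : ℤ) ^ e - 1).natAbs = q ^ e - 1 := by
      have h8 : (q : ℤ) ^ e - 1 = ((q ^ e - 1 : ℕ) : ℤ) := by
        rw [Nat.cast_sub (Nat.one_le_pow _ _ (by omega))]; push_cast; rfl
      rw [h8, Int.natAbs_natCast]
    rw [h4] at h3
    have h5 : (q - 1) * P t N ≤ q ^ n * 1 := by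
      rw [mul_one, h1]
      rcases Nat.eq_zero_or_pos a with rfl | ha
      · have hf : f ≤ 1 := by
          have h6 : f ^ 2 ≤ 1 ^ 2 := by simpa using h2
          exact le_of_sq_le h6
        rw [pow_zero, one_mul]
        calc (q - 1) * f ≤ (q - 1) * 1 := Nat.mul_le_mul_left _ hf
          _ ≤ q ^ 1 := by rw [mul_one, pow_one]; omega
          _ ≤ q ^ n := Nat.pow_le_pow_right (by omega) (by omega)
      · have hf : f ≤ (q - 1) ^ (a - 1) := by
          apply le_of_sq_le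
          refine h2.trans ?_
          rw [← pow_mul, mul_comm, pow_mul]
          apply Nat.pow_le_pow_left
          have : 2 ^ 2 ≤ (q - 1) ^ 2 := Nat.pow_le_pow_left (by omega) 2
          omega
        obtain ⟨b, rfl⟩ : ∃ b, a = b + 1 := ⟨a - 1, by omega⟩
        rw [Nat.add_sub_cancel] at hf
        calc (q - 1) * (G ^ (b + 1) * f) ≤ (q - 1) * (G ^ (b + 1) * (q - 1) ^ b) :=
              Nat.mul_le_mul_left _ (Nat.mul_le_mul_left _ hf)
          _ = (G * (q - 1)) ^ (b + 1) := by rw [mul_pow]; ring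
          _ ≤ (q ^ e) ^ (b + 1) := Nat.pow_le_pow_left (by omega) _
          _ = q ^ ((b + 1) * e) := by rw [← pow_mul, mul_comm]
          _ ≤ q ^ n := Nat.pow_le_pow_right (by omega) hae
    calc 6 * d * P t N ≤ 6 * ((q - 1) * P t N) := by
          rw [mul_assoc]; exact Nat.mul_le_mul_left _ (Nat.mul_le_mul_right _ hdq)
      _ ≤ 6 * (q ^ n * 1) := Nat.mul_le_mul_left _ h5
      _ ≤ 5 * (q ^ n * q) := by nlinarith [Nat.one_le_pow n q (by omega)]
      _ = 5 * q ^ (n + 1) * 1 := by ring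
      _ ≤ 5 * q ^ (2 * n - 3) * P t d :=
          Nat.mul_le_mul (Nat.mul_le_mul_left _ (Nat.pow_le_pow_right (by omega) (by omega))) hPd

/-- `q = 2` -/
theorem L_base {t n N : ℕ} (ht : t.Prime) (ht2 : t ≠ 2) (hn : 4 ≤ n)
    (hN : N * (((2 : ℕ) : ℤ) - 1).natAbs = (W ((2 : ℕ) : ℤ) n).natAbs) :
    2 * P t N ≤ 2 ^ (2 * n - 3) := by
  have htq : ¬ t ∣ 2 := fun h => ht2 ((Nat.prime_dvd_prime_iff_eq ht Nat.prime_two).1 h)
  have hx1 : (((2 : ℕ) : ℤ) - 1).natAbs = 1 := by norm_num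
  rcases cases_odd ht ht2 (le_refl 2) htq (by omega) (Or.inl rfl) hN with ⟨h, h1, h2⟩ | ⟨h, e, a, G, f, he, hae, h1, h2, h3⟩
  · rw [hx1] at h
    exact absurd (Nat.dvd_one.1 h) ht.one_lt.ne'
  · rw [hx1, mul_one] at h3
    have h4 : (((2 : ℕ) : ℤ) ^ e - 1).natAbs = 2 ^ e - 1 := by
      have h8 : ((2 : ℕ) : ℤ) ^ e - 1 = ((2 ^ e - 1 : ℕ) : ℤ) := by
        rw [Nat.cast_sub (Nat.one_le_pow _ _ (by omega))]; push_cast; rfl
      rw [h8, Int.natAbs_natCast]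
    rw [h4] at h3
    have e1 : 2 ^ (2 * n - 3) = 2 * 2 ^ (2 * n - 4) := by
      rw [← pow_succ']; congr 1; omega
    rw [e1]
    apply Nat.mul_le_mul_left
    apply le_of_sq_le
    rw [h1, mul_pow]
    rcases Nat.lt_or_ge a 2 with ha | ha
    · -- `a ≤ 1`
      have hf : f ^ 2 ≤ 1 := by
        have : a - 1 = 0 := by omega
        rwa [this, pow_zero] at h2
      have hG : G ^ a ≤ 2 ^ n := by
        calc G ^ a ≤ (2 ^ e) ^ a := Nat.pow_le_pow_left (by omega) _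
          _ = 2 ^ (a * e) := by rw [← pow_mul, mul_comm]
          _ ≤ 2 ^ n := Nat.pow_le_pow_right (by norm_num) hae
      calc (G ^ a) ^ 2 * f ^ 2 ≤ (2 ^ n) ^ 2 * 1 := Nat.mul_le_mul (Nat.pow_le_pow_left hG _) hf
        _ ≤ (2 ^ (2 * n - 4)) ^ 2 := by
          rw [mul_one]
          exact Nat.pow_le_pow_left (Nat.pow_le_pow_right (by norm_num) (by omega)) _
    · obtain ⟨b, rfl⟩ := Nat.exists_eq_add_of_le' ha
      have e2 : b + 2 - 1 = b + 1 := by omega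
      rw [e2] at h2
      rcases Nat.lt_or_ge e 3 with he3 | he3
      · have : e = 2 := by omega
        subst this
        have hG : G ≤ 3 := by omega
        calc (G ^ (b + 2)) ^ 2 * f ^ 2 ≤ (3 ^ (b + 2)) ^ 2 * 3 ^ (b + 1) :=
              Nat.mul_le_mul (Nat.pow_le_pow_left (Nat.pow_le_pow_left hG _) _) h2
          _ = 243 * 27 ^ b := by
              rw [show (27 : ℕ) = 3 ^ 3 by norm_num, ← pow_mul, ← pow_mul, ← pow_add, show (243 : ℕ) = 3 ^ 5 by norm_num,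
                ← pow_add]
              congr 1; ring
          _ ≤ 256 * 256 ^ b := Nat.mul_le_mul (by norm_num) (Nat.pow_le_pow_left (by norm_num) _)
          _ = 2 ^ (8 + 8 * b) := by rw [pow_add, pow_mul]; norm_num
          _ ≤ (2 ^ (2 * n - 4)) ^ 2 := by
              rw [← pow_mul]
              exact Nat.pow_le_pow_right (by norm_num) (by omega)
      · calc (G ^ (b + 2)) ^ 2 * f ^ 2 ≤ ((2 ^ e) ^ (b + 2)) ^ 2 * 4 ^ (b + 1) :=
              Nat.mul_le_mul (Nat.pow_le_pow_left (Nat.pow_le_pow_left (by omega) _) _)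
                (h2.trans (Nat.pow_le_pow_left (by norm_num) _))
          _ = 2 ^ (2 * ((b + 2) * e) + 2 * (b + 1)) := by
              rw [show (4 : ℕ) = 2 ^ 2 by norm_num, ← pow_mul, ← pow_mul, ← pow_mul, ← pow_add]
              congr 1; ring
          _ ≤ (2 ^ (2 * n - 4)) ^ 2 := by
              rw [← pow_mul]
              apply Nat.pow_le_pow_right (by norm_num)
              have h6 : (b + 2) * 3 ≤ (b + 2) * e := Nat.mul_le_mul_left _ he3
              omega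

/-- NUM-L -/
theorem num_psl {q n t M : ℕ} (hq : 2 ≤ q) (hn : 4 ≤ n) (ht : t.Prime) (htq : ¬ t ∣ q) (h43 : ¬ (n = 4 ∧ q = 3))
    (hM : Nat.gcd n (q - 1) * M = q ^ (n * (n - 1) / 2) * ∏ i ∈ Finset.range (n - 1), (q ^ (i + 2) - 1)) :
    t ^ M.factorization t * q ^ ((n - 1) ^ 2 + 1) ≤ M := by
  have hN0 : ∏ i ∈ range (n - 1), (q ^ (i + 2) - 1) ≠ 0 :=
    Finset.prod_ne_zero_iff.2 fun i _ => sub_one_ne hq (by omega)
  have hNW : (∏ i ∈ range (n - 1), (q ^ (i + 2) - 1)) * ((q : ℤ) - 1).natAbs = (W (q : ℤ) n).natAbs := by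
    have h := num_L hq (show 1 ≤ n by omega)
    rw [← h]
    congr 1
    omega
  have hd0 : Nat.gcd n (q - 1) ≠ 0 := (Nat.gcd_pos_of_pos_left _ (by omega)).ne'
  rcases Nat.lt_or_ge q 3 with hq3 | hq3
  · have h2 : q = 2 := by omega
    subst h2
    have ht2 : t ≠ 2 := by rintro rfl; exact htq dvd_rfl
    refine red (A := 2) (B := 1) (le_refl 2) ht htq hd0 hN0 (by norm_num) hM (exp_L hn) ?_ ?_
    · have := low (le_refl 2) (n - 1)
      simpa using this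
    · have h1 := L_base ht ht2 hn hNW
      have h3 : Nat.gcd n (2 - 1) = 1 := Nat.gcd_one_right n
      have h4 : P t 1 = 1 := P_eq_one (fun h => ht.one_lt.ne' (Nat.dvd_one.1 h))
      rw [h3, h4]
      simpa using h1
  · refine red (A := 6) (B := 5) hq ht htq hd0 hN0 (by norm_num) hM (exp_L hn) (low3 hq3 (n - 1)) ?_
    by_cases ht2 : t = 2
    · subst ht2
      have hodd : Odd q := Nat.not_even_iff_odd.1 fun h => htq h.two_dvd
      exact L_two hq3 hn hodd h43 (Nat.gcd_dvd_right _ _) hNW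
    · exact L_odd ht ht2 hq3 hn htq (Nat.gcd_dvd_right _ _) hNW

end Cfsg.Agent.H365.NumL
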