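import Cfsg.Agent.H902.DomLU
import Cfsg.Agent.H365.PPart

/-!
# The `t`-part of `|PSL_n(q)|`, `|PSU_n(q)|`: arithmetic for S3677 (helper365)
-/

set_option autoImplicit false

namespace Cfsg.Agent.H365.NumLU

open Finset Cfsg.Agent.H902.Lte Cfsg.Agent.H902.Art

/-- `∏ (1 - q^{-i}) ≥ 1 - 1 / (q (q - 1))` -/
theorem low {q : ℕ} (hq : 2 ≤ q) (m : ℕ) :
    (q * (q - 1) - 1) * q ^ (∑ i ∈ range m, (i + 2)) ≤ q * (q - 1) * ∏ i ∈ range m, (q ^ (i + 2) - 1) := by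
  have hq1 : ((q - 1 : ℕ) : ℤ) = (q : ℤ) - 1 := by rw [Nat.cast_sub (by omega)]; simp
  have hc : ((q * (q - 1) - 1 : ℕ) : ℤ) = (q : ℤ) * (q - 1) - 1 := by
    have : 1 ≤ q * (q - 1) := Nat.mul_pos (by omega) (by omega)
    rw [Nat.cast_sub this, Nat.cast_mul, hq1]; simp
  have key : ∀ m : ℕ, (((q * (q - 1) - 1 : ℕ) : ℤ) * (q : ℤ) ^ m + 1) * (q : ℤ) ^ (∑ i ∈ range m, (i + 2)) ≤
      (q : ℤ) * (q - 1) * ((q : ℤ) ^ m * ((∏ i ∈ range m, (q ^ (i + 2) - 1) : ℕ) : ℤ)) := by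
    intro m
    induction m with
    | zero => simp [hc]
    | succ m ih =>
      rw [sum_range_succ, prod_range_succ]
      have h1 : ((q ^ (m + 2) - 1 : ℕ) : ℤ) = (q : ℤ) ^ (m + 2) - 1 := by
        rw [Nat.cast_sub (Nat.one_le_pow _ _ (by omega))]; simp
      rw [Nat.cast_mul, h1]
      rw [hc] at ih ⊢
      set E := ∑ i ∈ range m, (i + 2)
      set p : ℤ := ((∏ i ∈ range m, (q ^ (i + 2) - 1) : ℕ) : ℤ)
      have hqz : (2 : ℤ) ≤ q := by exact_mod_cast hq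
      have hQ : (1 : ℤ) ≤ (q : ℤ) ^ m := one_le_pow₀ (by linarith)
      have hQ2 : (1 : ℤ) ≤ (q : ℤ) ^ (m + 2) := one_le_pow₀ (by linarith)
      have hE : (0 : ℤ) ≤ (q : ℤ) ^ E := by positivity
      have h2 : ((q : ℤ) * (q - 1) - 1) * (q : ℤ) ^ (m + 1) * (q : ℤ) ^ (m + 2) + (q : ℤ) ^ (m + 2) ≤
          (q : ℤ) * ((q : ℤ) ^ (m + 2) - 1) * (((q : ℤ) * (q - 1) - 1) * (q : ℤ) ^ m + 1) := by
        have h3 : (q : ℤ) * ((q : ℤ) ^ (m + 2) - 1) * (((q : ℤ) * (q - 1) - 1) * (q : ℤ) ^ m + 1) -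
            (((q : ℤ) * (q - 1) - 1) * (q : ℤ) ^ (m + 1) * (q : ℤ) ^ (m + 2) + (q : ℤ) ^ (m + 2)) =
            (q : ℤ) * ((q : ℤ) ^ m - 1) := by ring
        have h4 : 0 ≤ (q : ℤ) * ((q : ℤ) ^ m - 1) := mul_nonneg (by linarith) (by linarith)
        linarith
      calc (((q : ℤ) * (q - 1) - 1) * (q : ℤ) ^ (m + 1) + 1) * (q : ℤ) ^ (E + (m + 2))
          = (q : ℤ) ^ E * (((q : ℤ) * (q - 1) - 1) * (q : ℤ) ^ (m + 1) * (q : ℤ) ^ (m + 2) + (q : ℤ) ^ (m + 2)) := by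
            ring
        _ ≤ (q : ℤ) ^ E * ((q : ℤ) * ((q : ℤ) ^ (m + 2) - 1) * (((q : ℤ) * (q - 1) - 1) * (q : ℤ) ^ m + 1)) :=
            mul_le_mul_of_nonneg_left h2 hE
        _ = (q : ℤ) * ((q : ℤ) ^ (m + 2) - 1) * ((((q : ℤ) * (q - 1) - 1) * (q : ℤ) ^ m + 1) * (q : ℤ) ^ E) := by ring
        _ ≤ (q : ℤ) * ((q : ℤ) ^ (m + 2) - 1) * ((q : ℤ) * (q - 1) * ((q : ℤ) ^ m * p)) :=
            mul_le_mul_of_nonneg_left ih (mul_nonneg (by linarith) (by linarith))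
        _ = _ := by ring
  have h := key m
  have hqz : (2 : ℤ) ≤ q := by exact_mod_cast hq
  have hQ : (0 : ℤ) < (q : ℤ) ^ m := by positivity
  have hE : (0 : ℤ) ≤ (q : ℤ) ^ (∑ i ∈ range m, (i + 2)) := by positivity
  have h5 : (q : ℤ) ^ m * (((q * (q - 1) - 1 : ℕ) : ℤ) * (q : ℤ) ^ (∑ i ∈ range m, (i + 2))) ≤
      (q : ℤ) ^ m * ((q : ℤ) * (q - 1) * ((∏ i ∈ range m, (q ^ (i + 2) - 1) : ℕ) : ℤ)) := by
    nlinarith
  have h6 := le_of_mul_le_mul_left h5 hQ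
  rw [← hq1] at h6
  exact_mod_cast h6

/-- the exponent of `q` in the leading term -/
theorem two_sum (m : ℕ) : 2 * ∑ i ∈ range m, (i + 2) = m * (m + 3) := by
  induction m with
  | zero => simp
  | succ m ih => rw [sum_range_succ, mul_add, ih]; ring

theorem low3 {q : ℕ} (hq : 3 ≤ q) (m : ℕ) :
    5 * q ^ (∑ i ∈ range m, (i + 2)) ≤ 6 * ∏ i ∈ range m, (q ^ (i + 2) - 1) := by
  have h := low (show 2 ≤ q by omega) m
  set X := q ^ (∑ i ∈ range m, (i + 2))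
  set Y := ∏ i ∈ range m, (q ^ (i + 2) - 1)
  have h1 : 6 ≤ q * (q - 1) := Nat.mul_le_mul hq (show 2 ≤ q - 1 by omega)
  obtain ⟨c, hc⟩ := Nat.exists_eq_add_of_le' h1
  rw [hc] at h
  have h2 : c + 6 - 1 = c + 5 := by omega
  rw [h2] at h
  by_contra hlt
  push Not at hlt
  have h3 : (c + 6) * (6 * Y) < (c + 6) * (5 * X) := Nat.mul_lt_mul_of_pos_left hlt (by omega)
  nlinarith

/-- reduction to the bound for the `t`-part of `N` -/
theorem red {q n t M d N K E A B : ℕ} (hq : 2 ≤ q) (ht : t.Prime) (htq : ¬ t ∣ q) (hd : d ≠ 0) (hN : N ≠ 0) (hA : 0 < A)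
    (hM : d * M = q ^ K * N) (hE : E + K = (n - 1) ^ 2 + 1 + (2 * n - 3)) (hlow : B * q ^ E ≤ A * N)
    (H : A * d * P t N ≤ B * q ^ (2 * n - 3) * P t d) :
    P t M * q ^ ((n - 1) ^ 2 + 1) ≤ M := by
  have hM0 : M ≠ 0 := by
    rintro rfl
    rw [mul_zero] at hM
    exact (mul_ne_zero (pow_ne_zero K (by omega)) hN) hM.symm
  have hP : P t d * P t M = P t N := by
    rw [← P_mul hd hM0, hM, P_mul (pow_ne_zero K (by omega)) hN, P_eq_one, one_mul]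
    intro h; exact htq (ht.dvd_of_dvd_pow h)
  have h1 : P t d * (A * d * P t M) ≤ P t d * (B * q ^ (2 * n - 3)) := by
    calc P t d * (A * d * P t M) = A * d * (P t d * P t M) := by ring
      _ = A * d * P t N := by rw [hP]
      _ ≤ _ := H
      _ = _ := by ring
  have h2 := Nat.le_of_mul_le_mul_left h1 (P_pos ht)
  have h3 : (A * d) * (P t M * q ^ ((n - 1) ^ 2 + 1)) ≤ (A * d) * M := by
    calc (A * d) * (P t M * q ^ ((n - 1) ^ 2 + 1)) = (A * d * P t M) * q ^ ((n - 1) ^ 2 + 1) := by ring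
      _ ≤ (B * q ^ (2 * n - 3)) * q ^ ((n - 1) ^ 2 + 1) := Nat.mul_le_mul_right _ h2
      _ = B * q ^ ((n - 1) ^ 2 + 1 + (2 * n - 3)) := by rw [pow_add]; ring
      _ = (B * q ^ E) * q ^ K := by rw [← hE, pow_add]; ring
      _ ≤ (A * N) * q ^ K := Nat.mul_le_mul_right _ hlow
      _ = A * (q ^ K * N) := by ring
      _ = (A * d) * M := by rw [← hM]; ring
  exact Nat.le_of_mul_le_mul_left h3 (Nat.mul_pos hA (Nat.pos_of_ne_zero hd))

/-- `d ∣ s`: `d * s_t ≤ s * d_t` -/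
theorem dpart {t d s : ℕ} (hs : s ≠ 0) (h : d ∣ s) : d * P t s ≤ s * P t d := by
  obtain ⟨c, rfl⟩ := h
  have hd : d ≠ 0 := left_ne_zero_of_mul hs
  have hc : c ≠ 0 := right_ne_zero_of_mul hs
  rw [P_mul hd hc]
  calc d * (P t d * P t c) = (d * P t d) * P t c := by ring
    _ ≤ (d * P t d) * c := Nat.mul_le_mul_left _ (P_le hc)
    _ = _ := by ring

theorem natAbs_pow_sub_one_le {q : ℕ} {x : ℤ} (hx : x = q ∨ x = -(q : ℤ)) (e : ℕ) :
    (x ^ e - 1).natAbs ≤ q ^ e + 1 := by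
  have h5 := Int.natAbs_sub_le (x ^ e) 1
  have h6 : (x ^ e).natAbs = q ^ e := by
    rw [Int.natAbs_pow]
    congr 1
    rcases hx with rfl | rfl <;> simp
  rw [h6] at h5
  simpa using h5

/-- the two cases for `t` odd -/
theorem cases_odd {r q n : ℕ} (hr : r.Prime) (hr2 : r ≠ 2) (hq : 2 ≤ q) (hrq : ¬ r ∣ q) (hn : 1 ≤ n) {x : ℤ}
    (hx : x = q ∨ x = -(q : ℤ)) {N : ℕ} (hN : N * (x - 1).natAbs = (W x n).natAbs) :
    (r ∣ (x - 1).natAbs ∧ P r N = (P r (x - 1).natAbs) ^ (n - 1) * r ^ padicValNat r n.factorial ∧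
      (r ^ padicValNat r n.factorial) ^ 2 ≤ 3 ^ (n - 1)) ∨
    (¬ r ∣ (x - 1).natAbs ∧ ∃ e a G f : ℕ, 2 ≤ e ∧ a * e ≤ n ∧ P r N = G ^ a * f ∧ f ^ 2 ≤ 3 ^ (a - 1) ∧
      G * (x - 1).natAbs ≤ (x ^ e - 1).natAbs) := by
  have hxa : |x| = q := abs_eq_cases hx
  have hx2 : 2 ≤ |x| := by rw [hxa]; exact_mod_cast hq
  have hrx : ¬ (r : ℤ) ∣ x := by
    rcases hx with rfl | rfl
    · exact not_dvd_cast hrq
    · intro h; exact not_dvd_cast hrq ((dvd_neg).1 h)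
  have hW0 : (W x n).natAbs ≠ 0 := Int.natAbs_ne_zero.2 (W_ne_zero hx2 n)
  have hN0 : N ≠ 0 := by rintro rfl; rw [zero_mul] at hN; exact hW0 hN.symm
  have hy0 : (x - 1).natAbs ≠ 0 := by intro h; rw [h, mul_zero] at hN; exact hW0 hN.symm
  have hP : P r N * P r (x - 1).natAbs = P r (W x n).natAbs := by rw [← P_mul hN0 hy0, hN]
  have he := order_pos (q := q) hr hrx
  have hr3 : 3 ≤ r := by have := hr.two_le; omega
  set e := orderOf (x : ZMod r) with hedef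
  by_cases h : r ∣ (x - 1).natAbs
  · left
    refine ⟨h, ?_, pow_val_factorial_le hr hr3 (by omega)⟩
    have h1 : (r : ℤ) ∣ x ^ 1 - 1 := by rw [pow_one]; exact Int.natCast_dvd.2 h
    have h2 : e ∣ 1 := (dvd_pow_sub_one_iff 1).1 h1
    have h3 : e = 1 := Nat.dvd_one.1 h2
    have h4 := PW_odd hr hr2 hx2 hrx n
    rw [← hedef, h3, Nat.div_one, pow_one] at h4
    rw [h4] at hP
    have h5 : (P r (x - 1).natAbs) ^ n = (P r (x - 1).natAbs) ^ (n - 1) * P r (x - 1).natAbs := by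
      rw [← pow_succ]; congr 1; omega
    rw [h5] at hP
    have h6 : 0 < P r (x - 1).natAbs := P_pos hr
    apply Nat.eq_of_mul_eq_mul_right h6
    rw [hP]; ring
  · right
    refine ⟨h, e, n / e, P r (x ^ e - 1).natAbs, r ^ padicValNat r (n / e).factorial, ?_, Nat.div_mul_le_self n e, ?_,
      ?_, ?_⟩
    · by_contra hcon
      have h3 : e = 1 := by omega
      have h1 : (r : ℤ) ∣ x ^ 1 - 1 := (dvd_pow_sub_one_iff 1).2 (by rw [← hedef, h3])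
      rw [pow_one] at h1
      exact h (Int.natCast_dvd.1 h1)
    · rw [P_eq_one h, mul_one] at hP
      rw [hP, PW_odd hr hr2 hx2 hrx]
    · rcases Nat.eq_zero_or_pos (n / e) with h0 | h0
      · rw [h0]; simp
      · exact pow_val_factorial_le hr hr3 (by omega)
    · have hne : (x ^ e - 1).natAbs ≠ 0 := Int.natAbs_ne_zero.2 (pow_sub_one_ne_zero hx2 (by omega))
      have h1 : (x - 1).natAbs ∣ (x ^ e - 1).natAbs := by
        rw [Int.natAbs_dvd_natAbs]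
        have := sub_dvd_pow_sub_pow x 1 e
        rwa [one_pow] at this
      have hcop : Nat.Coprime (P r (x ^ e - 1).natAbs) (x - 1).natAbs :=
        Nat.Coprime.pow_left _ ((Nat.Prime.coprime_iff_not_dvd hr).2 h)
      exact Nat.le_of_dvd (Nat.pos_of_ne_zero hne) (Nat.Coprime.mul_dvd_of_dvd_of_dvd hcop (P_dvd _ _) h1)

/-- `f² ≤ 3^k` gives `f ≤ 2^k` -/
theorem le_two_pow {f k : ℕ} (h : f ^ 2 ≤ 3 ^ k) : f ≤ 2 ^ k := by
  apply le_of_sq_le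
  refine h.trans ?_
  rw [← pow_mul, mul_comm, pow_mul]
  exact Nat.pow_le_pow_left (by norm_num) _

end Cfsg.Agent.H365.NumLU
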