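import Cfsg.Agent.H365.NumL

/-!
# S3677, the numerics for `PSU_n(q)` (helper365)
-/

set_option autoImplicit false

namespace Cfsg.Agent.H365.NumU

open Finset Cfsg.Agent.H902.Lte Cfsg.Agent.H902.Art Cfsg.Agent.H365.NumLU Cfsg.Agent.H365.PPart

/-- the degree bound -/
def B (n q : ℕ) : ℕ :=
  if n = 4 then (q + 1) * (q ^ 3 + 1) else if Odd n then (q ^ n + 1) * (q ^ (n - 1) - 1) / (q ^ 2 - 1)
    else if q = 2 then 2 ^ (n - 1) * (2 ^ n - 1) / 3 else (q ^ n - 1) * (q ^ (n - 1) + 1) / (q ^ 2 - 1)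

theorem le_B {q n : ℕ} (hq : 2 ≤ q) (hn : 5 ≤ n) : q ^ (2 * n - 3) ≤ B n q := by
  obtain ⟨m, rfl⟩ := Nat.exists_eq_add_of_le' hn
  have e1 : m + 5 - 1 = m + 4 := by omega
  have e2 : 2 * (m + 5) - 3 = 2 * m + 7 := by omega
  have hq4 : 2 ^ 2 ≤ q ^ 2 := Nat.pow_le_pow_left hq 2
  have h21 : ((q ^ 2 - 1 : ℕ) : ℤ) = (q : ℤ) ^ 2 - 1 := by rw [Nat.cast_sub (by omega)]; simp
  have hz : (2 : ℤ) ≤ q := by exact_mod_cast hq
  have hQ : (1 : ℤ) ≤ (q : ℤ) ^ m := one_le_pow₀ (by linarith)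
  have h4 : (1 : ℤ) ≤ (q : ℤ) ^ (m + 4) := one_le_pow₀ (by linarith)
  have h5 : (1 : ℤ) ≤ (q : ℤ) ^ (m + 5) := one_le_pow₀ (by linarith)
  unfold B
  rw [if_neg (by omega), e1, e2]
  split_ifs with ho h2
  · rw [Nat.le_div_iff_mul_le (by omega)]
    have h6 : ((q ^ (m + 4) - 1 : ℕ) : ℤ) = (q : ℤ) ^ (m + 4) - 1 := by
      rw [Nat.cast_sub (Nat.one_le_pow _ _ (by omega))]; simp
    have h7 : (q : ℤ) ^ (2 * m + 7) * ((q : ℤ) ^ 2 - 1) ≤ ((q : ℤ) ^ (m + 5) + 1) * ((q : ℤ) ^ (m + 4) - 1) := by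
      have h8 : ((q : ℤ) ^ (m + 5) + 1) * ((q : ℤ) ^ (m + 4) - 1) - (q : ℤ) ^ (2 * m + 7) * ((q : ℤ) ^ 2 - 1) =
          (q : ℤ) ^ (m + 5) * ((q : ℤ) ^ m * (q : ℤ) ^ 2 - 1) + ((q : ℤ) ^ (m + 4) - 1) := by ring
      have h9 : (1 : ℤ) ≤ (q : ℤ) ^ m * (q : ℤ) ^ 2 := by nlinarith
      have h10 : 0 ≤ (q : ℤ) ^ (m + 5) * ((q : ℤ) ^ m * (q : ℤ) ^ 2 - 1) := mul_nonneg (by linarith) (by linarith)
      linarith
    rw [← h21, ← h6] at h7
    exact_mod_cast h7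
  · subst h2
    rw [Nat.le_div_iff_mul_le (by norm_num)]
    have h6 : ((2 ^ (m + 5) - 1 : ℕ) : ℤ) = (2 : ℤ) ^ (m + 5) - 1 := by
      rw [Nat.cast_sub (Nat.one_le_pow _ _ (by omega))]; simp
    have h7 : (2 : ℤ) ^ (2 * m + 7) * 3 ≤ (2 : ℤ) ^ (m + 4) * ((2 : ℤ) ^ (m + 5) - 1) := by
      have h8 : (2 : ℤ) ^ (m + 4) * ((2 : ℤ) ^ (m + 5) - 1) - (2 : ℤ) ^ (2 * m + 7) * 3 =
          (2 : ℤ) ^ (m + 4) * ((2 : ℤ) ^ m * 8 - 1) := by ring
      have hQ2 : (1 : ℤ) ≤ (2 : ℤ) ^ m := one_le_pow₀ (by norm_num)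
      have h10 : 0 ≤ (2 : ℤ) ^ (m + 4) * ((2 : ℤ) ^ m * 8 - 1) := mul_nonneg (by positivity) (by linarith)
      linarith
    rw [← h6] at h7
    exact_mod_cast h7
  · rw [Nat.le_div_iff_mul_le (by omega)]
    have h6 : ((q ^ (m + 5) - 1 : ℕ) : ℤ) = (q : ℤ) ^ (m + 5) - 1 := by
      rw [Nat.cast_sub (Nat.one_le_pow _ _ (by omega))]; simp
    have h7 : (q : ℤ) ^ (2 * m + 7) * ((q : ℤ) ^ 2 - 1) ≤ ((q : ℤ) ^ (m + 5) - 1) * ((q : ℤ) ^ (m + 4) + 1) := by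
      have h8 : ((q : ℤ) ^ (m + 5) - 1) * ((q : ℤ) ^ (m + 4) + 1) - (q : ℤ) ^ (2 * m + 7) * ((q : ℤ) ^ 2 - 1) =
          ((q : ℤ) ^ (2 * m + 7) - 1) + (q : ℤ) ^ (m + 4) * (q - 1) := by ring
      have h9 : (1 : ℤ) ≤ (q : ℤ) ^ (2 * m + 7) := one_le_pow₀ (by linarith)
      have h10 : 0 ≤ (q : ℤ) ^ (m + 4) * (q - 1) := mul_nonneg (by linarith) (by linarith)
      linarith
    rw [← h21, ← h6] at h7
    exact_mod_cast h7

theorem pow_four_le_B {q : ℕ} : q ^ 4 ≤ B 4 q := by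
  unfold B
  rw [if_pos rfl]
  calc q ^ 4 = q * q ^ 3 := by ring
    _ ≤ _ := Nat.mul_le_mul (by omega) (by omega)

theorem pow_le_B {q n : ℕ} (hq : 2 ≤ q) (hn : 4 ≤ n) : q ^ n ≤ B n q := by
  rcases Nat.lt_or_ge n 5 with h | h
  · have : n = 4 := by omega
    subst this
    exact pow_four_le_B
  · exact (Nat.pow_le_pow_right (by omega) (by omega)).trans (le_B hq h)

/-- `t` odd, `t ∤ q + 1` -/
theorem U_odd_not {q n e a G f : ℕ} (hq : 2 ≤ q) (he : 2 ≤ e) (hae : a * e ≤ n) (h2 : f ^ 2 ≤ 3 ^ (a - 1))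
    (h3 : G * (q + 1) ≤ q ^ e + 1) : G ^ a * f ≤ q ^ n := by
  apply le_of_sq_le
  have h4 : 4 ≤ q ^ e := by
    calc 4 = 2 ^ 2 := by norm_num
      _ ≤ q ^ 2 := Nat.pow_le_pow_left hq 2
      _ ≤ q ^ e := Nat.pow_le_pow_right (by omega) he
  have h5 : 3 * G ≤ q ^ e + 1 := by nlinarith
  have h6 : 3 * G ^ 2 ≤ (q ^ e) ^ 2 := by nlinarith
  calc (G ^ a * f) ^ 2 = (G ^ a) ^ 2 * f ^ 2 := by rw [mul_pow]
    _ ≤ (G ^ a) ^ 2 * 3 ^ a := Nat.mul_le_mul_left _ (h2.trans (Nat.pow_le_pow_right (by norm_num) (by omega)))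
    _ = (3 * G ^ 2) ^ a := by rw [mul_pow]; ring
    _ ≤ ((q ^ e) ^ 2) ^ a := Nat.pow_le_pow_left h6 _
    _ = (q ^ (a * e)) ^ 2 := by rw [← pow_mul, ← pow_mul, ← pow_mul]; congr 1; ring
    _ ≤ _ := Nat.pow_le_pow_left (Nat.pow_le_pow_right (by omega) hae) 2

/-- `t` odd, `t ∣ q + 1`, `n ≥ 5` -/
theorem U_odd_dvd {q n u f : ℕ} (hq : 4 ≤ q) (hn : 5 ≤ n) (hu : u ≤ q + 1) (h2 : f ^ 2 ≤ 3 ^ (n - 1)) :
    u ^ (n - 1) * f ≤ q ^ (2 * n - 3) := by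
  apply le_of_sq_le
  have h3 : (u ^ (n - 1) * f) ^ 2 ≤ (3 * (q + 1) ^ 2) ^ (n - 1) := by
    calc (u ^ (n - 1) * f) ^ 2 = (u ^ (n - 1)) ^ 2 * f ^ 2 := by rw [mul_pow]
      _ ≤ ((q + 1) ^ (n - 1)) ^ 2 * 3 ^ (n - 1) :=
          Nat.mul_le_mul (Nat.pow_le_pow_left (Nat.pow_le_pow_left hu _) _) h2
      _ = _ := by rw [mul_pow, ← pow_mul, ← pow_mul, mul_comm (n - 1) 2, mul_comm]
  refine h3.trans ?_
  obtain ⟨m, rfl⟩ := Nat.exists_eq_add_of_le' hn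
  have e1 : m + 5 - 1 = m + 4 := by omega
  have e2 : 2 * (m + 5) - 3 = 2 * m + 7 := by omega
  rw [e1, e2]
  rcases Nat.lt_or_ge q 5 with h | h
  · have : q = 4 := by omega
    subst this
    calc (3 * (4 + 1) ^ 2) ^ (m + 4) = 31640625 * 75 ^ m := by norm_num; ring
      _ ≤ 268435456 * 256 ^ m := Nat.mul_le_mul (by norm_num) (Nat.pow_le_pow_left (by norm_num) _)
      _ = (4 ^ (2 * m + 7)) ^ 2 := by
          rw [← pow_mul, show (2 * m + 7) * 2 = 14 + 4 * m by ring, pow_add, pow_mul]; norm_num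
  · have h4 : 3 * (q + 1) ^ 2 ≤ q ^ 3 := by
      have h5 : 5 * (q + 1) ≤ 6 * q := by omega
      have h6 : 25 * (q + 1) ^ 2 ≤ 36 * q ^ 2 := by nlinarith
      have h7 : 5 * q ^ 2 ≤ q ^ 3 := by
        have : q ^ 3 = q * q ^ 2 := by ring
        rw [this]; exact Nat.mul_le_mul_right _ h
      omega
    calc (3 * (q + 1) ^ 2) ^ (m + 4) ≤ (q ^ 3) ^ (m + 4) := Nat.pow_le_pow_left h4 _
      _ = q ^ (3 * (m + 4)) := by rw [← pow_mul]
      _ ≤ q ^ ((2 * m + 7) * 2) := Nat.pow_le_pow_right (by omega) (by omega)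
      _ = _ := by rw [pow_mul]

/-- `t` odd, `t ∣ q + 1`, `n = 4` -/
theorem U_odd_four {t q u : ℕ} (ht : t.Prime) (ht2 : t ≠ 2) (hq : 2 ≤ q) (h : t ∣ q + 1) (h2 : ¬ (q = 2 ∧ t = 3))
    (hu : u ≤ q + 1) : u ^ 3 * t ^ padicValNat t (Nat.factorial 4) ≤ B 4 q := by
  have hB : B 4 q = (q + 1) * (q ^ 3 + 1) := by unfold B; rw [if_pos rfl]
  rw [hB]
  have hu3 : u ^ 3 ≤ (q + 1) ^ 3 := Nat.pow_le_pow_left hu 3
  by_cases h3 : t = 3
  · subst h3
    have hv : padicValNat 3 (Nat.factorial 4) = 1 := by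
      have h24 : Nat.factorial 4 = 3 * 8 := by decide
      have : Fact (Nat.Prime 3) := ⟨Nat.prime_three⟩
      rw [h24, padicValNat.mul (by norm_num) (by norm_num), padicValNat_self,
        padicValNat.eq_zero_of_not_dvd (by norm_num)]
    rw [hv, pow_one]
    have hq5 : 5 ≤ q := by
      obtain ⟨c, hc⟩ := h
      by_contra hlt
      have : c = 1 := by omega
      subst this
      exact h2 ⟨by omega, rfl⟩
    have h4 : 3 * (q + 1) ^ 2 ≤ q ^ 3 := by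
      have h5 : 5 * (q + 1) ≤ 6 * q := by omega
      have h6 : 25 * (q + 1) ^ 2 ≤ 36 * q ^ 2 := by nlinarith
      have h7 : 5 * q ^ 2 ≤ q ^ 3 := by
        have : q ^ 3 = q * q ^ 2 := by ring
        rw [this]; exact Nat.mul_le_mul_right _ hq5
      omega
    calc u ^ 3 * 3 ≤ (q + 1) ^ 3 * 3 := Nat.mul_le_mul_right _ hu3
      _ = (q + 1) * (3 * (q + 1) ^ 2) := by ring
      _ ≤ _ := Nat.mul_le_mul_left _ (by omega)
  · have hv : padicValNat t (Nat.factorial 4) = 0 := by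
      apply padicValNat.eq_zero_of_not_dvd
      intro h4
      have h5 := (ht.dvd_factorial).1 h4
      have h6 := ht.two_le
      have h7 : t ≠ 4 := by rintro rfl; exact absurd ht (by norm_num)
      omega
    rw [hv, pow_zero, mul_one]
    refine hu3.trans ?_
    calc (q + 1) ^ 3 = (q + 1) * (q + 1) ^ 2 := by ring
      _ ≤ _ := by
        apply Nat.mul_le_mul_left
        have h5 : q ^ 3 = q * (q * q) := by ring
        rw [h5]
        nlinarith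

theorem uv_cases {q : ℕ} (hq : 3 ≤ q) (hodd : Odd q) :
    (P 2 (q + 1) = 2 ∧ P 2 (q - 1) ≤ q - 1 ∧ q % 4 = 1) ∨ (P 2 (q - 1) = 2 ∧ P 2 (q + 1) ≤ q + 1 ∧ q % 4 = 3) :=
  (NumL.uv_cases hq hodd).symm

/-- `t = 2`, `n = 2 k + 3` odd -/
theorem core_odd {q u v k : ℕ} (hq : 3 ≤ q) (huv : (u = 2 ∧ v ≤ q - 1 ∧ q % 4 = 1) ∨ (v = 2 ∧ u ≤ q + 1 ∧ q % 4 = 3))
    (hk : 1 ≤ k) : (u * (u * v)) ^ (k + 1) * 2 ^ k ≤ q ^ (4 * k + 3) := by
  obtain ⟨j, rfl⟩ := Nat.exists_eq_add_of_le' hk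
  have e0 : (u * (u * v)) ^ (j + 1 + 1) * 2 ^ (j + 1) = ((u * (u * v)) ^ 2 * 2) * (u * (u * v) * 2) ^ j := by
    rw [mul_pow (u * (u * v)) 2]; ring
  have e1 : q ^ (4 * (j + 1) + 3) = q ^ 7 * (q ^ 4) ^ j := by
    rw [← pow_mul, ← pow_add]; congr 1; ring
  rw [e0, e1]
  rcases huv with ⟨rfl, hv, hm⟩ | ⟨rfl, hu, hm⟩
  · have hq5 : 5 ≤ q := by omega
    have h1 : 2 * (2 * v) ≤ 4 * q := by omega
    have h2 : 4 * q * 2 ≤ q ^ 4 := by
      have : q ^ 4 = q * (q * (q * q)) := by ring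
      rw [this]
      nlinarith [Nat.mul_le_mul hq5 hq5, Nat.mul_le_mul hq5 (Nat.mul_le_mul hq5 hq5)]
    have h3 : (2 * (2 * v)) ^ 2 * 2 ≤ q ^ 7 := by
      calc (2 * (2 * v)) ^ 2 * 2 ≤ (4 * q) ^ 2 * 2 := Nat.mul_le_mul_right _ (Nat.pow_le_pow_left h1 _)
        _ = 32 * q ^ 2 := by ring
        _ ≤ 5 ^ 5 * q ^ 2 := Nat.mul_le_mul_right _ (by norm_num)
        _ ≤ q ^ 5 * q ^ 2 := Nat.mul_le_mul_right _ (Nat.pow_le_pow_left hq5 _)
        _ = q ^ 7 := by ring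
    exact Nat.mul_le_mul h3 (Nat.pow_le_pow_left ((Nat.mul_le_mul_right 2 h1).trans h2) _)
  · rcases Nat.lt_or_ge q 7 with hq7 | hq7
    · have h3 : q = 3 := by omega
      subst h3
      have h4 : u * (u * 2) ≤ 32 := by
        calc u * (u * 2) ≤ 4 * (4 * 2) := Nat.mul_le_mul hu (Nat.mul_le_mul_right _ hu)
          _ = 32 := by norm_num
      refine Nat.mul_le_mul ?_ (Nat.pow_le_pow_left ?_ _)
      · calc (u * (u * 2)) ^ 2 * 2 ≤ 32 ^ 2 * 2 := Nat.mul_le_mul_right _ (Nat.pow_le_pow_left h4 _)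
          _ ≤ 3 ^ 7 := by norm_num
      · calc u * (u * 2) * 2 ≤ 32 * 2 := Nat.mul_le_mul_right _ h4
          _ ≤ 3 ^ 4 := by norm_num
    · have h4 : u * (u * 2) ≤ q ^ 3 := by
        calc u * (u * 2) ≤ (q + 1) * ((q + 1) * 2) := Nat.mul_le_mul hu (Nat.mul_le_mul_right _ hu)
          _ ≤ q ^ 3 := by
            have : q ^ 3 = q * (q * q) := by ring
            rw [this]; nlinarith [Nat.mul_le_mul hq7 hq7]
      refine Nat.mul_le_mul ?_ (Nat.pow_le_pow_left ?_ _)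
      · calc (u * (u * 2)) ^ 2 * 2 ≤ (q ^ 3) ^ 2 * q := Nat.mul_le_mul (Nat.pow_le_pow_left h4 _) (by omega)
          _ = q ^ 7 := by ring
      · calc u * (u * 2) * 2 ≤ q ^ 3 * q := Nat.mul_le_mul h4 (by omega)
          _ = q ^ 4 := by ring

/-- `t = 2`, `n = 2 k + 2` even, `k ≥ 2` -/
theorem core_even {q u v k : ℕ} (hq : 3 ≤ q) (huv : (u = 2 ∧ v ≤ q - 1 ∧ q % 4 = 1) ∨ (v = 2 ∧ u ≤ q + 1 ∧ q % 4 = 3))
    (hk : 2 ≤ k) : (u * (u * v)) ^ k * (u * v) * 2 ^ k ≤ 2 * q ^ (4 * k + 1) := by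
  obtain ⟨j, rfl⟩ := Nat.exists_eq_add_of_le' hk
  have e0 : (u * (u * v)) ^ (j + 2) * (u * v) * 2 ^ (j + 2) = ((u * (u * v) * 2) ^ 2 * (u * v)) * (u * (u * v) * 2) ^ j := by
    rw [mul_pow (u * (u * v)) 2, mul_pow (u * (u * v)) 2]; ring
  have e1 : 2 * q ^ (4 * (j + 2) + 1) = (2 * q ^ 9) * (q ^ 4) ^ j := by
    rw [← pow_mul, mul_assoc, ← pow_add]; congr 2; ring
  rw [e0, e1]
  rcases huv with ⟨rfl, hv, hm⟩ | ⟨rfl, hu, hm⟩
  · have hq5 : 5 ≤ q := by omega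
    have h1 : 2 * (2 * v) * 2 ≤ 8 * q := by omega
    have h2 : 8 * q ≤ q ^ 4 := by
      have : q ^ 4 = q * (q * (q * q)) := by ring
      rw [this]
      nlinarith [Nat.mul_le_mul hq5 hq5, Nat.mul_le_mul hq5 (Nat.mul_le_mul hq5 hq5)]
    have h3 : (2 * (2 * v) * 2) ^ 2 * (2 * v) ≤ 2 * q ^ 9 := by
      calc (2 * (2 * v) * 2) ^ 2 * (2 * v) ≤ (q ^ 4) ^ 2 * (2 * q) :=
            Nat.mul_le_mul (Nat.pow_le_pow_left (h1.trans h2) _) (by omega)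
        _ = 2 * q ^ 9 := by ring
    exact Nat.mul_le_mul h3 (Nat.pow_le_pow_left (h1.trans h2) _)
  · rcases Nat.lt_or_ge q 7 with hq7 | hq7
    · have h3 : q = 3 := by omega
      subst h3
      have h4 : u * (u * 2) * 2 ≤ 64 := by
        calc u * (u * 2) * 2 ≤ 4 * (4 * 2) * 2 := Nat.mul_le_mul_right _ (Nat.mul_le_mul hu (Nat.mul_le_mul_right _ hu))
          _ = 64 := by norm_num
      refine Nat.mul_le_mul ?_ (Nat.pow_le_pow_left (h4.trans (by norm_num)) _)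
      calc (u * (u * 2) * 2) ^ 2 * (u * 2) ≤ 64 ^ 2 * 8 := Nat.mul_le_mul (Nat.pow_le_pow_left h4 _) (by omega)
        _ ≤ 2 * 3 ^ 9 := by norm_num
    · have h4 : u * (u * 2) * 2 ≤ q ^ 3 := by
        calc u * (u * 2) * 2 ≤ (q + 1) * ((q + 1) * 2) * 2 :=
              Nat.mul_le_mul_right _ (Nat.mul_le_mul hu (Nat.mul_le_mul_right _ hu))
          _ ≤ q ^ 3 := by
            have h5 : 7 * (q + 1) ≤ 8 * q := by omega
            have h6 : 49 * (q + 1) ^ 2 ≤ 64 * q ^ 2 := by nlinarith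
            have h7 : 7 * q ^ 2 ≤ q ^ 3 := by
              have : q ^ 3 = q * q ^ 2 := by ring
              rw [this]; exact Nat.mul_le_mul_right _ hq7
            have h8 : (q + 1) * ((q + 1) * 2) * 2 = 4 * (q + 1) ^ 2 := by ring
            omega
      have h5 : q ^ 3 ≤ q ^ 4 := Nat.pow_le_pow_right (by omega) (by norm_num)
      refine Nat.mul_le_mul ?_ (Nat.pow_le_pow_left (h4.trans h5) _)
      calc (u * (u * 2) * 2) ^ 2 * (u * 2) ≤ (q ^ 3) ^ 2 * (2 * q * 2) :=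
            Nat.mul_le_mul (Nat.pow_le_pow_left h4 _) (by omega)
        _ = 4 * q ^ 7 := by ring
        _ ≤ (2 * q ^ 2) * q ^ 7 := Nat.mul_le_mul_right _ (by nlinarith)
        _ = 2 * q ^ 9 := by ring

theorem P_two_even {d : ℕ} (hd : d ≠ 0) (h : 2 ∣ d) : 2 ≤ P 2 d := by
  have h1 : P 2 2 ≤ P 2 d := P_mono Nat.prime_two hd h
  have h2 : P 2 2 = 2 := by
    have := P_pow_self (r := 2) (k := 1) (a := 1) Nat.prime_two (by norm_num)
    simpa using this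
  omega

theorem P_four {d : ℕ} (hd : d ≠ 0) (h : 4 ∣ d) : 4 ≤ P 2 d := by
  have h1 : P 2 4 ≤ P 2 d := P_mono Nat.prime_two hd h
  have h2 : P 2 4 = 4 := by
    have := P_pow_self (r := 2) (k := 2) (a := 1) Nat.prime_two (by norm_num)
    simpa using this
  omega

/-- `t = 2` -/
theorem U_two {q n N M d : ℕ} (hq : 3 ≤ q) (hn : 4 ≤ n) (hodd : Odd q) (h43 : ¬ (n = 4 ∧ q = 3))
    (hd : d = Nat.gcd n (q + 1)) (hP : P 2 d * P 2 M = P 2 N)
    (hN : N * (-(q : ℤ) - 1).natAbs = (W (-(q : ℤ)) n).natAbs) : P 2 M ≤ B n q := by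
  have hx1 : (-(q : ℤ) - 1).natAbs = q + 1 := by omega
  have h1 := PLU_two hq hodd (by omega) (Or.inr rfl) hN
  rw [hx1, NumL.P_sq hq, mul_comm (P 2 (q - 1)) (P 2 (q + 1))] at h1
  have huv := uv_cases hq hodd
  have hd0 : d ≠ 0 := by rw [hd]; exact (Nat.gcd_pos_of_pos_left _ (by omega)).ne'
  have hPd : 1 ≤ P 2 d := P_pos Nat.prime_two
  have hq2 : 2 ∣ q + 1 := (hodd.add_odd odd_one).two_dvd
  set u := P 2 (q + 1)
  set v := P 2 (q - 1)
  rcases Nat.even_or_odd' n with ⟨h, hh | hh⟩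
  · have e1 : (n + 1) / 2 - 1 = h - 1 := by omega
    have e2 : n / 2 + 1 - (n + 1) / 2 = 1 := by omega
    have e3 : n / 2 = h := by omega
    rw [e1, e2, e3, pow_one] at h1
    have hf := pow_val_factorial_two_le (a := h) (by omega)
    obtain ⟨k, rfl⟩ : ∃ k, h = k + 1 := ⟨h - 1, by omega⟩
    rw [Nat.add_sub_cancel] at h1 hf
    have hPN : P 2 N ≤ (u * (u * v)) ^ k * (u * v) * 2 ^ k := by
      rw [h1]; exact Nat.mul_le_mul_left _ hf
    rcases Nat.lt_or_ge k 2 with hk | hk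
    · -- `n = 4`
      have hk1 : k = 1 := by omega
      subst hk1
      have hn4 : n = 4 := by omega
      subst hn4
      have hB : B 4 q = (q + 1) * (q ^ 3 + 1) := by unfold B; rw [if_pos rfl]
      rw [hB]
      simp only [pow_one] at hPN
      rcases huv with ⟨hu2, hv, hm⟩ | ⟨hv2, hu, hm⟩
      · have h2 : 2 ≤ P 2 d := P_two_even hd0 (by rw [hd]; exact Nat.dvd_gcd (by norm_num) hq2)
        have h3 : 2 * P 2 M ≤ 2 * (8 * v ^ 2) := by
          calc 2 * P 2 M ≤ P 2 d * P 2 M := Nat.mul_le_mul_right _ h2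
            _ = P 2 N := hP
            _ ≤ _ := hPN
            _ = _ := by rw [hu2]; ring
        have h4 := Nat.le_of_mul_le_mul_left h3 (by norm_num)
        refine h4.trans ?_
        have hq5 : 5 ≤ q := by omega
        have h5 : v ^ 2 ≤ q ^ 2 := Nat.pow_le_pow_left (by omega) 2
        calc 8 * v ^ 2 ≤ 8 * q ^ 2 := Nat.mul_le_mul_left _ h5
          _ ≤ q ^ 2 * q ^ 2 := Nat.mul_le_mul_right _ (by nlinarith)
          _ = q * q ^ 3 := by ring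
          _ ≤ _ := Nat.mul_le_mul (by omega) (by omega)
      · have h2 : 4 ≤ P 2 d := P_four hd0 (by
          rw [hd]; exact Nat.dvd_gcd dvd_rfl (Nat.dvd_of_mod_eq_zero (by omega)))
        have h3 : 4 * P 2 M ≤ 4 * (2 * u ^ 3) := by
          calc 4 * P 2 M ≤ P 2 d * P 2 M := Nat.mul_le_mul_right _ h2
            _ = P 2 N := hP
            _ ≤ _ := hPN
            _ = _ := by rw [hv2]; ring
        have h4 := Nat.le_of_mul_le_mul_left h3 (by norm_num)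
        refine h4.trans ?_
        have hq7 : 7 ≤ q := by
          by_contra hlt
          exact h43 ⟨rfl, by omega⟩
        calc 2 * u ^ 3 ≤ 2 * (q + 1) ^ 3 := Nat.mul_le_mul_left _ (Nat.pow_le_pow_left hu 3)
          _ = (q + 1) * (2 * (q + 1) ^ 2) := by ring
          _ ≤ (q + 1) * (q ^ 3 + 1) := by
            apply Nat.mul_le_mul_left
            have : q ^ 3 = q * (q * q) := by ring
            rw [this]; nlinarith [Nat.mul_le_mul hq7 hq7]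
    · have h2 : 2 ≤ P 2 d := P_two_even hd0 (by rw [hd]; exact Nat.dvd_gcd ⟨k + 1, hh⟩ hq2)
      have h3 : 2 * P 2 M ≤ 2 * q ^ (4 * k + 1) := by
        calc 2 * P 2 M ≤ P 2 d * P 2 M := Nat.mul_le_mul_right _ h2
          _ = P 2 N := hP
          _ ≤ _ := hPN
          _ ≤ _ := core_even hq huv hk
      have h4 := Nat.le_of_mul_le_mul_left h3 (by norm_num)
      refine h4.trans ?_
      have h5 := le_B (show 2 ≤ q by omega) (show 5 ≤ n by omega)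
      rwa [show 2 * n - 3 = 4 * k + 1 by omega] at h5
  · have e1 : (n + 1) / 2 - 1 = h := by omega
    have e2 : n / 2 + 1 - (n + 1) / 2 = 0 := by omega
    have e3 : n / 2 = h := by omega
    rw [e1, e2, e3, pow_zero, mul_one] at h1
    have hf := pow_val_factorial_two_le (a := h) (by omega)
    obtain ⟨k, rfl⟩ : ∃ k, h = k + 1 := ⟨h - 1, by omega⟩
    rw [Nat.add_sub_cancel] at hf
    have hPN : P 2 N ≤ (u * (u * v)) ^ (k + 1) * 2 ^ k := by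
      rw [h1]; exact Nat.mul_le_mul_left _ hf
    have h3 : P 2 M ≤ q ^ (4 * k + 3) := by
      calc P 2 M = 1 * P 2 M := (one_mul _).symm
        _ ≤ P 2 d * P 2 M := Nat.mul_le_mul_right _ hPd
        _ = P 2 N := hP
        _ ≤ _ := hPN
        _ ≤ _ := core_odd hq huv (by omega)
    refine h3.trans ?_
    have h5 := le_B (show 2 ≤ q by omega) (show 5 ≤ n by omega)
    rwa [show 2 * n - 3 = 4 * k + 3 by omega] at h5

/-- `t` odd -/
theorem U_odd {t q n N : ℕ} (ht : t.Prime) (ht2 : t ≠ 2) (hq : 2 ≤ q) (hn : 4 ≤ n) (htq : ¬ t ∣ q)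
    (h2 : ¬ (q = 2 ∧ t = 3)) (hN : N * (-(q : ℤ) - 1).natAbs = (W (-(q : ℤ)) n).natAbs) : P t N ≤ B n q := by
  have hx1 : (-(q : ℤ) - 1).natAbs = q + 1 := by omega
  rcases cases_odd ht ht2 hq htq (by omega) (Or.inr rfl) hN with ⟨h, h1, h3⟩ | ⟨h, e, a, G, f, he, hae, h1, h3, h4⟩
  · rw [hx1] at h h1
    rw [h1]
    have hu : P t (q + 1) ≤ q + 1 := P_le (by omega)
    rcases Nat.lt_or_ge n 5 with h5 | h5
    · have : n = 4 := by omega
      subst this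
      exact U_odd_four ht ht2 hq h h2 hu
    · have hq4 : 4 ≤ q := by
        have h6 := ht.two_le
        by_contra hlt
        have h7 : q = 2 ∨ q = 3 := by omega
        rcases h7 with rfl | rfl
        · exact h2 ⟨rfl, (Nat.prime_dvd_prime_iff_eq ht Nat.prime_three).1 h⟩
        · have h8 : t ∣ 2 ^ 2 := h
          exact ht2 ((Nat.prime_dvd_prime_iff_eq ht Nat.prime_two).1 (ht.dvd_of_dvd_pow h8))
      exact (U_odd_dvd hq4 h5 hu h3).trans (le_B hq h5)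
  · rw [h1]
    rw [hx1] at h4
    exact (U_odd_not hq he hae h3 (h4.trans (natAbs_pow_sub_one_le (Or.inr rfl) e))).trans (pow_le_B hq hn)

/-- NUM-U -/
theorem num_psu {q n t M : ℕ} (hq : 2 ≤ q) (hn : 4 ≤ n) (ht : t.Prime) (htq : ¬ t ∣ q)
    (h43 : ¬ (n = 4 ∧ q = 3 ∧ t = 2)) (h2 : ¬ (q = 2 ∧ t = 3))
    (hM : Nat.gcd n (q + 1) * M =
      q ^ (n * (n - 1) / 2) * ∏ i ∈ Finset.range (n - 1), (if Even i then q ^ (i + 2) - 1 else q ^ (i + 2) + 1)) :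
    t ^ M.factorization t ≤
      (if n = 4 then (q + 1) * (q ^ 3 + 1) else if Odd n then (q ^ n + 1) * (q ^ (n - 1) - 1) / (q ^ 2 - 1)
        else if q = 2 then 2 ^ (n - 1) * (2 ^ n - 1) / 3 else (q ^ n - 1) * (q ^ (n - 1) + 1) / (q ^ 2 - 1)) := by
  show P t M ≤ B n q
  have hN0 : ∏ i ∈ range (n - 1), (if Even i then q ^ (i + 2) - 1 else q ^ (i + 2) + 1) ≠ 0 := by
    refine Finset.prod_ne_zero_iff.2 fun i _ => ?_
    split_ifs
    · exact sub_one_ne hq (by omega)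
    · omega
  have hNW : (∏ i ∈ range (n - 1), (if Even i then q ^ (i + 2) - 1 else q ^ (i + 2) + 1)) * (-(q : ℤ) - 1).natAbs =
      (W (-(q : ℤ)) n).natAbs := by
    have h := num_U hq (show 1 ≤ n by omega)
    rw [← h]
    congr 1
    omega
  have hd0 : Nat.gcd n (q + 1) ≠ 0 := (Nat.gcd_pos_of_pos_left _ (by omega)).ne'
  have hM0 : M ≠ 0 := by
    rintro rfl
    rw [mul_zero] at hM
    exact (mul_ne_zero (pow_ne_zero _ (by omega)) hN0) hM.symm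
  set N := ∏ i ∈ range (n - 1), (if Even i then q ^ (i + 2) - 1 else q ^ (i + 2) + 1)
  have hP : P t (Nat.gcd n (q + 1)) * P t M = P t N := by
    rw [← P_mul hd0 hM0, hM, P_mul (pow_ne_zero _ (by omega)) hN0, P_eq_one, one_mul]
    intro h; exact htq (ht.dvd_of_dvd_pow h)
  by_cases ht2 : t = 2
  · subst ht2
    have hodd : Odd q := Nat.not_even_iff_odd.1 fun h => htq h.two_dvd
    have hq3 : 3 ≤ q := by rcases hodd with ⟨k, hk⟩; omega
    exact U_two hq3 hn hodd (fun h => h43 ⟨h.1, h.2, rfl⟩) rfl hP hNW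
  · calc P t M = 1 * P t M := (one_mul _).symm
      _ ≤ P t (Nat.gcd n (q + 1)) * P t M := Nat.mul_le_mul_right _ (P_pos ht)
      _ = P t N := hP
      _ ≤ _ := U_odd ht ht2 hq hn htq h2 hNW

end Cfsg.Agent.H365.NumU
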