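import Mathlib
import Cfsg.Agent.H365.SpFourA
import Cfsg.Agent.H365.NearMain

/-!
# Groups with the order and the spectrum of `PSp₄(q)`: the numerical part
-/

set_option autoImplicit false

namespace Cfsg.Agent.H365.SpFour

open Cfsg.Agent.H902.Art

section Arith

variable {q : ℕ}

/-- the number `n` of the structure theorem -/
theorem n_eq {r n : ℕ} (hq : 3 ≤ q) (hr : r.Prime) (hrm : r ∣ tt q) (h1 : n ∣ r - 1)
    (h2 : q ^ 4 * (q ^ 2 - 1) ^ 2 ≡ n [MOD r]) : n = 4 := by
  have hdq : r ∣ q ^ 2 + 1 := hrm.trans (tt_dvd (by omega))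
  have h3 : q ^ 4 * (q ^ 2 - 1) ^ 2 ≡ 4 [MOD r] := by
    have h5 : ((q : ZMod r)) ^ 2 + 1 = 0 := by
      have := (ZMod.natCast_eq_zero_iff (q ^ 2 + 1) r).2 hdq
      push_cast at this
      exact this
    rw [← ZMod.natCast_eq_natCast_iff, Nat.cast_mul, Nat.cast_pow, Nat.cast_pow,
      Nat.cast_sub (Nat.one_le_pow _ _ (by omega))]
    push_cast
    linear_combination ((q : ZMod r) ^ 6 - 3 * q ^ 4 + 4 * q ^ 2 - 4) * h5
  have h4 : 4 < r := by
    have h5 := hr.two_le
    have h6 : r ≠ 2 := fun h => two_tt (q := q) (by omega) (h ▸ hrm)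
    have h7 : r ≠ 3 := by
      rintro rfl
      have h8 : (q ^ 2 + 1) % 3 = 0 := Nat.mod_eq_zero_of_dvd hdq
      have h9 : q % 3 = 0 ∨ q % 3 = 1 ∨ q % 3 = 2 := by omega
      rcases h9 with h9 | h9 | h9 <;> rw [Nat.add_mod, Nat.pow_mod, h9] at h8 <;> norm_num at h8
    have h8 : r ≠ 4 := by rintro rfl; exact absurd hr (by decide)
    omega
  have h5 : n < r := by
    have := Nat.le_of_dvd (by omega) h1
    omega
  exact Nat.ModEq.eq_of_lt_of_lt (h2.symm.trans h3) h5 h4

/-- splitting of a prime power dividing `(q² - 1)²` -/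
theorem split_sq (hq : 2 ≤ q) {v c : ℕ} (hv : v.Prime) (hv2 : v ≠ 2) (h : v ^ c ∣ (q ^ 2 - 1) ^ 2) :
    v ^ c ∣ (q - 1) ^ 2 ∨ v ^ c ∣ (q + 1) ^ 2 := by
  rw [sq_eq hq, mul_pow] at h
  by_cases h1 : v ∣ q + 1
  · right
    have h2 : ¬ v ∣ q - 1 := by
      intro h3
      have h4 : v ∣ (q + 1) - (q - 1) := Nat.dvd_sub h1 h3
      have h5 : (q + 1) - (q - 1) = 2 := by omega
      rw [h5] at h4
      exact hv2 ((Nat.prime_dvd_prime_iff_eq hv Nat.prime_two).1 h4)
    exact (Nat.Coprime.pow c 2 ((Nat.Prime.coprime_iff_not_dvd hv).2 h2)).dvd_of_dvd_mul_left h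
  · left
    exact (Nat.Coprime.pow c 2 ((Nat.Prime.coprime_iff_not_dvd hv).2 h1)).dvd_of_dvd_mul_right h

/-- odd primes do not divide the kernel -/
theorem odd_part (hq : 3 ≤ q) {v c : ℕ} (hv : v.Prime) (hv2 : v ≠ 2) (h : v ^ c ∣ (q ^ 2 - 1) ^ 2)
    (ht : tt q ∣ v ^ c - 1) : c = 0 := by
  by_contra hc
  have hvodd : Odd v := hv.eq_two_or_odd'.resolve_left hv2
  have hvc : Odd (v ^ c) := hvodd.pow
  have hv3 : 3 ≤ v := by have := hv.two_le; omega
  have hvc1 : 3 ≤ v ^ c := hv3.trans (Nat.le_self_pow hc v)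
  have h1 := split_sq (by omega) hv hv2 h
  rcases Nat.even_or_odd q with he | ho
  · rw [tt_even he (by omega)] at ht
    have h2 : 2 * (q ^ 2 + 1) ∣ v ^ c - 1 := by
      apply Nat.Coprime.mul_dvd_of_dvd_of_dvd _ _ ht
      · rw [Nat.coprime_two_left]
        exact (he.pow_of_ne_zero (by norm_num)).add_one
      · obtain ⟨a, ha⟩ := hvc
        exact ⟨a, by omega⟩
    have h3 := Nat.le_of_dvd (by omega) h2
    have h4 : v ^ c ≤ (q + 1) ^ 2 := by
      rcases h1 with h1 | h1
      · refine (Nat.le_of_dvd (pow_pos (by omega) 2) h1).trans (Nat.pow_le_pow_left (by omega) 2)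
      · exact Nat.le_of_dvd (pow_pos (by omega) 2) h1
    have h5 : 2 * (q ^ 2 + 1) + 1 ≤ v ^ c := by omega
    nlinarith
  · have h2 := tt_odd ho (by omega)
    have h3 := Nat.le_of_dvd (by omega) ht
    obtain ⟨m, hm⟩ := ho
    have h4 : v ^ c ≤ (m + 1) ^ 2 := by
      have key : ∀ k, v ^ c ∣ (2 * k) ^ 2 → v ^ c ∣ k ^ 2 := by
        intro k hk
        have : (2 * k) ^ 2 = 4 * k ^ 2 := by ring
        rw [this] at hk
        have h5 : Nat.Coprime (v ^ c) 4 := by
          have h6 : Nat.Coprime (v ^ c) 2 := by rw [Nat.coprime_two_right]; exact hvc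
          exact Nat.Coprime.pow_right 2 h6
        exact h5.dvd_of_dvd_mul_left hk
      rcases h1 with h1 | h1
      · have h5 : q - 1 = 2 * m := by omega
        rw [h5] at h1
        exact (Nat.le_of_dvd (pow_pos (by omega) 2) (key _ h1)).trans (Nat.pow_le_pow_left (by omega) 2)
      · have h5 : q + 1 = 2 * (m + 1) := by omega
        rw [h5] at h1
        exact Nat.le_of_dvd (pow_pos (by omega) 2) (key _ h1)
    have h5 : q ^ 2 + 1 = 2 * (2 * m ^ 2 + 2 * m + 1) := by rw [hm]; ring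
    have h6 : tt q = 2 * m ^ 2 + 2 * m + 1 := by omega
    rw [h6] at h3
    have h7 : 2 * m ^ 2 + 2 * m + 1 + 1 ≤ (m + 1) ^ 2 := by omega
    nlinarith

/-- the two halves of `q = 2 m + 1` -/
theorem halves (m : ℕ) (hm : 1 ≤ m) : ∃ w b e : ℕ, w = 2 ^ e ∧ 1 ≤ e ∧ Odd b ∧
    ((m = w * b ∧ Odd (m + 1)) ∨ (m + 1 = w * b ∧ Odd m)) := by
  rcases Nat.even_or_odd m with he | ho
  · obtain ⟨e, b, hb, hm2⟩ := Nat.exists_eq_two_pow_mul_odd (show m ≠ 0 by omega)
    refine ⟨2 ^ e, b, e, rfl, ?_, hb, Or.inl ⟨hm2, he.add_one⟩⟩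
    by_contra hcon
    have : e = 0 := by omega
    rw [this, pow_zero, one_mul] at hm2
    rw [hm2] at he
    exact (Nat.not_even_iff_odd.2 hb) he
  · obtain ⟨e, b, hb, hm2⟩ := Nat.exists_eq_two_pow_mul_odd (show m + 1 ≠ 0 by omega)
    refine ⟨2 ^ e, b, e, rfl, ?_, hb, Or.inr ⟨hm2, ho⟩⟩
    by_contra hcon
    have : e = 0 := by omega
    rw [this, pow_zero, one_mul] at hm2
    have h3 : Even (m + 1) := ho.add_one
    rw [hm2] at h3
    exact (Nat.not_even_iff_odd.2 hb) h3

theorem tt_half (m : ℕ) (hm : 1 ≤ m) : tt (2 * m + 1) = 2 * m ^ 2 + 2 * m + 1 := by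
  have h1 := tt_odd (q := 2 * m + 1) ⟨m, rfl⟩ (by omega)
  have h2 : (2 * m + 1) ^ 2 + 1 = 2 * (2 * m ^ 2 + 2 * m + 1) := by ring
  omega

theorem sq_half (m : ℕ) : (2 * m + 1) ^ 2 - 1 = 4 * (m * (m + 1)) := by
  have : (2 * m + 1) ^ 2 = 4 * (m * (m + 1)) + 1 := by ring
  omega

/-- the `2`-part of the kernel, `q` odd -/
theorem two_part {m c : ℕ} (hm : 2 ≤ m) (h : 2 ^ c ∣ ((2 * m + 1) ^ 2 - 1) ^ 2) (ht : tt (2 * m + 1) ∣ 2 ^ c - 1) :
    c = 0 := by
  by_contra hc
  rw [tt_half m (by omega)] at ht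
  rw [sq_half] at h
  obtain ⟨w, b, e, hw, he, hb, hcase⟩ := halves m (by omega)
  -- `2 ^ c ≤ 16 w²`
  have hce : c ≤ 4 + 2 * e := by
    have h1 : 2 ^ c ∣ 2 ^ (4 + 2 * e) := by
      rcases hcase with ⟨h1, h2⟩ | ⟨h1, h2⟩
      · have h3 : (4 * (m * (m + 1))) ^ 2 = 2 ^ (4 + 2 * e) * (b * (m + 1)) ^ 2 := by
          have h4 : m * (m + 1) = w * (b * (m + 1)) := by
            rw [← mul_assoc, ← h1]
          rw [h4, hw, pow_add, pow_mul']; ring
        rw [h3] at h
        refine Nat.Coprime.dvd_of_dvd_mul_right (Nat.Coprime.pow_left c ?_) h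
        rw [Nat.coprime_two_left]
        exact (hb.mul h2).pow
      · have h3 : (4 * (m * (m + 1))) ^ 2 = 2 ^ (4 + 2 * e) * (b * m) ^ 2 := by
          have h4 : m * (m + 1) = w * (b * m) := by
            rw [← mul_assoc, ← h1]; ring
          rw [h4, hw, pow_add, pow_mul']; ring
        rw [h3] at h
        refine Nat.Coprime.dvd_of_dvd_mul_right (Nat.Coprime.pow_left c ?_) h
        rw [Nat.coprime_two_left]
        exact (hb.mul h2).pow
    exact (Nat.pow_dvd_pow_iff_le_right (by norm_num)).1 h1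
  have hpos : 2 ≤ 2 ^ c := Nat.le_self_pow hc 2
  have hc1 : 1 ≤ c := Nat.pos_of_ne_zero hc
  have hle0 := Nat.le_of_dvd (by omega) ht
  have hle : 2 * m ^ 2 + 2 * m + 2 ≤ 2 ^ c := by omega
  clear hle0
  have h16 : 2 ^ c ≤ 16 * w ^ 2 := by
    have h1 : (2 : ℕ) ^ (4 + 2 * e) = 16 * w ^ 2 := by rw [hw, pow_add, pow_mul']; ring
    rw [← h1]
    exact Nat.pow_le_pow_right (by norm_num) hce
  have hw2 : 2 ≤ w := by rw [hw]; exact Nat.le_self_pow (by omega) 2
  have hb3 : b = 1 ∨ 3 ≤ b := by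
    obtain ⟨k, hk⟩ := hb
    omega
  rcases hb3 with rfl | hb3
  · -- `b = 1`
    rw [mul_one] at hcase
    by_cases he5 : e ≤ 4
    · interval_cases e
      all_goals
        norm_num at hw
        subst hw
        rcases hcase with ⟨h1, -⟩ | ⟨h1, -⟩
        all_goals
          first
          | (have h2 : m = 2 := by omega
             subst h2; interval_cases c <;> revert ht <;> decide)
          | (have h2 : m = 3 := by omega
             subst h2; interval_cases c <;> revert ht <;> decide)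
          | (have h2 : m = 4 := by omega
             subst h2; interval_cases c <;> revert ht <;> decide)
          | (have h2 : m = 7 := by omega
             subst h2; interval_cases c <;> revert ht <;> decide)
          | (have h2 : m = 8 := by omega
             subst h2; interval_cases c <;> revert ht <;> decide)
          | (have h2 : m = 15 := by omega
             subst h2; interval_cases c <;> revert ht <;> decide)
          | (have h2 : m = 16 := by omega
             subst h2; interval_cases c <;> revert ht <;> decide)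
          | omega
    · have hw32 : 32 ≤ w := by
        rw [hw]
        calc 32 = 2 ^ 5 := by norm_num
          _ ≤ 2 ^ e := Nat.pow_le_pow_right (by norm_num) (by omega)
      have hc2 : 2 * e + 1 ≤ c := by
        by_contra hcon
        have h1 : 2 ^ c ≤ w ^ 2 := by
          have h2 : (2 : ℕ) ^ (2 * e) = w ^ 2 := by rw [hw, pow_mul']
          rw [← h2]
          exact Nat.pow_le_pow_right (by norm_num) (by omega)
        rcases hcase with ⟨h2, -⟩ | ⟨h2, -⟩
        · rw [h2] at hle; nlinarith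
        · have h3 : w ≤ 2 * m := by omega
          nlinarith
      obtain ⟨j, rfl⟩ := Nat.exists_eq_add_of_le hc2
      have hj : j ≤ 3 := by omega
      have h2j : 2 ^ j ≤ 8 := by
        calc 2 ^ j ≤ 2 ^ 3 := Nat.pow_le_pow_right (by norm_num) hj
          _ = 8 := by norm_num
      have h2j1 : 1 ≤ 2 ^ j := Nat.one_le_pow _ _ (by norm_num)
      have hpw : 2 ^ (2 * e + 1 + j) = 2 ^ j * (2 * w ^ 2) := by
        rw [hw, pow_add, pow_add, pow_mul']; ring
      rw [hpw] at ht
      generalize 2 ^ j = z at *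
      rcases hcase with ⟨rfl, -⟩ | ⟨h2, -⟩
      · have h3 : 2 * m ^ 2 + 2 * m + 1 ∣ z * (2 * m + 1) + 1 := by
          have h4 : 2 * m ^ 2 + 2 * m + 1 ∣ (2 * m ^ 2 + 2 * m + 1) * z := Dvd.intro _ rfl
          have h5 := Nat.dvd_sub h4 ht
          have h6 : (2 * m ^ 2 + 2 * m + 1) * z - (z * (2 * m ^ 2) - 1) = z * (2 * m + 1) + 1 := by
            have h7 : 1 ≤ z * (2 * m ^ 2) := by nlinarith
            have h8 : (2 * m ^ 2 + 2 * m + 1) * z = z * (2 * m ^ 2) + z * (2 * m + 1) := by ring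
            omega
          rwa [h6] at h5
        have h4 := Nat.le_of_dvd (by omega) h3
        nlinarith
      · obtain ⟨rfl⟩ : w = m + 1 := h2.symm
        have h3 : 2 * m ^ 2 + 2 * m + 1 ∣ z * (2 * m + 1) - 1 := by
          have h4 : 2 * m ^ 2 + 2 * m + 1 ∣ (2 * m ^ 2 + 2 * m + 1) * z := Dvd.intro _ rfl
          have h5 := Nat.dvd_sub ht h4
          have h6 : (z * (2 * (m + 1) ^ 2) - 1) - (2 * m ^ 2 + 2 * m + 1) * z = z * (2 * m + 1) - 1 := by
            have h8 : z * (2 * (m + 1) ^ 2) = (2 * m ^ 2 + 2 * m + 1) * z + z * (2 * m + 1) := by ring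
            omega
          rwa [h6] at h5
        have h4 := Nat.le_of_dvd (by have : 1 < z * (2 * m + 1) := by nlinarith
                                     omega) h3
        have h5 : 2 * m ^ 2 + 2 * m + 1 + 1 ≤ z * (2 * m + 1) := by
          have : 1 < z * (2 * m + 1) := by nlinarith
          omega
        nlinarith
  · rcases hcase with ⟨h1, -⟩ | ⟨h1, -⟩
    · have h2 : 3 * w ≤ m := by rw [h1]; nlinarith
      nlinarith
    · have h2 : 3 * w ≤ m + 1 := by rw [h1]; nlinarith
      have h3 : 2 * m ^ 2 + 2 * m + 2 ≤ 16 * w ^ 2 := by omega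
      have hw3 : w < 4 := by
        by_contra hcon
        nlinarith
      have he1 : e = 1 := by
        by_contra hcon
        have : 2 ^ 2 ≤ 2 ^ e := Nat.pow_le_pow_right (by norm_num) (by omega)
        omega
      subst he1
      norm_num at hw
      subst hw
      have hm5 : m = 5 := by
        have h4 : m ≤ 5 := by
          by_contra hcon
          nlinarith
        omega
      subst hm5
      interval_cases c <;> revert ht <;> decide

end Arith

end Cfsg.Agent.H365.SpFour
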