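import Mathlib
import Cfsg.Agent.H365.SpFourB
import Cfsg.Agent.H902.Cross

/-!
# Groups with the order and the spectrum of `PSp₄(q)`: no simple group of order `t (q² - 1)²`
-/

set_option autoImplicit false

namespace Cfsg.Agent.H365.SpFour

open Cfsg.Agent.H902.Art

/-- the order -/
def N0 (m : ℕ) : ℕ := 16 * (m * (m + 1)) ^ 2 * (2 * (m * (m + 1)) + 1)

theorem N0_eq (m : ℕ) (hm : 1 ≤ m) : tt (2 * m + 1) * ((2 * m + 1) ^ 2 - 1) ^ 2 = N0 m := by
  rw [tt_half m hm, sq_half, N0]; ring

set_option maxRecDepth 100000 in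
theorem chk : ∀ e ∈ List.range' 1 13, ∀ i ∈ [1, 2], ∀ a ∈ ents 2 (5 + 2 * e - i),
    val 2 a * i ≠ N0 (2 ^ e) ∧ val 2 a * i ≠ N0 (2 ^ e - 1) := by
  decide +kernel

theorem P_odd_two {a : ℕ} (ha : Odd a) : P 2 a = 1 := P_eq_one (by
  rw [← even_iff_two_dvd, Nat.not_even_iff_odd]; exact ha)

/-- **No simple group of Lie type of order `t (q² - 1)²` or half of it.** -/
theorem no_full {m i MS : ℕ} (hm : 2 ≤ m) (hi : i = 1 ∨ i = 2) (hMS : MS * i = N0 m) {X : Sh} {v g : ℕ}
    (hX : Real X v g MS) : False := by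
  have hv := hX.hp
  have hM0 := hX.M_ne
  have hlt := hX.lt_cube
  have hP := hX.P_self
  have hu6 : 6 ≤ m * (m + 1) := by nlinarith
  have hi0 : i ≠ 0 := by omega
  have hPi : P v MS * P v i = P v (N0 m) := by rw [← P_mul hM0 hi0, hMS]
  have hN : P v (N0 m) = P v 16 * (P v (m * (m + 1)) * P v (m * (m + 1))) * P v (2 * (m * (m + 1)) + 1) := by
    rw [N0, P_mul (by positivity) (by positivity), P_mul (by norm_num) (by positivity), pow_two,
      P_mul (by positivity) (by positivity)]
  have h2MS : N0 m ≤ 2 * MS := by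
    rw [← hMS]
    rcases hi with rfl | rfl <;> omega
  by_cases hv2 : v = 2
  · subst hv2
    obtain ⟨w, b, e, hw, he, hb, hcase⟩ := halves m (by omega)
    have hw2 : 2 ≤ w := by rw [hw]; exact Nat.le_self_pow (by omega) 2
    -- the odd part of `u`
    obtain ⟨o, ho, huo, hob⟩ : ∃ o, Odd o ∧ m * (m + 1) = w * o ∧ ((m = w * b ∧ o = b * (m + 1)) ∨ (m + 1 = w * b ∧ o = b * m)) := by
      rcases hcase with ⟨h1, h2⟩ | ⟨h1, h2⟩
      · refine ⟨b * (m + 1), hb.mul h2, ?_, Or.inl ⟨h1, rfl⟩⟩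
        rw [← mul_assoc, ← h1]
      · refine ⟨b * m, hb.mul h2, ?_, Or.inr ⟨h1, rfl⟩⟩
        rw [← mul_assoc, ← h1]; ring
    have ho0 : o ≠ 0 := by rintro rfl; rw [mul_zero] at huo; omega
    have hPu : P 2 (m * (m + 1)) = w := by
      rw [huo, hw]
      exact P_pow_self Nat.prime_two (by rw [← even_iff_two_dvd, Nat.not_even_iff_odd]; exact ho)
    have hP16 : P 2 16 = 16 := by
      have : (16 : ℕ) = 2 ^ 4 * 1 := by norm_num
      rw [this, P_pow_self Nat.prime_two (by norm_num)]; norm_num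
    have hPl : P 2 (2 * (m * (m + 1)) + 1) = 1 := P_odd_two ⟨m * (m + 1), rfl⟩
    rw [hPu, hP16, hPl, mul_one] at hN
    have hPi2 : P 2 i = i := by
      rcases hi with rfl | rfl
      · exact P_eq_one (by norm_num)
      · have h := P_pow_self (r := 2) (k := 1) (a := 1) Nat.prime_two (by norm_num)
        simpa using h
    rw [hPi2, hN] at hPi
    obtain ⟨A, hA⟩ : ∃ A, A = P 2 MS := ⟨_, rfl⟩
    rw [← hA] at hPi hP hlt
    have hApos : 0 < A := by rw [hA]; exact P_pos Nat.prime_two
    obtain ⟨M', hM'⟩ : A ∣ MS := by rw [hA]; exact P_dvd 2 MS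
    have hM'eq : M' = o ^ 2 * (2 * (m * (m + 1)) + 1) := by
      have h1 : (16 * (w * w)) * M' = (16 * (w * w)) * (o ^ 2 * (2 * (m * (m + 1)) + 1)) := by
        have h2 : A * M' * i = 16 * (w * o) ^ 2 * (2 * (m * (m + 1)) + 1) := by
          rw [← hM', hMS, N0, huo]
        calc (16 * (w * w)) * M' = A * i * M' := by rw [hPi]
          _ = A * M' * i := by ring
          _ = _ := by rw [h2]; ring
      exact Nat.eq_of_mul_eq_mul_left (by positivity) h1
    -- the exponent
    have hexp : g * NN X = 5 + 2 * e - i := by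
      rw [P_prime_exp hX]
      have h1 : 2 ^ (MS.factorization 2) * i = 2 ^ (4 + 2 * e) := by
        have : A = 2 ^ (MS.factorization 2) := hA
        rw [← this, hPi, hw, pow_add, pow_mul']; ring
      rcases hi with rfl | rfl
      · rw [mul_one] at h1
        have := Nat.pow_right_injective (le_refl 2) h1
        omega
      · rw [← pow_succ] at h1
        have := Nat.pow_right_injective (le_refl 2) h1
        omega
    have hA16 : A ≤ 16 * (w * w) := by
      rw [← hPi]; exact Nat.le_mul_of_pos_right _ (by omega)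
    have hA8 : 8 * (w * w) ≤ A := by
      rcases hi with rfl | rfl <;> omega
    have hb3 : b = 1 ∨ 3 ≤ b := by
      obtain ⟨k, hk⟩ := hb
      omega
    have big : 3 ≤ b → 686 * (w * w * (w * w)) < M' := by
      intro hb
      have h1 : 3 * w ≤ m + 1 ∧ 7 * w ≤ o := by
        rcases hob with ⟨h6, h7⟩ | ⟨h6, h7⟩
        · have h8 : 3 * w ≤ m := by rw [h6]; nlinarith
          refine ⟨by omega, ?_⟩
          rw [h7]; nlinarith
        · have h8 : 3 * w ≤ m + 1 := by rw [h6]; nlinarith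
          refine ⟨h8, ?_⟩
          rw [h7]; nlinarith
      rw [hM'eq, huo]
      have h2 : 7 * (w * w) ≤ w * o := by nlinarith [h1.2]
      have h3 : (7 * w) * (7 * w) ≤ o * o := Nat.mul_le_mul h1.2 h1.2
      calc 686 * (w * w * (w * w)) = ((7 * w) * (7 * w)) * (2 * (7 * (w * w))) := by ring
        _ < ((7 * w) * (7 * w)) * (2 * (w * o) + 1) := Nat.mul_lt_mul_of_pos_left (by omega) (by positivity)
        _ ≤ (o * o) * (2 * (w * o) + 1) := Nat.mul_le_mul_right _ h3
        _ = _ := by ring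
    -- small `e`
    have fin : b = 1 → e ≤ 13 → False := by
      intro hb1 he10
      subst hb1
      have hmem := mem_ents hX hexp
      have hval := val_eq hX
      obtain ⟨c1, c2⟩ := chk e (List.mem_range'_1.2 ⟨he, by omega⟩) i (by simp; exact hi) _ hmem
      rw [hval, hMS] at c1 c2
      rcases hcase with ⟨h1, -⟩ | ⟨h1, -⟩
      · apply c1; rw [h1, hw, mul_one]
      · apply c2
        have : m = 2 ^ e - 1 := by rw [← hw]; omega
        rw [this]
    by_cases hXL : X = .L 2
    · subst hXL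
      obtain ⟨-, h1⟩ := L2_eq hX
      rcases h1 with ⟨-, h1⟩ | ⟨h1, -⟩
      swap
      · exact h1 rfl
      have hAg : 2 ^ g = A := by rw [hP]; show 2 ^ g = (2 ^ g) ^ 1; rw [pow_one]
      rw [hAg] at h1
      have h3 : M' = (A - 1) * (A + 1) := by
        rw [hM'] at h1
        exact Nat.eq_of_mul_eq_mul_left hApos h1
      have h4 : M' + 1 = A * A := by
        rw [h3]
        obtain ⟨k, hk⟩ := Nat.exists_eq_add_of_le' (show 1 ≤ A by omega)
        rw [hk, Nat.add_sub_cancel]; ring
      rcases hb3 with rfl | hb3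
      · -- `M'` is small
        have h5 : m + 1 ≤ w + 1 ∧ o ≤ w + 1 := by
          rcases hob with ⟨h6, h7⟩ | ⟨h6, h7⟩ <;> omega
        have h6 : m * (m + 1) ≤ w * (w + 1) := Nat.mul_le_mul (by omega) h5.1
        have h7 : M' ≤ (w + 1) ^ 2 * (2 * (w * (w + 1)) + 1) := by
          rw [hM'eq]
          exact Nat.mul_le_mul (Nat.pow_le_pow_left h5.2 2) (by omega)
        have h8 : 64 * (w * w) * (w * w) ≤ A * A := by nlinarith
        nlinarith [mul_pos (show 0 < w by omega) (show 0 < w by omega)]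
      · -- `M'` is large
        have h5 := big hb3
        have h6 : A * A ≤ (16 * (w * w)) * (16 * (w * w)) := Nat.mul_le_mul hA16 hA16
        have h7 : 0 < w * w * (w * w) := by positivity
        nlinarith
    · -- the other shapes
      have h1 := hX.num_cube hXL
      have h2 : M' ≤ num X (2 ^ g) := by
        have h3 := hX.eq
        rw [hM', hP] at h3
        have h4 : (2 ^ g) ^ NN X * (dd X (2 ^ g) * M') = (2 ^ g) ^ NN X * num X (2 ^ g) := by
          rw [← h3]; ring
        have h5 := Nat.eq_of_mul_eq_mul_left (by positivity) h4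
        rw [← h5]
        exact Nat.le_mul_of_pos_left _ (Nat.pos_of_ne_zero hX.dd_ne)
      have h3 : M' ^ 3 ≤ (16 * (w * w)) ^ 5 := by
        refine (Nat.pow_le_pow_left h2 3).trans (h1.trans ?_)
        rw [← hP]
        exact Nat.pow_le_pow_left hA16 5
      have h4 : (16 * (w * w)) ^ 5 = 2 ^ 20 * (w ^ 2) ^ 5 := by ring
      rw [h4] at h3
      rcases hb3 with hb1 | hb3
      · -- `b = 1`
        apply fin hb1
        subst hb1
        have h5 : w ≤ o + 1 := by
          rcases hob with ⟨h6, h7⟩ | ⟨h6, h7⟩ <;> omega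
        have h6 : w * w ≤ 2 * (w * o) + 0 := by nlinarith
        have h7 : w ≤ 2 * o := by omega
        have h8 : w ^ 4 ≤ 4 * M' := by
          rw [hM'eq, huo]
          have h9 : w * w ≤ (2 * o) * (2 * o) := Nat.mul_le_mul h7 h7
          have h10 : w * w ≤ 2 * (w * o) + 1 := by nlinarith
          calc w ^ 4 = (w * w) * (w * w) := by ring
            _ ≤ ((2 * o) * (2 * o)) * (2 * (w * o) + 1) := Nat.mul_le_mul h9 h10
            _ = _ := by ring
        have h9 : (w ^ 4) ^ 3 ≤ 64 * (2 ^ 20 * (w ^ 2) ^ 5) := by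
          calc (w ^ 4) ^ 3 ≤ (4 * M') ^ 3 := Nat.pow_le_pow_left h8 3
            _ = 64 * M' ^ 3 := by ring
            _ ≤ _ := Nat.mul_le_mul_left _ h3
        have h10 : (w ^ 2) ^ 5 * w ^ 2 ≤ (w ^ 2) ^ 5 * 2 ^ 26 := by
          calc (w ^ 2) ^ 5 * w ^ 2 = (w ^ 4) ^ 3 := by ring
            _ ≤ 64 * (2 ^ 20 * (w ^ 2) ^ 5) := h9
            _ = _ := by ring
        have h11 := Nat.le_of_mul_le_mul_left h10 (by positivity)
        rw [hw, ← pow_mul] at h11
        have h12 := (Nat.pow_le_pow_iff_right (by norm_num : 1 < 2)).1 h11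
        omega
      · -- `b ≥ 3`
        have h5 := big hb3
        have h6 : (686 * (w * w * (w * w))) ^ 3 ≤ 2 ^ 20 * (w ^ 2) ^ 5 :=
          (Nat.pow_le_pow_left h5.le 3).trans h3
        have h7 : (w ^ 2) ^ 5 * (686 ^ 3 * w ^ 2) ≤ (w ^ 2) ^ 5 * 2 ^ 20 := by
          calc (w ^ 2) ^ 5 * (686 ^ 3 * w ^ 2) = (686 * (w * w * (w * w))) ^ 3 := by ring
            _ ≤ _ := h6
            _ = _ := by ring
        have h8 := Nat.le_of_mul_le_mul_left h7 (by positivity)
        have h9 : 0 < w ^ 2 := by positivity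
        omega
  · -- odd characteristic
    have hP16 : P v 16 = 1 := by
      refine P_eq_one fun h => hv2 ?_
      have h1 : v ∣ 2 ^ 4 := by norm_num; exact h
      exact (Nat.prime_dvd_prime_iff_eq hv Nat.prime_two).1 (hv.dvd_of_dvd_pow h1)
    have hPi1 : P v i = 1 := by
      rcases hi with rfl | rfl
      · exact P_eq_one fun h => hv.one_lt.ne' (Nat.dvd_one.1 h)
      · exact P_eq_one fun h => hv2 ((Nat.prime_dvd_prime_iff_eq hv Nat.prime_two).1 h)
    rw [hPi1, mul_one, hN, hP16, one_mul] at hPi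
    have hN0 : N0 m = 16 * (m * (m + 1)) ^ 2 * (2 * (m * (m + 1)) + 1) := rfl
    obtain ⟨u, hu⟩ : ∃ u, u = m * (m + 1) := ⟨_, rfl⟩
    by_cases hd : v ∣ 2 * (m * (m + 1)) + 1
    · have hPu : P v (m * (m + 1)) = 1 := by
        refine P_eq_one fun h => hv.one_lt.ne' ?_
        have h1 : v ∣ (2 * (m * (m + 1)) + 1) - 2 * (m * (m + 1)) := Nat.dvd_sub hd (h.mul_left 2)
        have h2 : (2 * (m * (m + 1)) + 1) - 2 * (m * (m + 1)) = 1 := by omega
        rw [h2] at h1
        exact Nat.dvd_one.1 h1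
      rw [hPu, one_mul, one_mul] at hPi
      have h1 : P v MS ≤ 2 * (m * (m + 1)) + 1 := by
        rw [hPi]; exact P_le (by omega)
      have h2 : MS < (2 * (m * (m + 1)) + 1) ^ 3 := hlt.trans_le (Nat.pow_le_pow_left h1 3)
      rw [← hu] at h2 hN0 hu6
      rw [hN0] at h2MS
      have h3 : 16 * u ^ 2 * (2 * u + 1) < 2 * (2 * u + 1) ^ 2 * (2 * u + 1) := by
        calc 16 * u ^ 2 * (2 * u + 1) ≤ 2 * MS := h2MS
          _ < 2 * (2 * u + 1) ^ 3 := by omega
          _ = _ := by ring
      have h4 := Nat.lt_of_mul_lt_mul_right h3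
      nlinarith
    · rw [P_eq_one hd, mul_one] at hPi
      have h1 : P v (m * (m + 1)) ≤ m + 1 := by
        rw [P_mul (by omega) (by omega)]
        by_cases h2 : v ∣ m
        · have h3 : P v (m + 1) = 1 := by
            refine P_eq_one fun h => hv.one_lt.ne' ?_
            have h4 : v ∣ (m + 1) - m := Nat.dvd_sub h h2
            rw [Nat.add_sub_cancel_left] at h4
            exact Nat.dvd_one.1 h4
          rw [h3, mul_one]
          exact (P_le (by omega)).trans (by omega)
        · rw [P_eq_one h2, one_mul]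
          exact P_le (by omega)
      have h2 : P v MS ≤ (m + 1) * (m + 1) := by
        rw [hPi]; exact Nat.mul_le_mul h1 h1
      have h3 : MS < ((m + 1) * (m + 1)) ^ 3 := hlt.trans_le (Nat.pow_le_pow_left h2 3)
      have h4 : (m + 1) ^ 3 * (16 * m ^ 3) < (m + 1) ^ 3 * (m + 1) ^ 3 := by
        have h5 : 32 * (m * (m + 1)) ^ 3 ≤ N0 m := by
          rw [hN0]
          calc 32 * (m * (m + 1)) ^ 3 = 16 * (m * (m + 1)) ^ 2 * (2 * (m * (m + 1))) := by ring
            _ ≤ _ := Nat.mul_le_mul_left _ (by omega)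
        calc (m + 1) ^ 3 * (16 * m ^ 3) = 16 * (m * (m + 1)) ^ 3 := by ring
          _ ≤ MS := by omega
          _ < ((m + 1) * (m + 1)) ^ 3 := h3
          _ = _ := by ring
      have h6 := Nat.lt_of_mul_lt_mul_left h4
      have h7 : (m + 1) ^ 3 ≤ (2 * m) ^ 3 := Nat.pow_le_pow_left (by omega) 3
      have h8 : (2 * m) ^ 3 = 8 * m ^ 3 := by ring
      omega

end Cfsg.Agent.H365.SpFour
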